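import Mathlib
import Cfsg.Agent.Helper21.N2RDefs

/-!
# CALL S2249, PIECE R2 (helper67): `two_core`
-/

set_option autoImplicit false

namespace Cfsg.Agent.Helper67.N2RR2

open Matrix Cfsg.Agent.Helper21.N2R

/-- R2 -/
theorem two_core {F : Type*} [Field F] (h2 : (2 : F) ≠ 0) (hns : ∀ y : F, y * y ≠ -1) (x : F)
    (Mu : GL (Fin 2) F) (hMu : (Mu : Matrix (Fin 2) (Fin 2) F) = !![x, -x; x, x])
    (α : Matrix (Fin 2) (Fin 2) F) (hαα : α * α = 1)
    (hc : α * ((Mu : Matrix (Fin 2) (Fin 2) F) * α * ((Mu⁻¹ : GL (Fin 2) F) : Matrix (Fin 2) (Fin 2) F))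
        = ((Mu : Matrix (Fin 2) (Fin 2) F) * α * ((Mu⁻¹ : GL (Fin 2) F) : Matrix (Fin 2) (Fin 2) F)) * α) :
    α = 1 ∨ α = -1 := by
  have hx : x ≠ 0 := by
    rintro rfl
    have hdet := Matrix.isUnits_det_units Mu
    rw [hMu, Matrix.det_fin_two_of] at hdet
    simp at hdet
  obtain ⟨M', hM'⟩ : ∃ M' : Matrix (Fin 2) (Fin 2) F,
      M' = ((Mu⁻¹ : GL (Fin 2) F) : Matrix (Fin 2) (Fin 2) F) := ⟨_, rfl⟩
  have hinv1 : M' * (Mu : Matrix (Fin 2) (Fin 2) F) = 1 := by
    rw [hM', ← Units.val_mul, inv_mul_cancel, Units.val_one]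
  obtain ⟨k, hk⟩ : ∃ k : F, 2 * x * k = 1 :=
    ⟨(2 * x)⁻¹, mul_inv_cancel₀ (mul_ne_zero h2 hx)⟩
  obtain ⟨hf, hhf⟩ : ∃ hf : F, 2 * hf = 1 := ⟨2⁻¹, mul_inv_cancel₀ h2⟩
  have hxk : x * k = hf := by
    apply mul_left_cancel₀ h2
    linear_combination hk - hhf
  have hN : (Mu : Matrix (Fin 2) (Fin 2) F) * !![k, k; -k, k] = 1 := by
    rw [hMu, Matrix.mul_fin_two, Matrix.one_fin_two]
    have e1 : x * k + -x * -k = 1 := by linear_combination hk
    have e2 : x * k + -x * k = 0 := by ring
    have e3 : x * k + x * -k = 0 := by ring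
    have e4 : x * k + x * k = 1 := by linear_combination hk
    rw [e1, e2, e3, e4]
  have hM'eq : M' = !![k, k; -k, k] := by
    calc M' = M' * 1 := (mul_one _).symm
      _ = M' * ((Mu : Matrix (Fin 2) (Fin 2) F) * !![k, k; -k, k]) := by rw [hN]
      _ = (M' * (Mu : Matrix (Fin 2) (Fin 2) F)) * !![k, k; -k, k] := (mul_assoc _ _ _).symm
      _ = !![k, k; -k, k] := by rw [hinv1, one_mul]
  rw [← hM'] at hc
  obtain ⟨a, b, c, d, hα⟩ : ∃ a b c d : F, α = !![a, b; c, d] :=
    ⟨_, _, _, _, Matrix.eta_fin_two α⟩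
  have hB : (Mu : Matrix (Fin 2) (Fin 2) F) * α * M'
      = !![hf * (a - c - b + d), hf * (a - c + b - d);
           hf * (a + c - b - d), hf * (a + c + b + d)] := by
    rw [hMu, hα, hM'eq, Matrix.mul_fin_two, Matrix.mul_fin_two]
    have e1 : (x * a + -x * c) * k + (x * b + -x * d) * -k
        = hf * (a - c - b + d) := by linear_combination (a - c - b + d) * hxk
    have e2 : (x * a + -x * c) * k + (x * b + -x * d) * k
        = hf * (a - c + b - d) := by linear_combination (a - c + b - d) * hxk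
    have e3 : (x * a + x * c) * k + (x * b + x * d) * -k
        = hf * (a + c - b - d) := by linear_combination (a + c - b - d) * hxk
    have e4 : (x * a + x * c) * k + (x * b + x * d) * k
        = hf * (a + c + b + d) := by linear_combination (a + c + b + d) * hxk
    rw [e1, e2, e3, e4]
  rw [hB, hα, Matrix.mul_fin_two, Matrix.mul_fin_two] at hc
  have h01 : a * (hf * (a - c + b - d)) + b * (hf * (a + c + b + d))
      = hf * (a - c - b + d) * b + hf * (a - c + b - d) * d := congrFun (congrFun hc 0) 1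
  have h10 : c * (hf * (a - c - b + d)) + d * (hf * (a + c - b - d))
      = hf * (a + c - b - d) * a + hf * (a + c + b + d) * c := congrFun (congrFun hc 1) 0
  have hS2 : (a - d) * (a - d) + (b + c) * (b + c) = 0 := by
    linear_combination h01 - h10 - ((a - d) * (a - d) + (b + c) * (b + c)) * hhf
  have hbc : b + c = 0 := by
    by_contra hne
    apply hns ((a - d) / (b + c))
    field_simp
    linear_combination hS2
  have had : a = d := by
    have h3 : (a - d) * (a - d) = 0 := by
      rw [hbc] at hS2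
      linear_combination hS2
    have h4 := mul_self_eq_zero.mp h3
    linear_combination h4
  rw [hα, Matrix.mul_fin_two, Matrix.one_fin_two] at hαα
  have k00 : a * a + b * c = 1 := congrFun (congrFun hαα 0) 0
  have k01 : a * b + b * d = 0 := congrFun (congrFun hαα 0) 1
  have hab : a * b = 0 := by
    have h5 : 2 * (a * b) = 0 := by linear_combination k01 + b * had
    exact (mul_eq_zero.mp h5).resolve_left h2
  rcases mul_eq_zero.mp hab with ha0 | hb0
  · exfalso
    apply hns b
    linear_combination b * hbc - k00 + a * ha0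
  · have hc0 : c = 0 := by linear_combination hbc - hb0
    have haa : a * a = 1 := by linear_combination k00 - b * hc0
    rcases mul_self_eq_one_iff.mp haa with h1 | h1
    · left
      rw [hα, hb0, hc0, ← had, h1, Matrix.one_fin_two]
    · right
      rw [hα, hb0, hc0, ← had, h1]
      ext i j
      fin_cases i <;> fin_cases j <;> simp

end Cfsg.Agent.Helper67.N2RR2
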