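import Mathlib
import Cfsg.Agent.Helper80.CharOrtho
import Cfsg.Agent.Helper80.LinChar
import Cfsg.Agent.Helper81.Blocks

set_option autoImplicit false

/-!
Piece K5 of CALL S0999 (helper9): degrees of the nonprincipal irreducible characters.
-/

open Cfsg
open scoped ComplexConjugate

universe u

namespace Cfsg.Agent.Helper67

theorem br_charDegree_trivIrr {G : Type u} [Group G] :
    Cfsg.charDegree (Helper81.trivIrr G : G → ℂ) = 1 := by
  unfold Cfsg.charDegree
  rw [Helper81.trivIrr_apply]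
  simp

theorem br_perfect_deg {G : Type u} [Group G] [Finite G] (hperf : commutator G = ⊤)
    (χ : Cfsg.IrrCharacter G) (hχ : χ ≠ Helper81.trivIrr G) :
    2 ≤ Cfsg.charDegree (χ : G → ℂ) := by
  have hpos := Helper81.charDegree_pos χ
  by_contra hlt
  have h1 : Cfsg.charDegree (χ : G → ℂ) = 1 := by omega
  obtain ⟨f, hf⟩ := Helper80.exists_hom_of_linear χ h1
  apply hχ
  rw [← hf]
  apply Subtype.ext
  funext g
  rw [Helper80.homIrr_apply, Helper81.trivIrr_apply]
  have h2 : commutator G ≤ f.ker := Abelianization.commutator_subset_ker f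
  rw [hperf] at h2
  have h3 : f g = 1 := MonoidHom.mem_ker.mp (h2 (Subgroup.mem_top g))
  rw [h3, Units.val_one]

theorem br_deg_sq_lt {G : Type u} [Group G] [Finite G]
    (χ : Cfsg.IrrCharacter G) (hχ : χ ≠ Helper81.trivIrr G) :
    Cfsg.charDegree (χ : G → ℂ) ^ 2 < Nat.card G := by
  classical
  have h0 := Helper80.irr_finsum_charDegree_sq (G := G)
  let _i : Fintype (Cfsg.IrrCharacter G) := Fintype.ofFinite _
  rw [finsum_eq_sum_of_fintype] at h0
  have h1 : ∑ ψ ∈ ({χ, Helper81.trivIrr G} : Finset (Cfsg.IrrCharacter G)),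
      Cfsg.charDegree (ψ : G → ℂ) ^ 2 ≤ ∑ ψ : Cfsg.IrrCharacter G, Cfsg.charDegree (ψ : G → ℂ) ^ 2 :=
    Finset.sum_le_sum_of_subset (Finset.subset_univ _)
  rw [Finset.sum_pair hχ, br_charDegree_trivIrr, h0] at h1
  omega

end Cfsg.Agent.Helper67
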