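import Mathlib
import Cfsg.Agent.Helper40.KGLDefs
set_option autoImplicit false
namespace Cfsg.Agent.Helper67
open Polynomial Cfsg.Agent.Helper40.KGL
open scoped DirectSum
universe u v

/-- a direct sum is linearly equivalent to its restriction to a subtype outside of which the
summands are trivial. -/
theorem kgl_directSum_subtype_equiv {R : Type*} [Semiring R] {ι : Type*} [DecidableEq ι]
    (β : ι → Type*) [∀ i, AddCommMonoid (β i)] [∀ i, Module R (β i)] (P : ι → Prop)
    [DecidablePred P] (h : ∀ i, ¬ P i → Subsingleton (β i)) :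
    Nonempty ((⨁ i, β i) ≃ₗ[R] (⨁ j : {i // P i}, β j.1)) := by
  classical
  let f : (⨁ i, β i) →ₗ[R] (⨁ j : {i // P i}, β j.1) :=
    DirectSum.toModule R ι _ (fun i =>
      if hi : P i then DirectSum.lof R {i // P i} (fun j => β j.1) ⟨i, hi⟩ else 0)
  let g : (⨁ j : {i // P i}, β j.1) →ₗ[R] (⨁ i, β i) :=
    DirectSum.toModule R {i // P i} _ (fun j => DirectSum.lof R ι β j.1)
  refine ⟨LinearEquiv.ofLinearMap f g ?_ ?_⟩
  · apply DirectSum.linearMap_ext
    intro j
    ext x
    simp only [LinearMap.comp_apply, LinearMap.id_apply, g, f, DirectSum.toModule_lof]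
    rw [dif_pos j.2]
  · apply DirectSum.linearMap_ext
    intro i
    ext x
    simp only [LinearMap.comp_apply, LinearMap.id_apply, g, f, DirectSum.toModule_lof]
    by_cases hi : P i
    · rw [dif_pos hi, DirectSum.toModule_lof]
    · rw [dif_neg hi]
      have := h i hi
      rw [Subsingleton.elim x 0]
      simp

theorem exists_normalized_decomp {F : Type u} [Field F] {V : Type v} [AddCommGroup V]
    [Module F V] [FiniteDimensional F V] (φ : Module.End F V) :
    ∃ (ι : Type u) (_ : Fintype ι) (p : ι → F[X]) (e : ι → ℕ),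
      (∀ i, Irreducible (p i) ∧ (p i).Monic ∧ 1 ≤ e i) ∧
      Nonempty (Module.AEval' φ ≃ₗ[F[X]] ⨁ i, F[X] ⧸ Submodule.span F[X] {p i ^ e i}) := by
  classical
  have htor : Module.IsTorsion F[X] (Module.AEval' φ) :=
    Module.AEval.isTorsion_of_finiteDimensional F V φ
  obtain ⟨ι₀, _, p₀, hp₀, e₀, ⟨ψ⟩⟩ := Module.equiv_directSum_of_isTorsion htor
  -- normalise the polynomials
  have hspan : ∀ i, Submodule.span F[X] {p₀ i ^ e₀ i}
      = Submodule.span F[X] {normalize (p₀ i) ^ e₀ i} := by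
    intro i
    exact Ideal.span_singleton_eq_span_singleton.mpr ((associated_normalize (p₀ i)).pow_pow)
  let ψ₁ : (⨁ i, F[X] ⧸ Submodule.span F[X] {p₀ i ^ e₀ i}) ≃ₗ[F[X]]
      (⨁ i, F[X] ⧸ Submodule.span F[X] {normalize (p₀ i) ^ e₀ i}) :=
    DFinsupp.mapRange.linearEquiv (fun i => Submodule.quotEquivOfEq _ _ (hspan i))
  have hsub : ∀ i, ¬ (1 ≤ e₀ i) →
      Subsingleton (F[X] ⧸ Submodule.span F[X] {normalize (p₀ i) ^ e₀ i}) := by
    intro i hi
    have h0 : e₀ i = 0 := by omega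
    rw [h0, pow_zero]
    have : Submodule.span F[X] {(1 : F[X])} = ⊤ := Ideal.span_singleton_one
    rw [this]
    exact Submodule.Quotient.subsingleton_iff.mpr rfl
  obtain ⟨ψ₂⟩ := kgl_directSum_subtype_equiv (R := F[X])
    (fun i => F[X] ⧸ Submodule.span F[X] {normalize (p₀ i) ^ e₀ i}) (fun i => 1 ≤ e₀ i) hsub
  refine ⟨{i : ι₀ // 1 ≤ e₀ i}, inferInstance, fun i => normalize (p₀ i.1), fun i => e₀ i.1,
    ?_, ⟨(ψ.trans ψ₁).trans ψ₂⟩⟩
  intro i
  exact ⟨(associated_normalize (p₀ i.1)).irreducible (hp₀ i.1),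
    Polynomial.monic_normalize (hp₀ i.1).ne_zero, i.2⟩

end Cfsg.Agent.Helper67
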