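import Mathlib
import Cfsg.Agent.Helper40.KGLDefs
set_option autoImplicit false
namespace Cfsg.Agent.Helper67
open Polynomial Cfsg.Agent.Helper40.KGL
open scoped DirectSum
universe u v

theorem sum_deg_eq_finrank {F : Type u} [Field F] {V : Type v} [AddCommGroup V]
    [Module F V] [FiniteDimensional F V] (φ : Module.End F V) {ι : Type u} [Fintype ι]
    (p : ι → F[X]) (e : ι → ℕ) (hp : ∀ i, (p i).Monic)
    (h : Nonempty (Module.AEval' φ ≃ₗ[F[X]] ⨁ i, F[X] ⧸ Submodule.span F[X] {p i ^ e i})) :
    ∑ i, e i * (p i).natDegree = Module.finrank F V := by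
  classical
  obtain ⟨ψ⟩ := h
  have h1 : Module.finrank F V = Module.finrank F (Module.AEval' φ) :=
    (Module.AEval'.of φ).finrank_eq
  have h2 : Module.finrank F (Module.AEval' φ)
      = Module.finrank F (⨁ i, F[X] ⧸ Submodule.span F[X] {p i ^ e i}) :=
    (ψ.restrictScalars F).finrank_eq
  have hfin : ∀ i, Module.Finite F (F[X] ⧸ Submodule.span F[X] {p i ^ e i}) := by
    intro i
    exact Polynomial.Monic.finite_adjoinRoot ((hp i).pow (e i))
  have h3 : Module.finrank F (⨁ i, F[X] ⧸ Submodule.span F[X] {p i ^ e i})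
      = ∑ i, Module.finrank F (F[X] ⧸ Submodule.span F[X] {p i ^ e i}) :=
    Module.finrank_directSum F _
  rw [h1, h2, h3]
  refine Finset.sum_congr rfl fun i _ => ?_
  have h4 : Module.finrank F (F[X] ⧸ Submodule.span F[X] {p i ^ e i})
      = (p i ^ e i).natDegree := finrank_quotient_span_eq_natDegree
  rw [h4, (hp i).natDegree_pow]

end Cfsg.Agent.Helper67
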