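import Mathlib

set_option autoImplicit false

/-!
Piece A2 of CALL S0999 (helper9): the centralizer of a nontrivial element of a Sylow subgroup of
prime order is the centralizer of the Sylow subgroup.
-/

universe u

namespace Cfsg.Agent.Helper67

theorem br_centralizer_singleton {G : Type u} [Group G] {p : ℕ} [Fact p.Prime] (P : Sylow p G)
    (hP : Nat.card (P : Subgroup G) = p) (y : G) (hy : y ∈ (P : Subgroup G)) (hy1 : y ≠ 1) :
    Subgroup.centralizer ({y} : Set G) = Subgroup.centralizer ((P : Subgroup G) : Set G) := by
  apply le_antisymm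
  · intro g hg
    rw [Subgroup.mem_centralizer_iff] at hg ⊢
    intro x hx
    have hgy : y * g = g * y := hg y (Set.mem_singleton y)
    have h1 : Subgroup.zpowers (⟨y, hy⟩ : (P : Subgroup G)) = ⊤ :=
      zpowers_eq_top_of_prime_card hP (by intro h; exact hy1 (congrArg Subtype.val h))
    have h2 : (⟨x, hx⟩ : (P : Subgroup G)) ∈ Subgroup.zpowers (⟨y, hy⟩ : (P : Subgroup G)) := by
      rw [h1]; trivial
    obtain ⟨k, hk⟩ := Subgroup.mem_zpowers_iff.mp h2
    have h3 : y ^ k = x := by simpa using congrArg Subtype.val hk
    rw [← h3]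
    exact (Commute.zpow_left (show Commute y g from hgy) k).eq
  · apply Subgroup.centralizer_le
    intro z hz
    rw [Set.mem_singleton_iff] at hz
    rw [hz]
    exact hy

end Cfsg.Agent.Helper67
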