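import Mathlib

set_option autoImplicit false

/-!
Piece A5 of CALL S0999 (helper9): if every element outside a subgroup `Q` is an involution, then
`Q` has index at most two or `Q` has exponent two.
-/

universe u

namespace Cfsg.Agent.Helper67

theorem br_index_two_inv {C : Type u} [Group C] (Q : Subgroup C)
    (h : ∀ c : C, c ∉ Q → c ^ 2 = 1) (c : C) (hc : c ∉ Q) (y : C) (hy : y ∈ Q) :
    c * y * c⁻¹ = y⁻¹ := by
  have h1 : c * y ∉ Q := by
    intro h2
    exact hc ((Subgroup.mul_mem_cancel_right Q hy).mp h2)
  have h3 := h (c * y) h1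
  have h4 := h c hc
  have h5 : c⁻¹ = c := by
    rw [inv_eq_iff_mul_eq_one, ← pow_two, h4]
  rw [h5]
  rw [pow_two] at h3
  rw [eq_inv_iff_mul_eq_one]
  rw [← h3]
  group

theorem br_index_two {C : Type u} [Group C] [Finite C] (Q : Subgroup C)
    (h : ∀ c : C, c ∉ Q → c ^ 2 = 1) : Q.index ≤ 2 ∨ ∀ y : C, y ∈ Q → y ^ 2 = 1 := by
  by_cases hex : ∃ x x' : C, x ∉ Q ∧ x' ∉ Q ∧ x * x' ∉ Q
  · right
    obtain ⟨x, x', hx, hx', hxx'⟩ := hex
    intro y hy
    have h1 := br_index_two_inv Q h x hx y hy
    have h2 := br_index_two_inv Q h x' hx' y hy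
    have h3 := br_index_two_inv Q h (x * x') hxx' y hy
    have h4 : x * x' * y * (x * x')⁻¹ = x * (x' * y * x'⁻¹) * x⁻¹ := by group
    rw [h4, h2] at h3
    have h5 : x * y⁻¹ * x⁻¹ = y := by
      have h6 : x * y⁻¹ * x⁻¹ = (x * y * x⁻¹)⁻¹ := by group
      rw [h6, h1, inv_inv]
    rw [h5] at h3
    rw [pow_two]
    nth_rewrite 2 [h3]
    exact mul_inv_cancel y
  · left
    push Not at hex
    by_cases htop : ∀ x : C, x ∈ Q
    · have : Q = ⊤ := by
        rw [eq_top_iff]; intro x _; exact htop x
      rw [this, Subgroup.index_top]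
      norm_num
    · push Not at htop
      obtain ⟨x, hx⟩ := htop
      have hsurj : Function.Surjective
          (fun b : Bool => if b then (QuotientGroup.mk x : C ⧸ Q) else QuotientGroup.mk 1) := by
        intro c
        obtain ⟨g, rfl⟩ := QuotientGroup.mk_surjective c
        by_cases hg : g ∈ Q
        · refine ⟨false, ?_⟩
          simp only [Bool.false_eq_true, if_false]
          rw [QuotientGroup.eq]
          simpa using hg
        · refine ⟨true, ?_⟩
          simp only [if_true]
          rw [QuotientGroup.eq]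
          by_contra hn
          have hxi : x⁻¹ ∉ Q := fun hh => hx (by simpa using Q.inv_mem hh)
          have h7 := hex x (x⁻¹ * g) hx hn
          rw [mul_inv_cancel_left] at h7
          exact hg h7
      have h9 := Nat.card_le_card_of_surjective _ hsurj
      have h10 : Nat.card Bool = 2 := by
        rw [Nat.card_eq_fintype_card, Fintype.card_bool]
      rw [h10] at h9
      exact h9

end Cfsg.Agent.Helper67
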