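/-
CALL S4409 (helper55), piece M5b (double by helper67): the centre of a nonabelian minimal
configuration without a noncyclic abelian subgroup of order 8 has order 2.
-/
import Cfsg.Agent.Helper55.N9Defs

set_option autoImplicit false

namespace Cfsg.Agent.Helper67.N9

open Subgroup Cfsg.Agent.Helper55.N9

open scoped commutatorElement

variable {G : Type*} [Group G] [Finite G]

/-- A commutative subgroup `B` of order 4 together with an element `x ∉ B` centralizing `B`, with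
`x² ∈ B` and `x⁴ = 1`, gives a noncyclic abelian subgroup of order 8. -/
theorem n9_a8_of (D B : Subgroup G) (hBD : B ≤ D) (hB4 : Nat.card B = 4)
    (hBc : ∀ a ∈ B, ∀ b ∈ B, a * b = b * a) (x : G) (hxD : x ∈ D) (hxB : x ∉ B)
    (hxc : ∀ b ∈ B, x * b = b * x) (hx2 : x ^ 2 ∈ B) (hx4 : x ^ 4 = 1) : ¬ NoA8 D := by
  classical
  have key : ∀ g : G, g * x ∈ B → Commute g x := by
    intro g hg
    have h1 : x * (g * x) = g * x * x := hxc _ hg
    have h2 : x * g = g * x := mul_right_cancel (b := x) (by rw [mul_assoc]; exact h1)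
    exact h2.symm
  let A : Subgroup G :=
    { carrier := {g | g ∈ B ∨ g * x ∈ B}
      one_mem' := Or.inl B.one_mem
      mul_mem' := by
        rintro g g' (hg | hg) (hg' | hg')
        · exact Or.inl (B.mul_mem hg hg')
        · right
          rw [mul_assoc]
          exact B.mul_mem hg hg'
        · right
          have e : g * g' * x = (g * x) * g' := by
            rw [mul_assoc, mul_assoc, hxc g' hg']
          rw [e]
          exact B.mul_mem hg hg'
        · left
          have e : g * g' = (g * x) * (g' * x) * (x ^ 2)⁻¹ := by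
            have h2 : x * (g' * x) = g' * x * x := hxc _ hg'
            calc g * g' = g * (g' * x * x) * (x ^ 2)⁻¹ := by group
              _ = g * (x * (g' * x)) * (x ^ 2)⁻¹ := by rw [h2]
              _ = (g * x) * (g' * x) * (x ^ 2)⁻¹ := by group
          rw [e]
          exact B.mul_mem (B.mul_mem hg hg') (B.inv_mem hx2)
      inv_mem' := by
        rintro g (hg | hg)
        · exact Or.inl (B.inv_mem hg)
        · right
          have hc := key g hg
          have e : g⁻¹ * x = (g * x)⁻¹ * x ^ 2 := by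
            have h2 : x⁻¹ * g⁻¹ = g⁻¹ * x⁻¹ := (hc.inv_inv).eq.symm
            rw [mul_inv_rev, h2]
            group
          rw [e]
          exact B.mul_mem (B.inv_mem hg) hx2 }
  have hBA : B ≤ A := fun g hg => Or.inl hg
  have hxA : x ∈ A := Or.inr (by rw [← pow_two]; exact hx2)
  have hAD : A ≤ D := by
    rintro g (hg | hg)
    · exact hBD hg
    · have e : g = g * x * x⁻¹ := by group
      rw [e]
      exact D.mul_mem (hBD hg) (D.inv_mem hxD)
  have hAx : ∀ g ∈ A, Commute g x := by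
    rintro g (hg | hg)
    · exact (hxc g hg).symm
    · exact key g hg
  have hAB : ∀ g ∈ A, ∀ b ∈ B, Commute g b := by
    rintro g (hg | hg) b hb
    · exact hBc g hg b hb
    · have h1 : Commute (g * x) b := hBc _ hg b hb
      have h2 : Commute x⁻¹ b := (show Commute x b from hxc b hb).inv_left
      have e : g = g * x * x⁻¹ := by group
      rw [e]
      exact h1.mul_left h2
  have hAA : ∀ a ∈ A, ∀ b ∈ A, a * b = b * a := by
    rintro a ha b (hb | hb)
    · exact hAB a ha b hb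
    · have h1 : Commute a (b * x) := hAB a ha _ hb
      have h2 : Commute a x⁻¹ := (hAx a ha).inv_right
      have e : b = b * x * x⁻¹ := by group
      rw [e]
      exact h1.mul_right h2
  have hidx : B.relIndex A = 2 := by
    rw [Subgroup.relIndex_eq_two_iff]
    refine ⟨x, hxA, ?_⟩
    intro b hb
    by_cases hbB : b ∈ B
    · right
      refine ⟨hbB, fun h => hxB ?_⟩
      have e : x = b⁻¹ * (b * x) := by group
      rw [e]
      exact B.mul_mem (B.inv_mem hbB) h
    · left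
      rcases hb with hb | hb
      · exact absurd hb hbB
      · exact ⟨hb, hbB⟩
  have hA8 : Nat.card A = 8 := by
    have h1 := Subgroup.relIndex_mul_relIndex (⊥ : Subgroup G) B A bot_le hBA
    rw [Subgroup.relIndex_bot_left, Subgroup.relIndex_bot_left, hB4, hidx] at h1
    omega
  have hB4' : ∀ b ∈ B, b ^ 4 = 1 := by
    intro b hb
    have h1 := pow_card_eq_one' (G := ↥B) (x := ⟨b, hb⟩)
    rw [hB4] at h1
    exact congrArg Subtype.val h1
  have hA4 : ∀ g ∈ A, g ^ 4 = 1 := by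
    rintro g (hg | hg)
    · exact hB4' g hg
    · have hc := key g hg
      have h1 : (g * x) ^ 4 = g ^ 4 * x ^ 4 := hc.mul_pow 4
      rw [hx4, mul_one] at h1
      rw [← h1]
      exact hB4' _ hg
  intro hN
  apply hN
  refine ⟨A, hAD, ⟨⟨fun a b => Subtype.ext (hAA a a.2 b b.2)⟩⟩, ?_, hA8⟩
  intro hcyc
  obtain ⟨g, hg⟩ := IsCyclic.exists_generator (α := ↥A)
  have ho : orderOf g = Nat.card A := orderOf_eq_card_of_forall_mem_zpowers hg
  have h4 : g ^ 4 = 1 := Subtype.ext (by rw [Subgroup.coe_pow]; exact hA4 g g.2)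
  have h5 := orderOf_dvd_of_pow_eq_one h4
  rw [ho, hA8] at h5
  omega

-- M5b
theorem n9_min_center2 (T : Tools G) (K D : Subgroup G) (h : MinCfg K D) (mf : MinFacts K D)
    (hD : IsPGroup 2 D) (hK : Odd (Nat.card K))
    (hna : ¬ ∀ a ∈ D, ∀ b ∈ D, a * b = b * a) (hN : NoA8 D) :
    Nat.card (zc D) = 2 := by
  classical
  obtain ⟨hsq, hcomm, hZK, hZne⟩ := mf.sq hna
  obtain ⟨Z, hZdef⟩ : ∃ Z : Subgroup G, Z = zc D := ⟨_, rfl⟩
  rw [← hZdef] at hsq hcomm hZK hZne ⊢
  have hZD : Z ≤ D := by rw [hZdef]; exact inf_le_left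
  have hZc : ∀ z ∈ Z, ∀ d ∈ D, d * z = z * d := by
    intro z hz d hd
    rw [hZdef] at hz
    exact (Subgroup.mem_centralizer_iff.mp hz.2) d hd
  have hZab : ∀ a ∈ Z, ∀ b ∈ Z, a * b = b * a := fun a ha b hb => hZc b hb a (hZD ha)
  have hZp : IsPGroup 2 Z := hD.to_le hZD
  obtain ⟨x₀, hx₀D, hx₀Z⟩ : ∃ x ∈ D, x ∉ Z := by
    by_contra hcon
    push Not at hcon
    exact hZne (le_antisymm hZD hcon)
  have hZbot : Z ≠ ⊥ := by
    intro e
    apply hna
    intro a ha b hb
    have h1 : ⁅a, b⁆ ∈ Z := hcomm (Subgroup.commutator_mem_commutator ha hb)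
    rw [e, Subgroup.mem_bot] at h1
    exact commutatorElement_eq_one_iff_mul_comm.mp h1
  obtain ⟨k, hk⟩ := IsPGroup.iff_card.mp hZp
  by_contra hne
  have hk0 : k ≠ 0 := by
    rintro rfl
    rw [pow_zero] at hk
    exact hZbot (Subgroup.card_eq_one.mp hk)
  have hk1 : k ≠ 1 := by
    rintro rfl
    exact hne (by rw [hk]; rfl)
  obtain ⟨j, rfl⟩ : ∃ j, k = j + 2 := ⟨k - 2, by omega⟩
  by_cases hcyc : IsCyclic ↥Z
  · -- `Z` cyclic of order at least 4
    obtain ⟨g', hg'⟩ := IsCyclic.exists_generator (α := ↥Z)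
    have hog' : orderOf g' = 2 ^ (j + 2) := by
      rw [orderOf_eq_card_of_forall_mem_zpowers hg', hk]
    obtain ⟨g, hgdef⟩ : ∃ g : G, g = (g' : G) := ⟨_, rfl⟩
    have hgZ : g ∈ Z := by rw [hgdef]; exact g'.2
    have hog : orderOf g = 2 ^ (j + 2) := by rw [hgdef, Subgroup.orderOf_coe]; exact hog'
    have hgen : ∀ c ∈ Z, ∃ n : ℕ, c = g ^ n := by
      intro c hc
      have h1 := hg' ⟨c, hc⟩
      rw [← mem_powers_iff_mem_zpowers] at h1
      obtain ⟨n, hn⟩ := h1
      refine ⟨n, ?_⟩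
      have h2 := congrArg Subtype.val hn
      rw [hgdef]
      simpa using h2.symm
    -- the squares of `Z`
    have hWeven : ∀ m : ℕ, ∃ w ∈ Z, g ^ (2 * m) = w ^ 2 := fun m =>
      ⟨g ^ m, Z.pow_mem hgZ m, by rw [pow_mul']⟩
    have hWa : ∀ c ∈ Z, c ^ 2 = 1 → ∃ w ∈ Z, c = w ^ 2 := by
      intro c hc hc2
      obtain ⟨n, rfl⟩ := hgen c hc
      rw [← pow_mul] at hc2
      have h1 := orderOf_dvd_of_pow_eq_one hc2
      rw [hog] at h1
      have h2 : 4 ∣ n * 2 := Dvd.dvd.trans ⟨2 ^ j, by ring⟩ h1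
      obtain ⟨m, rfl⟩ : ∃ m, n = 2 * m := ⟨n / 2, by omega⟩
      exact hWeven m
    have hWmul : ∀ c₁ c₂ : G, (∃ w ∈ Z, c₁ = w ^ 2) → (∃ w ∈ Z, c₂ = w ^ 2) →
        ∃ w ∈ Z, c₁ * c₂ = w ^ 2 := by
      rintro _ _ ⟨w₁, h1, rfl⟩ ⟨w₂, h2, rfl⟩
      exact ⟨w₁ * w₂, Z.mul_mem h1 h2,
        ((show Commute w₁ w₂ from hZab w₁ h1 w₂ h2).mul_pow 2).symm⟩
    have hWinv : ∀ c : G, (∃ w ∈ Z, c = w ^ 2) → ∃ w ∈ Z, c⁻¹ = w ^ 2 := by
      rintro _ ⟨w, h1, rfl⟩
      exact ⟨w⁻¹, Z.inv_mem h1, by rw [inv_pow]⟩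
    have hWodd : ∀ c₁ ∈ Z, ∀ c₂ ∈ Z, (¬ ∃ w ∈ Z, c₁ = w ^ 2) → (¬ ∃ w ∈ Z, c₂ = w ^ 2) →
        ∃ w ∈ Z, c₁ * c₂ = w ^ 2 := by
      intro c₁ h1 c₂ h2 hn1 hn2
      obtain ⟨a, rfl⟩ := hgen c₁ h1
      obtain ⟨b, rfl⟩ := hgen c₂ h2
      have ha : ¬ 2 ∣ a := by
        rintro ⟨m, rfl⟩
        exact hn1 (hWeven m)
      have hb : ¬ 2 ∣ b := by
        rintro ⟨m, rfl⟩
        exact hn2 (hWeven m)
      obtain ⟨m, hm⟩ : ∃ m, a + b = 2 * m := ⟨(a + b) / 2, by omega⟩
      rw [← pow_add, hm]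
      exact hWeven m
    -- squares of products
    have hmulsq : ∀ x ∈ D, ∀ y ∈ D, ∃ c, (∃ w ∈ Z, c = w ^ 2) ∧
        (x * y) ^ 2 = x ^ 2 * y ^ 2 * c := by
      intro x hx y hy
      obtain ⟨c, hcdef⟩ : ∃ c : G, c = y⁻¹ * x⁻¹ * y * x := ⟨_, rfl⟩
      have hcZ : c ∈ Z := by
        have e : c = ⁅y⁻¹, x⁻¹⁆ := by
          rw [commutatorElement_def, hcdef]
          group
        rw [e]
        exact hcomm (Subgroup.commutator_mem_commutator (D.inv_mem hy) (D.inv_mem hx))
      have hyc : y * c = c * y := hZc c hcZ y hy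
      have hc2 : c ^ 2 = 1 := by
        have e1 : (y * c) ^ 2 = y ^ 2 * c ^ 2 := (show Commute y c from hyc).mul_pow 2
        have e2 : (y * c) ^ 2 = x⁻¹ * y ^ 2 * x := by
          rw [hcdef, pow_two, pow_two]
          group
        have e3 : x⁻¹ * y ^ 2 * x = y ^ 2 := by
          rw [mul_assoc, ← hZc (y ^ 2) (hsq y hy) x hx, inv_mul_cancel_left]
        rw [e2, e3] at e1
        exact mul_left_cancel (a := y ^ 2) (by rw [mul_one]; exact e1.symm)
      refine ⟨c, hWa c hcZ hc2, ?_⟩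
      have e1 : (x * y) ^ 2 = x ^ 2 * (y * c * y) := by
        rw [hcdef, pow_two, pow_two]
        group
      have e2 : y * c * y = y ^ 2 * c := by
        rw [mul_assoc, ← hyc, ← mul_assoc, ← pow_two]
      rw [e1, e2, mul_assoc]
    -- the kernel of the squaring map modulo squares of `Z`
    let M : Subgroup G :=
      { carrier := {x | x ∈ D ∧ ∃ w ∈ Z, x ^ 2 = w ^ 2}
        one_mem' := ⟨D.one_mem, 1, Z.one_mem, rfl⟩
        mul_mem' := by
          rintro x y ⟨hx, hx2⟩ ⟨hy, hy2⟩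
          refine ⟨D.mul_mem hx hy, ?_⟩
          obtain ⟨c, hcW, hc⟩ := hmulsq x hx y hy
          rw [hc]
          exact hWmul _ _ (hWmul _ _ hx2 hy2) hcW
        inv_mem' := by
          rintro x ⟨hx, hx2⟩
          refine ⟨D.inv_mem hx, ?_⟩
          rw [inv_pow]
          exact hWinv _ hx2 }
    have hMD : M ≤ D := fun x hx => hx.1
    have hfwd : ∀ k ∈ K, ∀ x ∈ M, k * x * k⁻¹ ∈ M := by
      rintro k hk x ⟨hx, hx2⟩
      have hkD : k ∈ normalizer (D : Set G) := h.inv hk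
      refine ⟨(Subgroup.mem_normalizer_iff.mp hkD x).mp hx, ?_⟩
      have e : (k * x * k⁻¹) ^ 2 = x ^ 2 := by
        rw [conj_pow]
        have h1 : k * x ^ 2 = x ^ 2 * k :=
          (Subgroup.mem_centralizer_iff.mp (hZK (hsq x hx))) k hk
        rw [h1, mul_inv_cancel_right]
      rw [e]
      exact hx2
    have hKM : K ≤ normalizer (M : Set G) := by
      intro k hk
      rw [Subgroup.mem_normalizer_iff]
      intro x
      refine ⟨hfwd k hk x, fun hx => ?_⟩
      have h1 := hfwd k⁻¹ (K.inv_mem hk) _ hx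
      have e : k⁻¹ * (k * x * k⁻¹) * k⁻¹⁻¹ = x := by group
      rw [e] at h1
      exact h1
    have hMeq : ∀ x ∈ D, ∃ w ∈ Z, x ^ 2 = w ^ 2 := by
      by_contra hcon
      push Not at hcon
      obtain ⟨a, haD, haW⟩ := hcon
      have haM : a ∉ M := fun hm => by
        obtain ⟨w, hw, e⟩ := hm.2
        exact haW w hw e
      apply mf.noidx2 M hMD _ hKM
      rw [Subgroup.relIndex_eq_two_iff]
      refine ⟨a, haD, ?_⟩
      intro b hb
      by_cases hbM : b ∈ M
      · right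
        refine ⟨hbM, fun hm => haM ?_⟩
        have e : a = b⁻¹ * (b * a) := by group
        rw [e]
        exact M.mul_mem (M.inv_mem hbM) hm
      · left
        refine ⟨⟨D.mul_mem hb haD, ?_⟩, hbM⟩
        obtain ⟨c, hcW, hc⟩ := hmulsq b hb a haD
        rw [hc]
        refine hWmul _ _ (hWodd _ (hsq b hb) _ (hsq a haD) ?_ ?_) hcW
        · rintro ⟨w, hw, e⟩
          exact hbM ⟨hb, w, hw, e⟩
        · rintro ⟨w, hw, e⟩
          exact haW w hw e
    -- an involution outside `Z`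
    obtain ⟨w, hwZ, hw⟩ := hMeq x₀ hx₀D
    obtain ⟨u, hudef⟩ : ∃ u : G, u = x₀ * w⁻¹ := ⟨_, rfl⟩
    have huD : u ∈ D := by rw [hudef]; exact D.mul_mem hx₀D (D.inv_mem (hZD hwZ))
    have huZ : u ∉ Z := by
      intro hu
      apply hx₀Z
      have e : x₀ = u * w := by rw [hudef]; group
      rw [e]
      exact Z.mul_mem hu hwZ
    have hu2 : u ^ 2 = 1 := by
      have hc : Commute x₀ w⁻¹ := (show Commute x₀ w from hZc w hwZ x₀ hx₀D).inv_right
      rw [hudef, hc.mul_pow, hw, inv_pow, mul_inv_cancel]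
    -- an element of order 4 of `Z`
    obtain ⟨z, hzdef⟩ : ∃ z : G, z = g ^ (2 ^ j) := ⟨_, rfl⟩
    have hzZ : z ∈ Z := by rw [hzdef]; exact Z.pow_mem hgZ _
    have hoz : orderOf z = 4 := by
      rw [hzdef, orderOf_pow_of_dvd (by positivity) (by rw [hog]; exact ⟨4, by ring⟩), hog,
        pow_add]
      exact Nat.mul_div_cancel_left 4 (by positivity)
    have hBZ : zpowers z ≤ Z := (Subgroup.zpowers_le).mpr hzZ
    refine n9_a8_of D (zpowers z) (hBZ.trans hZD) (by rw [Nat.card_zpowers, hoz])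
      (fun a ha b hb => hZab a (hBZ ha) b (hBZ hb)) u huD (fun hu => huZ (hBZ hu))
      (fun b hb => hZc b (hBZ hb) u huD) (by rw [hu2]; exact Subgroup.one_mem _)
      (by rw [show (4 : ℕ) = 2 * 2 from rfl, pow_mul, hu2, one_pow]) hN
  · -- `Z` noncyclic of order 4
    have hk4 : Nat.card Z = 4 := by
      rcases T.ab8 Z hZp hZab (hN.mono hZD) with h1 | h1
      · exact absurd h1 hcyc
      · rw [hk] at h1 ⊢
        have h2 : j + 2 ≤ 2 := by
          by_contra hcon
          have h3 : 2 ^ 3 ≤ 2 ^ (j + 2) := Nat.pow_le_pow_right (by norm_num) (by omega)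
          omega
        have hj : j = 0 := by omega
        rw [hj]
        norm_num
    have hx4 : x₀ ^ 4 = 1 := by
      by_contra hcon
      apply hcyc
      have : Fact (Nat.Prime 2) := ⟨Nat.prime_two⟩
      have hy : x₀ ^ 2 ∈ Z := hsq x₀ hx₀D
      have ho : orderOf (⟨x₀ ^ 2, hy⟩ : ↥Z) = 2 ^ (1 + 1) := by
        apply orderOf_eq_prime_pow
        · intro e
          apply hcon
          have e2 := congrArg Subtype.val e
          simp only [Subgroup.coe_pow, Subgroup.coe_one] at e2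
          rw [show (4 : ℕ) = 2 * 2 ^ 1 from rfl, pow_mul]
          exact e2
        · have h1 := pow_card_eq_one' (G := ↥Z) (x := ⟨x₀ ^ 2, hy⟩)
          rw [hk4] at h1
          exact h1
      exact isCyclic_of_orderOf_eq_card _ (by rw [ho, hk4]; norm_num)
    exact n9_a8_of D Z hZD hk4 hZab x₀ hx₀D hx₀Z (fun b hb => hZc b hb x₀ hx₀D)
      (hsq x₀ hx₀D) hx4 hN

end Cfsg.Agent.Helper67.N9
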