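import Mathlib
import Cfsg.Agent.Helper6.JRSkel

/-!
# CALL S3206 piece JS (core): the Sylow 2-subgroup is `V × ⟨t⟩`, of order 8 and exponent 2

The statements of the pieces SYLN and RESTR enter as hypotheses.
-/

set_option autoImplicit false

namespace Cfsg.Agent.Helper67

open Cfsg.Agent.Helper6

/-- JS, with the statements of SYLN and RESTR as hypotheses. -/
theorem jr_sylow_structure_core {G : Type*} [Group G] [Finite G] {t : G} {N : Subgroup G}
    (h : JRSetup t N) (S : Sylow 2 G)
    (hS : ∀ a ∈ (S : Subgroup G), ∀ b ∈ (S : Subgroup G), a * b = b * a)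
    (htS : t ∈ (S : Subgroup G))
    (V : Sylow 2 ↥N) (hV : ∀ x : ↥N, x ∈ (V : Subgroup ↥N) ↔ (x : G) ∈ (S : Subgroup G))
    (hrestr : ∀ (φ : G ≃* G), (∀ x ∈ N, φ x ∈ N) → ∀ n : ℕ, φ ^ n = 1 →
      ∃ α : ↥N ≃* ↥N, (∀ x : ↥N, (α x : G) = φ x) ∧ α ^ n = 1) :
    Nat.card (S : Subgroup G) = 8 ∧ ∀ s ∈ (S : Subgroup G), s * s = 1 := by
  classical
  have hSM : (S : Subgroup G) ≤ Subgroup.centralizer ({t} : Set G) := by
    intro s hs
    rw [Subgroup.mem_centralizer_iff]
    intro y hy
    rw [Set.mem_singleton_iff] at hy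
    subst hy
    exact hS y htS s hs
  have hVab : ∀ a ∈ (V : Subgroup ↥N), ∀ b ∈ (V : Subgroup ↥N), a * b = b * a := by
    intro a ha b hb
    apply Subtype.ext
    exact hS a ((hV a).mp ha) b ((hV b).mp hb)
  obtain ⟨hV4, hVexp⟩ := h.hsyl V hVab
  have ht2 : t * t = 1 := by
    have h1 := pow_orderOf_eq_one t
    rw [h.ht, pow_two] at h1
    exact h1
  have ht1 : t ≠ 1 := by
    intro h1
    have h2 := h.ht
    rw [h1, orderOf_one] at h2
    omega
  have htN : t ∉ N := by
    intro htN
    have hcenter : (⟨t, htN⟩ : ↥N) ∈ Subgroup.center ↥N := by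
      rw [Subgroup.mem_center_iff]
      intro g
      apply Subtype.ext
      have h1 := Subgroup.mem_centralizer_iff.mp (h.hNM g.2) t (Set.mem_singleton t)
      exact h1.symm
    have hsimp := h.hsimp
    have hc : Subgroup.center ↥N = ⊥ := by
      rcases Subgroup.Normal.eq_bot_or_eq_top
        (inferInstance : (Subgroup.center ↥N).Normal) with hb | htop
      · exact hb
      · exfalso
        obtain ⟨a, ha, b, hb, hab⟩ := h.hnab
        apply hab
        have h1 : (⟨a, ha⟩ : ↥N) ∈ Subgroup.center ↥N := by rw [htop]; trivial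
        have h2 := Subgroup.mem_center_iff.mp h1 ⟨b, hb⟩
        exact (congrArg Subtype.val h2).symm
    rw [hc, Subgroup.mem_bot] at hcenter
    exact ht1 (congrArg Subtype.val hcenter)
  have key : ∀ s ∈ (S : Subgroup G), ∃ v : ↥N, v ∈ (V : Subgroup ↥N) ∧
      (s = (v : G) ∨ s = (v : G) * t) := by
    intro s hs
    have hsM := hSM hs
    obtain ⟨k, hk⟩ := S.isPGroup' ⟨s, hs⟩
    have hsk : s ^ (2 ^ k) = 1 := by simpa using congrArg Subtype.val hk
    obtain ⟨α, hα, hαn⟩ := hrestr (MulAut.conj s)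
      (fun x hx => by rw [MulAut.conj_apply]; exact h.hnorm s hsM x hx) (2 ^ k)
      (by rw [← map_pow, hsk, map_one])
    have hfix : ∀ v ∈ (V : Subgroup ↥N), α v = v := by
      intro v hv
      apply Subtype.ext
      rw [hα, MulAut.conj_apply]
      have h1 := hS s hs (v : G) ((hV v).mp hv)
      rw [h1, mul_inv_cancel_right]
    obtain ⟨v, hv, hvx⟩ := h.haut V hVab α k hαn hfix
    have hvS : (v : G) ∈ (S : Subgroup G) := (hV v).mp hv
    have hcomm : ∀ n ∈ N, ((v : G)⁻¹ * s) * n = n * ((v : G)⁻¹ * s) := by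
      intro n hn
      have h1 := congrArg Subtype.val (hvx ⟨n, hn⟩)
      rw [hα, MulAut.conj_apply] at h1
      simp only [Subgroup.coe_mul, Subgroup.coe_inv] at h1
      calc (v : G)⁻¹ * s * n = (v : G)⁻¹ * (s * n * s⁻¹) * s := by group
        _ = (v : G)⁻¹ * ((v : G) * n * (v : G)⁻¹) * s := by rw [h1]
        _ = n * ((v : G)⁻¹ * s) := by group
    have hmemM : (v : G)⁻¹ * s ∈ Subgroup.centralizer ({t} : Set G) :=
      hSM (mul_mem (inv_mem hvS) hs)
    have hz := h.hcen _ hmemM hcomm
    obtain ⟨z, hz⟩ := Subgroup.mem_zpowers_iff.mp hz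
    have hcases : t ^ z = 1 ∨ t ^ z = t := by
      have h1 := zpow_mod_orderOf t z
      rw [h.ht] at h1
      have h2 : z % ((2 : ℕ) : ℤ) = 0 ∨ z % ((2 : ℕ) : ℤ) = 1 := by omega
      rcases h2 with h2 | h2
      · left
        rw [← h1, h2, zpow_zero]
      · right
        rw [← h1, h2, zpow_one]
    refine ⟨v, hv, ?_⟩
    rcases hcases with h1 | h1
    · left
      rw [h1] at hz
      have h2 := congrArg (fun y => (v : G) * y) hz
      simpa using h2.symm
    · right
      rw [h1] at hz
      have h2 := congrArg (fun y => (v : G) * y) hz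
      simpa using h2.symm
  refine ⟨?_, ?_⟩
  · obtain ⟨f, hf⟩ : ∃ f : ↥(V : Subgroup ↥N) × Bool → ↥(S : Subgroup G),
        ∀ p, ((f p : ↥(S : Subgroup G)) : G) = ((p.1 : ↥N) : G) * (if p.2 then t else 1) :=
      ⟨fun p => ⟨((p.1 : ↥N) : G) * (if p.2 then t else 1),
        mul_mem ((hV p.1).mp p.1.2) (by split_ifs; exact htS; exact one_mem _)⟩, fun _ => rfl⟩
    have hinj : Function.Injective f := by
      rintro ⟨v, b⟩ ⟨v', b'⟩ hvv
      have h1 := congrArg Subtype.val hvv
      rw [hf, hf] at h1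
      simp only at h1
      rcases b with _ | _ <;> rcases b' with _ | _
      · simp only [Bool.false_eq_true, if_false, mul_one] at h1
        rw [Subtype.ext (Subtype.ext h1)]
      · exfalso
        simp only [Bool.false_eq_true, if_false, if_true, mul_one] at h1
        apply htN
        have h2 : t = ((v' : ↥N) : G)⁻¹ * ((v : ↥N) : G) := by rw [h1]; group
        rw [h2]
        exact mul_mem (inv_mem (v' : ↥N).2) (v : ↥N).2
      · exfalso
        simp only [Bool.false_eq_true, if_false, if_true, mul_one] at h1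
        apply htN
        have h2 : t = ((v : ↥N) : G)⁻¹ * ((v' : ↥N) : G) := by rw [← h1]; group
        rw [h2]
        exact mul_mem (inv_mem (v : ↥N).2) (v' : ↥N).2
      · simp only [if_true] at h1
        rw [Subtype.ext (Subtype.ext (mul_right_cancel h1))]
    have hsurj : Function.Surjective f := by
      rintro ⟨s, hs⟩
      obtain ⟨v, hv, h1 | h1⟩ := key s hs
      · refine ⟨(⟨v, hv⟩, false), Subtype.ext ?_⟩
        rw [hf]
        simp [h1]
      · refine ⟨(⟨v, hv⟩, true), Subtype.ext ?_⟩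
        rw [hf]
        simp [h1]
    rw [← Nat.card_congr (Equiv.ofBijective f ⟨hinj, hsurj⟩), Nat.card_prod, hV4]
    simp
  · intro s hs
    obtain ⟨v, hv, h1 | h1⟩ := key s hs
    · rw [h1]
      exact congrArg Subtype.val (hVexp v hv)
    · rw [h1]
      have hvS := (hV v).mp hv
      have hc := hS (v : G) hvS t htS
      have hv2 : (v : G) * (v : G) = 1 := congrArg Subtype.val (hVexp v hv)
      calc (v : G) * t * ((v : G) * t) = (v : G) * (t * (v : G)) * t := by group
        _ = (v : G) * ((v : G) * t) * t := by rw [hc]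
        _ = ((v : G) * (v : G)) * (t * t) := by group
        _ = 1 := by rw [hv2, ht2, one_mul]

end Cfsg.Agent.Helper67
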