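import Mathlib
import Cfsg.Agent.Helper6.JRSkel
import Cfsg.Agent.Helper67.JR3206JSCore
import Cfsg.Agent.Helper83.JR3206SYLN
import Cfsg.Agent.Helper83.JR3206RESTR

/-!
# CALL S3206 piece JS: structure of a Sylow 2-subgroup
-/

set_option autoImplicit false

namespace Cfsg.Agent.Helper67

open Cfsg.Agent.Helper6

/-- JS (assembly piece: structure of a Sylow 2-subgroup; uses SYLN, RESTR and the set-up). -/
theorem jr_sylow_structure {G : Type*} [Group G] [Finite G] {t : G} {N : Subgroup G}
    (h : JRSetup t N) (S : Sylow 2 G)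
    (hS : ∀ a ∈ (S : Subgroup G), ∀ b ∈ (S : Subgroup G), a * b = b * a)
    (htS : t ∈ (S : Subgroup G)) :
    Nat.card (S : Subgroup G) = 8 ∧ ∀ s ∈ (S : Subgroup G), s * s = 1 := by
  have hSM : (S : Subgroup G) ≤ Subgroup.centralizer ({t} : Set G) := by
    intro s hs
    rw [Subgroup.mem_centralizer_iff]
    intro y hy
    rw [Set.mem_singleton_iff] at hy
    subst hy
    exact hS y htS s hs
  obtain ⟨V, hV⟩ := Cfsg.Agent.Helper83.jr_sylow_inf_normal 2 S
    (Subgroup.centralizer ({t} : Set G)) N hSM h.hNM h.hnorm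
  exact jr_sylow_structure_core h S hS htS V hV
    (fun φ hφ n hn => Cfsg.Agent.Helper83.jr_restrict_aut N φ hφ n hn)

end Cfsg.Agent.Helper67
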