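import Cfsg.Agent.Helper67.JR3206PAUTCore
import Cfsg.Agent.Helper83.JR3206PSYL

/-!
# CALL S3206 piece PAUT: automorphisms of 2-power order of `PSL₂(F)` fixing an abelian Sylow
2-subgroup elementwise are conjugations by its elements
-/

set_option autoImplicit false

namespace Cfsg.Agent.Helper67

/-- PAUT (PSL₂; uses helper44's `galHom`, `exists_of_galHom_eq_one`). -/
theorem jr_psl2_aut {F : Type*} [Field F] [Fintype F] (hFo : Odd (Fintype.card F))
    (hF3 : 3 < Fintype.card F) {P : Type*} [Group P]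
    (e : P ≃* Matrix.ProjectiveSpecialLinearGroup (Fin 2) F) (V : Sylow 2 P)
    (hV : ∀ a ∈ (V : Subgroup P), ∀ b ∈ (V : Subgroup P), a * b = b * a)
    (α : P ≃* P) (k : ℕ) (hα : α ^ (2 ^ k) = 1) (hfix : ∀ v ∈ (V : Subgroup P), α v = v) :
    ∃ v ∈ (V : Subgroup P), ∀ x : P, α x = v * x * v⁻¹ := by
  obtain ⟨hV4, hVexp⟩ := Cfsg.Agent.Helper83.jr_psl2_sylow hFo hF3 e V hV
  exact jr_psl2_aut_core hFo e V hV hV4 hVexp α k hα hfix

end Cfsg.Agent.Helper67
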