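import Mathlib

set_option autoImplicit false

namespace Cfsg.Agent.Helper67

/-- PIECE KLEIN -/
theorem rmd43_klein {G : Type*} [Group G] {V : Type*} [AddCommGroup V] [Module ℂ V]
    [FiniteDimensional ℂ V] (ρ : Representation ℂ G V) (a b : G) (ha : a * a = 1)
    (hb : b * b = 1) (hab : a * b = b * a) (h1 : LinearMap.trace ℂ V (ρ a) = 0)
    (h2 : LinearMap.trace ℂ V (ρ b) = 0) (h3 : LinearMap.trace ℂ V (ρ (a * b)) = 0) :
    4 ∣ Module.finrank ℂ V := by
  set α : Module.End ℂ V := ρ a with hαdef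
  set β : Module.End ℂ V := ρ b with hβdef
  have hα : α * α = 1 := by rw [hαdef, ← map_mul, ha, map_one]
  have hβ : β * β = 1 := by rw [hβdef, ← map_mul, hb, map_one]
  have hc : α * β = β * α := by rw [hαdef, hβdef, ← map_mul, ← map_mul, hab]
  have hαβ : ρ (a * b) = α * β := by rw [map_mul]
  have hα2 : (1 + α) * (1 + α) = (2 : ℂ) • (1 + α) := by
    simp only [mul_add, add_mul, one_mul, mul_one, hα, two_smul]
    abel
  have hβ2 : (1 + β) * (1 + β) = (2 : ℂ) • (1 + β) := by
    simp only [mul_add, add_mul, one_mul, mul_one, hβ, two_smul]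
    abel
  have hcomm : (1 + β) * (1 + α) = (1 + α) * (1 + β) := by
    simp only [mul_add, add_mul, one_mul, mul_one, hc]
    abel
  set S : Module.End ℂ V := (1 + α) * (1 + β) with hS
  have hSS : S * S = (4 : ℂ) • S := by
    calc S * S = (1 + α) * ((1 + β) * (1 + α)) * (1 + β) := by
          rw [hS]; simp only [mul_assoc]
      _ = ((1 + α) * (1 + α)) * ((1 + β) * (1 + β)) := by
          rw [hcomm, hS]; simp only [mul_assoc]
      _ = (4 : ℂ) • S := by
          rw [hα2, hβ2, smul_mul_smul_comm, hS]; norm_num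
  have hP : IsIdempotentElem ((4 : ℂ)⁻¹ • S) := by
    show _ * _ = _
    rw [smul_mul_smul_comm, hSS, smul_smul]
    congr 1
    norm_num
  have htr := (LinearMap.IsIdempotentElem.isProj_range _ hP).trace
  have htrS : LinearMap.trace ℂ V S = (Module.finrank ℂ V : ℂ) := by
    have e : S = 1 + α + β + ρ (a * b) := by
      rw [hS, hαβ]
      simp only [mul_add, add_mul, one_mul, mul_one]
      abel
    rw [e, map_add, map_add, map_add, h3, h1, h2, LinearMap.trace_one]
    simp
  rw [map_smul, htrS, smul_eq_mul] at htr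
  have h4 : (Module.finrank ℂ V : ℂ)
      = ((4 * Module.finrank ℂ (LinearMap.range ((4 : ℂ)⁻¹ • S)) : ℕ) : ℂ) := by
    push_cast
    rw [← htr]
    ring
  exact ⟨_, Nat.cast_injective h4⟩

end Cfsg.Agent.Helper67
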