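import Mathlib

set_option autoImplicit false

namespace Cfsg.Agent.Helper67

/-- PIECE NUM -/
theorem rmd43_num (q d r n : ℕ) (c : ℂ) (hq : q % 4 = 3)
    (h1 : (d : ℂ) + ((q : ℂ) - 1) * c = (q : ℂ) * (r : ℂ))
    (h2 : (d : ℂ) - c = (q : ℂ) * (q : ℂ) * (n : ℂ)) (hrd : r ≠ d) (h4 : r = 0 → 4 ∣ d) :
    q ^ 2 - q + 1 ≤ d := by
  have hq1 : 1 ≤ q := by omega
  have hq0 : (q : ℂ) ≠ 0 := by
    have : q ≠ 0 := by omega
    exact_mod_cast this
  have e : (d : ℂ) = r + ((q : ℂ) - 1) * q * n := by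
    apply mul_left_cancel₀ hq0
    linear_combination h1 + ((q : ℂ) - 1) * h2
  have e' : d = r + (q - 1) * q * n := by
    have : ((d : ℕ) : ℂ) = ((r + (q - 1) * q * n : ℕ) : ℂ) := by
      push_cast [Nat.cast_sub hq1]
      exact e
    exact_mod_cast this
  have hm : q ^ 2 - q = (q - 1) * q := by rw [Nat.sub_mul, one_mul, pow_two]
  have hm4 : ((q - 1) * q) % 4 = 2 := by
    rw [Nat.mul_mod, hq]
    have : (q - 1) % 4 = 2 := by omega
    rw [this]
  rw [hm]
  set m := (q - 1) * q with hmdef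
  have hn0 : n ≠ 0 := by
    rintro rfl
    rw [mul_zero, add_zero] at e'
    exact hrd e'.symm
  rcases Nat.eq_zero_or_pos r with hr | hr
  · have h5 := h4 hr
    rw [e', hr, zero_add] at h5
    have h6 : (m * n) % 4 = 0 := Nat.mod_eq_zero_of_dvd h5
    rw [Nat.mul_mod, hm4] at h6
    have hn2 : 2 ≤ n := by omega
    have h7 : m * 2 ≤ m * n := Nat.mul_le_mul_left m hn2
    rw [e', hr, zero_add]
    omega
  · have h7 : m * 1 ≤ m * n := Nat.mul_le_mul_left m (Nat.pos_of_ne_zero hn0)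
    rw [e']
    omega

end Cfsg.Agent.Helper67
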