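import Mathlib

set_option autoImplicit false

namespace Cfsg.Agent.Helper67

/-- PIECE PARAM -/
theorem rmd43_param {G : Type*} [Group G] {K : Type*} [Field K] [Fintype K] (x : K → K → G)
    (hmul : ∀ u v u' v' : K, x u v * x u' v' = x (u + u') (v + v'))
    (hinj : ∀ u v : K, x u v = 1 → u = 0 ∧ v = 0)
    (hZ : ∀ z : K, z ≠ 0 → ∃ g : G, ∀ v : K, g * x 0 v * g⁻¹ = x 0 (z * v))
    (hA : ∀ u v w : K, u ≠ 0 → ∃ g : G, g * x u v * g⁻¹ = x u (v + w))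
    (t : G) (ht : ∀ v : K, t * x 0 v * t⁻¹ = x 0 (-v)) :
    ∃ Z A : Subgroup G, Nat.card Z = Fintype.card K ∧
      Nat.card A = Fintype.card K * Fintype.card K ∧ Z ≤ A ∧
      (∀ x ∈ A, ∀ y ∈ A, x * y = y * x) ∧
      (∀ x ∈ Z, ∀ y ∈ Z, x ≠ 1 → y ≠ 1 → ∃ g : G, g * x * g⁻¹ = y) ∧
      (∀ x ∈ A, x ∉ Z → ∀ z ∈ Z, ∃ g : G, g * x * g⁻¹ = x * z) ∧
      (∀ z ∈ Z, t * z * t⁻¹ = z⁻¹) := by
  have h00 : x 0 0 = 1 := by
    have h := hmul 0 0 0 0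
    rw [add_zero] at h
    exact mul_eq_left.1 h
  have hinv : ∀ u v : K, (x u v)⁻¹ = x (-u) (-v) := by
    intro u v
    rw [inv_eq_iff_mul_eq_one, hmul, add_neg_cancel, add_neg_cancel, h00]
  have hx_inj : ∀ u v u' v' : K, x u v = x u' v' → u = u' ∧ v = v' := by
    intro u v u' v' h
    have h1 : x (u - u') (v - v') = 1 := by
      rw [sub_eq_add_neg, sub_eq_add_neg, ← hmul, ← hinv, h, mul_inv_cancel]
    obtain ⟨h2, h3⟩ := hinj _ _ h1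
    exact ⟨sub_eq_zero.1 h2, sub_eq_zero.1 h3⟩
  let A : Subgroup G :=
    { carrier := {g | ∃ u v : K, g = x u v}
      mul_mem' := by
        rintro _ _ ⟨u, v, rfl⟩ ⟨u', v', rfl⟩
        exact ⟨u + u', v + v', hmul u v u' v'⟩
      one_mem' := ⟨0, 0, h00.symm⟩
      inv_mem' := by
        rintro _ ⟨u, v, rfl⟩
        exact ⟨-u, -v, hinv u v⟩ }
  let Z : Subgroup G :=
    { carrier := {g | ∃ v : K, g = x 0 v}
      mul_mem' := by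
        rintro _ _ ⟨v, rfl⟩ ⟨v', rfl⟩
        exact ⟨v + v', by rw [hmul, add_zero]⟩
      one_mem' := ⟨0, h00.symm⟩
      inv_mem' := by
        rintro _ ⟨v, rfl⟩
        exact ⟨-v, by rw [hinv, neg_zero]⟩ }
  have hmemA : ∀ g : G, g ∈ A ↔ ∃ u v : K, g = x u v := fun g => Iff.rfl
  have hmemZ : ∀ g : G, g ∈ Z ↔ ∃ v : K, g = x 0 v := fun g => Iff.rfl
  refine ⟨Z, A, ?_, ?_, ?_, ?_, ?_, ?_, ?_⟩
  · -- card Z
    rw [← Nat.card_eq_fintype_card]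
    symm
    refine Nat.card_congr (Equiv.ofBijective (fun v : K => (⟨x 0 v, (hmemZ _).2 ⟨v, rfl⟩⟩ : Z))
      ⟨?_, ?_⟩)
    · intro v v' h
      exact (hx_inj _ _ _ _ (congrArg Subtype.val h)).2
    · rintro ⟨g, hg⟩
      obtain ⟨v, rfl⟩ := (hmemZ g).1 hg
      exact ⟨v, rfl⟩
  · -- card A
    rw [← Nat.card_eq_fintype_card, ← Nat.card_prod]
    symm
    refine Nat.card_congr (Equiv.ofBijective
      (fun p : K × K => (⟨x p.1 p.2, (hmemA _).2 ⟨p.1, p.2, rfl⟩⟩ : A)) ⟨?_, ?_⟩)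
    · rintro ⟨u, v⟩ ⟨u', v'⟩ h
      obtain ⟨h1, h2⟩ := hx_inj _ _ _ _ (congrArg Subtype.val h)
      exact Prod.ext h1 h2
    · rintro ⟨g, hg⟩
      obtain ⟨u, v, rfl⟩ := (hmemA g).1 hg
      exact ⟨(u, v), rfl⟩
  · intro g hg
    obtain ⟨v, rfl⟩ := (hmemZ g).1 hg
    exact (hmemA _).2 ⟨0, v, rfl⟩
  · intro g hg g' hg'
    obtain ⟨u, v, rfl⟩ := (hmemA g).1 hg
    obtain ⟨u', v', rfl⟩ := (hmemA g').1 hg'
    rw [hmul, hmul, add_comm u, add_comm v]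
  · intro g hg g' hg' hg1 hg1'
    obtain ⟨v, rfl⟩ := (hmemZ g).1 hg
    obtain ⟨v', rfl⟩ := (hmemZ g').1 hg'
    have hv : v ≠ 0 := by
      rintro rfl; exact hg1 h00
    obtain ⟨k, hk⟩ := hZ (v' / v) (div_ne_zero (by rintro rfl; exact hg1' h00) hv)
    refine ⟨k, ?_⟩
    rw [hk v, div_mul_cancel₀ _ hv]
  · intro g hg hgZ z hz
    obtain ⟨u, v, rfl⟩ := (hmemA g).1 hg
    obtain ⟨w, rfl⟩ := (hmemZ z).1 hz
    have hu : u ≠ 0 := by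
      rintro rfl; exact hgZ ((hmemZ _).2 ⟨v, rfl⟩)
    obtain ⟨k, hk⟩ := hA u v w hu
    refine ⟨k, ?_⟩
    rw [hk, hmul, add_zero]
  · intro z hz
    obtain ⟨v, rfl⟩ := (hmemZ z).1 hz
    rw [ht, hinv, neg_zero]

end Cfsg.Agent.Helper67
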