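import Mathlib
import Cfsg.Agent.Helper90.MDSLDefs
import Cfsg.Agent.Helper60.SLFisher
import Cfsg.Agent.Helper20.MDMSCARD
import Cfsg.Agent.Helper91.MDAVG
import Cfsg.Agent.Helper3.MDD

/-!
# CALL S2332, PIECE ASM2 (helper67): `asm_level1`, `asm_level1_gen`, `asm_level1_val`
-/

set_option autoImplicit false
set_option linter.unusedSectionVars false

namespace Cfsg.Agent.Helper67

open Module Cfsg.Agent.Helper90.MD Cfsg.Agent.Helper60.MinIdx

section
variable {F V0 : Type*} [Field F] [Finite F] [AddCommGroup V0] [Module F V0] [Module.Finite F V0]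
variable {W : Type*} [AddCommGroup W] [Module ℂ W] [FiniteDimensional ℂ W]

/-- the multiplicity-one property of the full representation on `Qsub φ`. -/
theorem md_multOne_qsub (ρ : Representation ℂ (SpecialLinearGroup F V0) W) (a : ℕ)
    (hd : finrank ℂ W = a + Nat.card F ^ (finrank F V0 - 1) - 1)
    (hχ : ∀ (f : Dual F V0) (c : V0), f c = 0 → f ≠ 0 → c ≠ 0 →
      ρ.character (tv f c) = (a : ℂ) - 1)
    {φ : Dual F V0} (hφ : φ ≠ 0) :
    MultOne ρ LinearMap.id (Qsub φ) ((a : ℂ) - 1) := by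
  have hq : 2 ≤ Nat.card F := Finite.one_lt_card
  have hQ : 1 ≤ Nat.card F ^ (finrank F V0 - 1) := Nat.one_le_pow _ _ (by omega)
  refine ⟨?_, ?_⟩
  · rintro x ⟨c, hc, rfl⟩ hx1
    have hc0 : c ≠ 0 := by
      rintro rfl
      exact hx1 (tv_zero_right φ)
    rw [Helper91.ptr_id]
    exact hχ φ c hc hφ hc0
  · rw [Helper91.ptr_id, Representation.char_one, hd, Helper20.qsub_card hφ]
    have h1 : a + Nat.card F ^ (finrank F V0 - 1) - 1
        = a + (Nat.card F ^ (finrank F V0 - 1) - 1) := by omega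
    rw [h1]
    push_cast [Nat.cast_sub hQ]
    ring

theorem asm_level1 (ρ : Representation ℂ (SpecialLinearGroup F V0) W) (a : ℕ)
    (hd : finrank ℂ W = a + Nat.card F ^ (finrank F V0 - 1) - 1)
    (hχ : ∀ (f : Dual F V0) (c : V0), f c = 0 → f ≠ 0 → c ≠ 0 →
      ρ.character (tv f c) = (a : ℂ) - 1)
    {φ : Dual F V0} (hφ : φ ≠ 0) :
    MultOne ρ LinearMap.id (Qsub φ) ((a : ℂ) - 1) ∧
      IsProjFor ρ (normSub (Qsub φ)) (LinearMap.id ∘ₗ avg ρ (Qsub φ)) ∧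
      ptr ρ (LinearMap.id ∘ₗ avg ρ (Qsub φ)) 1 = (a : ℂ) := by
  have hV0 : Finite V0 := Module.finite_of_finite F
  have hm := md_multOne_qsub ρ a hd hχ hφ
  refine ⟨hm, ?_, ?_⟩
  · exact Helper91.avg_isProjFor ρ ⊤ (Qsub φ) (normSub (Qsub φ)) LinearMap.id
      (Helper91.isProjFor_id ρ ⊤) le_top le_top (fun n hn => hn)
  · have h1 := Helper91.ptr_avg_one ρ ⊤ (Qsub φ) LinearMap.id (Helper91.isProjFor_id ρ ⊤)
      le_top ((a : ℂ) - 1) hm.1
    have h2 := hm.2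
    have hA0 : (Nat.card (Qsub φ) : ℂ) ≠ 0 := Nat.cast_ne_zero.mpr Nat.card_pos.ne'
    apply mul_right_cancel₀ hA0
    rw [h1]
    linear_combination h2

theorem asm_level1_gen (ρ : Representation ℂ (SpecialLinearGroup F V0) W) (a : ℕ)
    (hd : finrank ℂ W = a + Nat.card F ^ (finrank F V0 - 1) - 1)
    (hχ : ∀ (f : Dual F V0) (c : V0), f c = 0 → f ≠ 0 → c ≠ 0 →
      ρ.character (tv f c) = (a : ℂ) - 1)
    {φ : Dual F V0} (hφ : φ ≠ 0) (g : SpecialLinearGroup F V0) (hg : NormBy g (Qsub φ))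
    (hT : PropT ⊤ (Qsub φ) (bsub (Qsub φ) g) g) :
    ptr ρ (LinearMap.id ∘ₗ avg ρ (Qsub φ)) g = ρ.character g + 1 - (cent (Qsub φ) g : ℂ) := by
  have hV0 : Finite V0 := Module.finite_of_finite F
  have hm := md_multOne_qsub ρ a hd hχ hφ
  have h1 := Helper3.lemD ρ ⊤ (Qsub φ) LinearMap.id (Helper91.isProjFor_id ρ ⊤) le_top
    (Helper20.qsub_comm φ) ((a : ℂ) - 1) hm g (Subgroup.mem_top g) hg hT
  rw [Helper91.ptr_id] at h1
  exact h1

theorem asm_level1_val (ρ : Representation ℂ (SpecialLinearGroup F V0) W) (a : ℕ)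
    (hd : finrank ℂ W = a + Nat.card F ^ (finrank F V0 - 1) - 1)
    (hχ : ∀ (f : Dual F V0) (c : V0), f c = 0 → f ≠ 0 → c ≠ 0 →
      ρ.character (tv f c) = (a : ℂ) - 1)
    {φ : Dual F V0} (hφ : φ ≠ 0) (g : SpecialLinearGroup F V0) (hg : NormBy g (Qsub φ))
    (hT : PropT ⊤ (Qsub φ) (bsub (Qsub φ) g) g) (x : SpecialLinearGroup F V0)
    (hx : x ∈ Qsub φ) (hxB : x ∉ bsub (Qsub φ) g) :
    ρ.character (g * x) = ρ.character g - (cent (Qsub φ) g : ℂ) := by
  have hV0 : Finite V0 := Module.finite_of_finite F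
  have hm := md_multOne_qsub ρ a hd hχ hφ
  have h1 := Helper3.lemD_val ρ ⊤ (Qsub φ) LinearMap.id (Helper91.isProjFor_id ρ ⊤) le_top
    (Helper20.qsub_comm φ) ((a : ℂ) - 1) hm g (Subgroup.mem_top g) hg hT x hx hxB
  rw [Helper91.ptr_id, Helper91.ptr_id] at h1
  exact h1

end

end Cfsg.Agent.Helper67
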