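import Mathlib
import Cfsg.Agent.Helper90.MDSLDefs

/-!
# CALL S2332, PIECE MSLIN (helper67): existence of covectors; containments
-/

set_option autoImplicit false
set_option linter.unusedSectionVars false

namespace Cfsg.Agent.Helper67

open Module Cfsg.Agent.Helper90.MD Cfsg.Agent.Helper60.MinIdx

section
variable {F V0 : Type*} [Field F] [AddCommGroup V0] [Module F V0]

/-- a transvection `tv η b` fixes every linear form vanishing at `b`. -/
theorem md_cg_tv_eq {η φ : Dual F V0} {b : V0} (hη : η b = 0) (hφ : φ b = 0) :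
    cg (tv η b) φ = φ := by
  ext x
  have h' : η (-b) = 0 := by rw [map_neg, hη, neg_zero]
  rw [cg_apply, tv_inv, tv_apply h', map_add, map_smul, map_neg, hφ, neg_zero, smul_zero,
    add_zero]

/-- the value of a linear form vanishing at `b` is unchanged by `tv η b`. -/
theorem md_tv_apply_form {η φ : Dual F V0} {b : V0} (hη : η b = 0) (hφ : φ b = 0) (a : V0) :
    φ (tv η b a) = φ a := by
  rw [tv_apply hη, map_add, map_smul, hφ, smul_zero, add_zero]

/-- conjugation by `tv η b` (`φ b = 0`, `η b = 0`) maps `Qsub φ` into itself. -/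
theorem md_conj_mem_qsub {η φ : Dual F V0} {b : V0} (hη : η b = 0) (hφ : φ b = 0)
    {x : SpecialLinearGroup F V0} (hx : x ∈ Qsub φ) :
    tv η b * x * (tv η b)⁻¹ ∈ Qsub φ := by
  obtain ⟨a, ha, rfl⟩ := hx
  refine ⟨tv η b a, ?_, ?_⟩
  · rw [md_tv_apply_form hη hφ, ha]
  · rw [tv_conj, md_cg_tv_eq hη hφ]

/-- `tv η b` (`φ b = 0`, `η b = 0`) normalises `Qsub φ`. -/
theorem md_normBy_qsub {η φ : Dual F V0} {b : V0} (hη : η b = 0) (hφ : φ b = 0) :
    NormBy (tv η b) (Qsub φ) := by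
  refine ⟨fun x hx => md_conj_mem_qsub hη hφ hx, fun x hx => ?_⟩
  have hη' : η (-b) = 0 := by rw [map_neg, hη, neg_zero]
  have hφ' : φ (-b) = 0 := by rw [map_neg, hφ, neg_zero]
  have h := md_conj_mem_qsub hη' hφ' hx
  rw [← tv_inv, inv_inv] at h
  exact h

/-- conjugation by `tv η b` (`φ b = ψ b = η b = 0`) maps `Xsub φ ψ` into itself. -/
theorem md_conj_mem_xsub {η φ ψ : Dual F V0} {b : V0} (hη : η b = 0) (hφ : φ b = 0)
    (hψ : ψ b = 0) {x : SpecialLinearGroup F V0} (hx : x ∈ Xsub φ ψ) :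
    tv η b * x * (tv η b)⁻¹ ∈ Xsub φ ψ := by
  obtain ⟨c, hc, hc', rfl⟩ := hx
  refine ⟨tv η b c, ?_, ?_, ?_⟩
  · rw [md_tv_apply_form hη hφ, hc]
  · rw [md_tv_apply_form hη hψ, hc']
  · rw [tv_conj, md_cg_tv_eq hη hψ]

/-- `tv η b` (`φ b = ψ b = η b = 0`) normalises `Xsub φ ψ`. -/
theorem md_normBy_xsub {η φ ψ : Dual F V0} {b : V0} (hη : η b = 0) (hφ : φ b = 0)
    (hψ : ψ b = 0) : NormBy (tv η b) (Xsub φ ψ) := by
  refine ⟨fun x hx => md_conj_mem_xsub hη hφ hψ hx, fun x hx => ?_⟩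
  have hη' : η (-b) = 0 := by rw [map_neg, hη, neg_zero]
  have hφ' : φ (-b) = 0 := by rw [map_neg, hφ, neg_zero]
  have hψ' : ψ (-b) = 0 := by rw [map_neg, hψ, neg_zero]
  have h := md_conj_mem_xsub hη' hφ' hψ' hx
  rw [← tv_inv, inv_inv] at h
  exact h

end

section
variable {F V0 : Type*} [Field F] [Finite F] [AddCommGroup V0] [Module F V0] [Module.Finite F V0]

theorem xsub_le_normSub (φ ψ : Dual F V0) : Xsub φ ψ ≤ normSub (Qsub φ) := by
  rintro g ⟨b, hb, hb', rfl⟩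
  exact md_normBy_qsub hb' hb

theorem ysub_le_normSub (φ ψ ψ' : Dual F V0) :
    Ysub φ ψ ψ' ≤ normSub (Qsub φ) ⊓ normSub (Xsub φ ψ) := by
  rintro g ⟨b, hb, hb', hb'', rfl⟩
  exact ⟨md_normBy_qsub hb'' hb, md_normBy_xsub hb'' hb hb'⟩

theorem exists_cov3 (hn : 4 ≤ finrank F V0) :
    ∃ (φ ψ ψ' : Dual F V0), LinearIndependent F ![φ, ψ, ψ'] := by
  classical
  let bs := Module.finBasis F V0
  have h0 : 0 < finrank F V0 := by omega
  have h1 : 1 < finrank F V0 := by omega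
  have h2 : 2 < finrank F V0 := by omega
  refine ⟨bs.dualBasis ⟨0, h0⟩, bs.dualBasis ⟨1, h1⟩, bs.dualBasis ⟨2, h2⟩, ?_⟩
  have hinj : Function.Injective
      (![⟨0, h0⟩, ⟨1, h1⟩, ⟨2, h2⟩] : Fin 3 → Fin (finrank F V0)) := by
    intro i j hij
    fin_cases i <;> fin_cases j <;> simp [Fin.ext_iff] at hij ⊢
  have hli := bs.dualBasis.linearIndependent.comp _ hinj
  have heq : (bs.dualBasis ∘ (![⟨0, h0⟩, ⟨1, h1⟩, ⟨2, h2⟩] : Fin 3 → Fin (finrank F V0)))
      = ![bs.dualBasis ⟨0, h0⟩, bs.dualBasis ⟨1, h1⟩, bs.dualBasis ⟨2, h2⟩] := by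
    funext i
    fin_cases i <;> rfl
  rw [heq] at hli
  exact hli

theorem exists_cov2 (hn : 3 ≤ finrank F V0) :
    ∃ (φ ψ : Dual F V0) (b : V0), LinearIndependent F ![φ, ψ] ∧ φ b = 0 ∧ ψ b = 0 ∧ b ≠ 0 := by
  classical
  let bs := Module.finBasis F V0
  have h0 : 0 < finrank F V0 := by omega
  have h1 : 1 < finrank F V0 := by omega
  have h2 : 2 < finrank F V0 := by omega
  refine ⟨bs.dualBasis ⟨0, h0⟩, bs.dualBasis ⟨1, h1⟩, bs ⟨2, h2⟩, ?_, ?_, ?_, bs.ne_zero _⟩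
  · have hinj : Function.Injective
        (![⟨0, h0⟩, ⟨1, h1⟩] : Fin 2 → Fin (finrank F V0)) := by
      intro i j hij
      fin_cases i <;> fin_cases j <;> simp [Fin.ext_iff] at hij ⊢
    have hli := bs.dualBasis.linearIndependent.comp _ hinj
    have heq : (bs.dualBasis ∘ (![⟨0, h0⟩, ⟨1, h1⟩] : Fin 2 → Fin (finrank F V0)))
        = ![bs.dualBasis ⟨0, h0⟩, bs.dualBasis ⟨1, h1⟩] := by
      funext i
      fin_cases i <;> rfl
    rw [heq] at hli
    exact hli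
  · rw [Basis.dualBasis_apply_self]
    rw [if_neg]
    simp [Fin.ext_iff]
  · rw [Basis.dualBasis_apply_self]
    rw [if_neg]
    simp [Fin.ext_iff]

end

end Cfsg.Agent.Helper67
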