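import Mathlib
import Cfsg.Agent.Helper90.MDSLDefs
import Cfsg.Agent.Helper60.SLFisher
import Cfsg.Agent.Helper20.MDMSCARD
import Cfsg.Agent.Helper66.MDMSNORM
import Cfsg.Agent.Helper91.MDAVG
import Cfsg.Agent.Helper67.MDMSLIN
import Cfsg.Agent.Helper67.MDASM2

/-!
# CALL S2332, PIECE ASM3 (helper67): `asm_one_level`
-/

set_option autoImplicit false
set_option linter.unusedSectionVars false

namespace Cfsg.Agent.Helper67

open Module Cfsg.Agent.Helper90.MD Cfsg.Agent.Helper60.MinIdx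

section
variable {F V0 : Type*} [Field F] [Finite F] [AddCommGroup V0] [Module F V0] [Module.Finite F V0]
variable {W : Type*} [AddCommGroup W] [Module ℂ W] [FiniteDimensional ℂ W]

/-- the relative character of `P1 = avg (Qsub φ)` on the nontrivial elements of `Xsub φ ψ`. -/
theorem md_ptr_level1_xsub (ρ : Representation ℂ (SpecialLinearGroup F V0) W) (a : ℕ)
    (hd : finrank ℂ W = a + Nat.card F ^ (finrank F V0 - 1) - 1)
    (hχ : ∀ (f : Dual F V0) (c : V0), f c = 0 → f ≠ 0 → c ≠ 0 →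
      ρ.character (tv f c) = (a : ℂ) - 1)
    (H1 : ∀ (φ ψ : Dual F V0) (b : V0), LinearIndependent F ![φ, ψ] → φ b = 0 → ψ b = 0 →
      b ≠ 0 → PropT ⊤ (Qsub φ) (bsub (Qsub φ) (tv ψ b)) (tv ψ b))
    {φ ψ : Dual F V0} (hli : LinearIndependent F ![φ, ψ]) {c : V0} (hφc : φ c = 0)
    (hψc : ψ c = 0) (hc : c ≠ 0) :
    ptr ρ (LinearMap.id ∘ₗ avg ρ (Qsub φ)) (tv ψ c)
      = (a : ℂ) - (Nat.card F ^ (finrank F V0 - 2) : ℕ) := by
  have hφ : φ ≠ 0 := by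
    have h0 := hli.ne_zero 0
    simpa using h0
  have hψ : ψ ≠ 0 := by
    have h0 := hli.ne_zero 1
    simpa using h0
  rw [asm_level1_gen ρ a hd hχ hφ (tv ψ c) (Helper66.tv_normBy_qsub hφc hψc)
    (H1 φ ψ c hli hφc hψc hc), hχ ψ c hψc hψ hc, Helper66.cent_qsub_tv hli hφc hψc hc]
  ring

theorem asm_one_level (hn : 3 ≤ finrank F V0)
    (ρ : Representation ℂ (SpecialLinearGroup F V0) W) (a : ℕ)
    (hd : finrank ℂ W = a + Nat.card F ^ (finrank F V0 - 1) - 1)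
    (hχ : ∀ (f : Dual F V0) (c : V0), f c = 0 → f ≠ 0 → c ≠ 0 →
      ρ.character (tv f c) = (a : ℂ) - 1)
    (H1 : ∀ (φ ψ : Dual F V0) (b : V0), LinearIndependent F ![φ, ψ] → φ b = 0 → ψ b = 0 →
      b ≠ 0 → PropT ⊤ (Qsub φ) (bsub (Qsub φ) (tv ψ b)) (tv ψ b)) :
    Nat.card F ^ (finrank F V0 - 2) ≤ a + 1 := by
  classical
  have hV0 : Finite V0 := Module.finite_of_finite F
  obtain ⟨φ, ψ, b, hli, hφb, hψb, hb⟩ := exists_cov2 (F := F) (V0 := V0) hn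
  have hφ : φ ≠ 0 := by
    have h0 := hli.ne_zero 0
    simpa using h0
  obtain ⟨-, hP1, hP1one⟩ := asm_level1 ρ a hd hχ hφ
  have hτ' : ∀ x ∈ Xsub φ ψ, x ≠ 1 → ptr ρ (LinearMap.id ∘ₗ avg ρ (Qsub φ)) x
      = (a : ℂ) - (Nat.card F ^ (finrank F V0 - 2) : ℕ) := by
    rintro x ⟨c, hφc, hψc, rfl⟩ hx1
    have hc0 : c ≠ 0 := by
      rintro rfl
      exact hx1 (tv_zero_right ψ)
    exact md_ptr_level1_xsub ρ a hd hχ H1 hli hφc hψc hc0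
  have h1 := Helper91.ptr_avg_one ρ (normSub (Qsub φ)) (Xsub φ ψ)
    (LinearMap.id ∘ₗ avg ρ (Qsub φ)) hP1 (xsub_le_normSub φ ψ) _ hτ'
  rw [hP1one, Helper20.xsub_card hli] at h1
  have hproj : IsProjFor ρ ⊥ ((LinearMap.id ∘ₗ avg ρ (Qsub φ)) ∘ₗ avg ρ (Xsub φ ψ)) := by
    apply Helper91.avg_isProjFor ρ (normSub (Qsub φ)) (Xsub φ ψ) ⊥
      (LinearMap.id ∘ₗ avg ρ (Qsub φ)) hP1 (xsub_le_normSub φ ψ) bot_le
    intro n hn'
    rw [Subgroup.mem_bot] at hn'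
    subst hn'
    exact ⟨fun x hx => by simpa using hx, fun x hx => by simpa using hx⟩
  rw [Helper91.ptr_one_nat ρ ⊥ _ hproj] at h1
  obtain ⟨r, hr⟩ : ∃ r : ℕ, r = finrank ℂ
      (LinearMap.range ((LinearMap.id ∘ₗ avg ρ (Qsub φ)) ∘ₗ avg ρ (Xsub φ ψ))) := ⟨_, rfl⟩
  rw [← hr] at h1
  obtain ⟨Q, hQ⟩ : ∃ Q : ℕ, Q = Nat.card F ^ (finrank F V0 - 2) := ⟨_, rfl⟩
  rw [← hQ] at h1 ⊢
  have hq : 2 ≤ Nat.card F := Finite.one_lt_card
  have hQpos : 0 < Q := by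
    rw [hQ]; exact Nat.pow_pos (by omega)
  have hQ0 : (Q : ℂ) ≠ 0 := Nat.cast_ne_zero.mpr hQpos.ne'
  have h2 : (r : ℂ) = (a : ℂ) + 1 - (Q : ℂ) := by
    apply mul_right_cancel₀ hQ0
    rw [h1]; ring
  have h3 : ((r + Q : ℕ) : ℂ) = ((a + 1 : ℕ) : ℂ) := by
    push_cast
    rw [h2]; ring
  have h4 : r + Q = a + 1 := by exact_mod_cast h3
  omega

end

end Cfsg.Agent.Helper67
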