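import Mathlib
import Cfsg.Agent.Helper80.CharOrtho
import Cfsg.Agent.Helper81.CharBasic

set_option autoImplicit false

/-!
Piece K1 of CALL S0999 (helper9): the class-constant formula.
-/

open Cfsg
open scoped ComplexConjugate

universe u

namespace Cfsg.Agent.Helper67

open scoped Classical in
theorem br_class_const_aux {G : Type u} [Group G] [Fintype G] [Fintype (Cfsg.IrrCharacter G)]
    (t s y : G) :
    (Fintype.card G : ℂ) *
        ∑ g : G, ∑ h : G, (if g * t * g⁻¹ * (h * s * h⁻¹) = y then (1 : ℂ) else 0)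
      = (Fintype.card G : ℂ) ^ 2 * ∑ χ : Cfsg.IrrCharacter G,
          (χ : G → ℂ) t * (χ : G → ℂ) s * conj ((χ : G → ℂ) y) / (χ : G → ℂ) 1 := by
  -- (a): column orthogonality
  have ha : ∀ g h : G, ∑ χ : Cfsg.IrrCharacter G,
      (χ : G → ℂ) (g * t * g⁻¹ * (h * s * h⁻¹)) * conj ((χ : G → ℂ) y)
      = ∑ k : G, (if k * (g * t * g⁻¹ * (h * s * h⁻¹)) * k⁻¹ = y then (1 : ℂ) else 0) := by
    intro g h
    rw [Helper80.irr_sum_mul_conj, Finset.card_filter, Nat.cast_sum]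
    apply Finset.sum_congr rfl
    intro k _
    split_ifs <;> simp
  -- (b): reindexing
  have hb : ∑ g : G, ∑ h : G, ∑ k : G,
      (if k * (g * t * g⁻¹ * (h * s * h⁻¹)) * k⁻¹ = y then (1 : ℂ) else 0)
      = (Fintype.card G : ℂ) *
        ∑ g : G, ∑ h : G, (if g * t * g⁻¹ * (h * s * h⁻¹) = y then (1 : ℂ) else 0) := by
    have h1 : ∀ k : G, ∑ g : G, ∑ h : G,
        (if k * (g * t * g⁻¹ * (h * s * h⁻¹)) * k⁻¹ = y then (1 : ℂ) else 0)
        = ∑ g : G, ∑ h : G, (if g * t * g⁻¹ * (h * s * h⁻¹) = y then (1 : ℂ) else 0) := by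
      intro k
      apply Fintype.sum_equiv (Equiv.mulLeft k)
      intro g
      apply Fintype.sum_equiv (Equiv.mulLeft k)
      intro h
      have h2 : k * (g * t * g⁻¹ * (h * s * h⁻¹)) * k⁻¹
          = (Equiv.mulLeft k g) * t * (Equiv.mulLeft k g)⁻¹
            * ((Equiv.mulLeft k h) * s * (Equiv.mulLeft k h)⁻¹) := by
        simp only [Equiv.coe_mulLeft]
        group
      rw [h2]
    have h3 : ∑ g : G, ∑ h : G, ∑ k : G,
        (if k * (g * t * g⁻¹ * (h * s * h⁻¹)) * k⁻¹ = y then (1 : ℂ) else 0)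
        = ∑ k : G, ∑ g : G, ∑ h : G,
        (if k * (g * t * g⁻¹ * (h * s * h⁻¹)) * k⁻¹ = y then (1 : ℂ) else 0) := by
      rw [Finset.sum_congr rfl (fun g _ => Finset.sum_comm)]
      exact Finset.sum_comm
    rw [h3, Finset.sum_congr rfl (fun k _ => h1 k), Finset.sum_const, Finset.card_univ,
      nsmul_eq_mul]
  -- (c): the character sums
  have hc : ∑ g : G, ∑ h : G, ∑ χ : Cfsg.IrrCharacter G,
      (χ : G → ℂ) (g * t * g⁻¹ * (h * s * h⁻¹)) * conj ((χ : G → ℂ) y)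
      = (Fintype.card G : ℂ) ^ 2 * ∑ χ : Cfsg.IrrCharacter G,
          (χ : G → ℂ) t * (χ : G → ℂ) s * conj ((χ : G → ℂ) y) / (χ : G → ℂ) 1 := by
    have e0 : ∑ g : G, ∑ h : G, ∑ χ : Cfsg.IrrCharacter G,
        (χ : G → ℂ) (g * t * g⁻¹ * (h * s * h⁻¹)) * conj ((χ : G → ℂ) y)
        = ∑ χ : Cfsg.IrrCharacter G, ∑ h : G, ∑ g : G,
        (χ : G → ℂ) (g * t * g⁻¹ * (h * s * h⁻¹)) * conj ((χ : G → ℂ) y) := by
      rw [Finset.sum_congr rfl (fun g _ => Finset.sum_comm)]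
      rw [Finset.sum_comm]
      apply Finset.sum_congr rfl
      intro χ _
      exact Finset.sum_comm
    rw [e0, Finset.mul_sum]
    refine Finset.sum_congr rfl (fun χ _ => ?_)
    have e1 : ∀ h : G, ∑ g : G,
        (χ : G → ℂ) (g * t * g⁻¹ * (h * s * h⁻¹)) * conj ((χ : G → ℂ) y)
        = (Fintype.card G : ℂ) * (χ : G → ℂ) t * (χ : G → ℂ) s / (χ : G → ℂ) 1
          * conj ((χ : G → ℂ) y) := by
      intro h
      rw [← Finset.sum_mul, Helper80.irr_sum_conj_mul χ t (h * s * h⁻¹), Helper81.irr_conj χ s h]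
    rw [Finset.sum_congr rfl (fun h _ => e1 h), Finset.sum_const, Finset.card_univ, nsmul_eq_mul]
    ring
  rw [← hb, ← hc]
  apply Finset.sum_congr rfl
  intro g _
  apply Finset.sum_congr rfl
  intro h _
  exact (ha g h).symm

theorem br_class_const {G : Type u} [Group G] [Fintype G] (t s y : G) :
    (Nat.card {gh : G × G // gh.1 * t * gh.1⁻¹ * (gh.2 * s * gh.2⁻¹) = y} : ℂ)
      = (Nat.card G : ℂ) * ∑ᶠ χ : Cfsg.IrrCharacter G,
          (χ : G → ℂ) t * (χ : G → ℂ) s * conj ((χ : G → ℂ) y) / (χ : G → ℂ) 1 := by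
  classical
  let _i : Fintype (Cfsg.IrrCharacter G) := Fintype.ofFinite _
  have haux := br_class_const_aux t s y
  have hG : (Fintype.card G : ℂ) ≠ 0 := by exact_mod_cast Fintype.card_ne_zero
  rw [pow_two, mul_assoc] at haux
  have h1 := mul_left_cancel₀ hG haux
  rw [finsum_eq_sum_of_fintype, Nat.card_eq_fintype_card (α := G), ← h1,
    Nat.card_eq_fintype_card, Fintype.card_subtype, Finset.card_filter, Nat.cast_sum,
    Fintype.sum_prod_type]
  apply Finset.sum_congr rfl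
  intro g _
  apply Finset.sum_congr rfl
  intro h _
  split_ifs <;> simp

end Cfsg.Agent.Helper67
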