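import Mathlib
import Cfsg.Agent.Helper81.ClassAlgebra

set_option autoImplicit false

/-!
Piece K4 of CALL S0999 (helper9): degree divisibility from the integrality of the central
characters.
-/

open Cfsg
open scoped ComplexConjugate

universe u

namespace Cfsg.Agent.Helper67

theorem br_int_dvd_of_isIntegral (a : ℤ) (d : ℕ) (hd : 0 < d)
    (h : IsIntegral ℤ ((a : ℂ) / (d : ℂ))) : (d : ℤ) ∣ a := by
  have h1 : ((a : ℂ) / (d : ℂ)) = algebraMap ℚ ℂ ((a : ℚ) / (d : ℚ)) := by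
    simp
  rw [h1] at h
  have h2 : IsIntegral ℤ ((a : ℚ) / (d : ℚ)) :=
    (isIntegral_algebraMap_iff (algebraMap ℚ ℂ).injective).mp h
  obtain ⟨y, hy⟩ := IsIntegrallyClosed.isIntegral_iff.mp h2
  refine ⟨y, ?_⟩
  have hd0 : (d : ℚ) ≠ 0 := by exact_mod_cast hd.ne'
  have h3 : (a : ℚ) = (d : ℚ) * (y : ℚ) := by
    rw [eq_div_iff hd0] at hy
    simp only [eq_intCast] at hy
    rw [← hy]; ring
  exact_mod_cast h3

theorem br_deg_dvd_sum {G : Type u} [Group G] [Finite G] (Y : Finset (Cfsg.IrrCharacter G))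
    (d : ℕ) (hd : ∀ θ ∈ Y, Cfsg.charDegree (θ : G → ℂ) = d) (g : G) (k : ℤ)
    (h : ∑ θ ∈ Y, (θ : G → ℂ) g = (k : ℂ)) :
    (d : ℤ) ∣ ((Subgroup.centralizer ({g} : Set G)).index : ℤ) * k := by
  rcases Y.eq_empty_or_nonempty with hY | ⟨θ₀, hθ₀⟩
  · rw [hY, Finset.sum_empty] at h
    have hk : k = 0 := by exact_mod_cast h.symm
    rw [hk, mul_zero]
    exact dvd_zero _
  · have hdpos : 0 < d := by
      rw [← hd θ₀ hθ₀]; exact Helper81.charDegree_pos θ₀
    apply br_int_dvd_of_isIntegral _ d hdpos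
    let _i : Fintype G := Fintype.ofFinite G
    have h1 : IsIntegral ℤ (∑ θ ∈ Y, Cfsg.centralChar (θ : G → ℂ) g) :=
      IsIntegral.sum _ (fun θ _ => Helper81.centralChar_isIntegral θ g)
    have h2 : ∑ θ ∈ Y, Cfsg.centralChar (θ : G → ℂ) g
        = (((((Subgroup.centralizer ({g} : Set G)).index : ℤ) * k : ℤ) : ℂ)) / (d : ℂ) := by
      have h3 : ∀ θ ∈ Y, Cfsg.centralChar (θ : G → ℂ) g
          = ((Subgroup.centralizer ({g} : Set G)).index : ℂ) * (θ : G → ℂ) g / (d : ℂ) := by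
        intro θ hθ
        rw [Cfsg.centralChar, Helper81.irr_one_eq_charDegree, hd θ hθ]
      rw [Finset.sum_congr rfl h3, ← Finset.sum_div, ← Finset.mul_sum, h]
      push_cast
      rfl
    rw [← h2]
    exact h1

theorem br_deg_dvd {G : Type u} [Group G] [Finite G] (χ : Cfsg.IrrCharacter G) (g : G) (k : ℤ)
    (h : (χ : G → ℂ) g = (k : ℂ)) :
    (Cfsg.charDegree (χ : G → ℂ) : ℤ) ∣ ((Subgroup.centralizer ({g} : Set G)).index : ℤ) * k := by
  classical
  apply br_deg_dvd_sum {χ} _ (by intro θ hθ; rw [Finset.mem_singleton.mp hθ]) g k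
  rw [Finset.sum_singleton, h]

end Cfsg.Agent.Helper67
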