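import Mathlib
import Cfsg.Agent.Helper79.Quotient
import Cfsg.Agent.Helper80.CharIrr
import Cfsg.Agent.Helper81.SectionChar
import Cfsg.Agent.Helper81.CharBasic

set_option autoImplicit false

/-!
Piece T2g of CALL S0999 (helper9): if an irreducible character of degree `p - 1` takes the value
`-1` on the `p`-singular elements of `C(P)` (`|P| = p`) and `G` has no nontrivial normal
`p'`-subgroup, then `C(P) = P`.
-/

open Cfsg
open scoped ComplexConjugate

universe u

namespace Cfsg.Agent.Helper67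

theorem br_eq_of_re_eq_norm_le {z : ℂ} {d : ℝ} (h1 : z.re = d) (h2 : ‖z‖ ≤ d) : z = (d : ℂ) := by
  have h3 : ‖z‖ ^ 2 = z.re * z.re + z.im * z.im := by
    rw [Complex.sq_norm, Complex.normSq_apply]
  have h4 : 0 ≤ ‖z‖ := norm_nonneg z
  have h5 : z.im = 0 := by
    have : z.im * z.im ≤ 0 := by nlinarith
    nlinarith [mul_self_nonneg z.im]
  apply Complex.ext <;> simp [h1, h5]

/-- A `p`-regular element of `C(P)` lies in the kernel of `φ`. -/
theorem br_regular_mem_ker {G : Type u} [Group G] [Finite G] {p : ℕ}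
    [Fact p.Prime] (P : Sylow p G) (hP : Nat.card (P : Subgroup G) = p)
    (φ : Cfsg.IrrCharacter G) (hdeg : Cfsg.charDegree (φ : G → ℂ) = p - 1)
    (hval : ∀ x : G, x ∈ (P : Subgroup G) → x ≠ 1 → ∀ y : G,
      y ∈ Subgroup.centralizer ((P : Subgroup G) : Set G) → ¬ p ∣ orderOf y →
      (φ : G → ℂ) (x * y) = -1)
    (y : G) (hy : y ∈ Subgroup.centralizer ((P : Subgroup G) : Set G)) (hyp : ¬ p ∣ orderOf y) :
    (φ : G → ℂ) y = (φ : G → ℂ) 1 := by
  classical
  have hpP : p.Prime := Fact.out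
  let _i1 : Fintype G := Fintype.ofFinite G
  obtain ⟨d, hd⟩ : ∃ d : ℕ, d = Cfsg.charDegree (φ : G → ℂ) := ⟨_, rfl⟩
  have hdp : d + 1 = p := by have := hpP.two_le; omega
  have hcomm : ∀ (m : (P : Subgroup G)) (n : Subgroup.zpowers y),
      Commute ((P : Subgroup G).subtype m) ((Subgroup.zpowers y).subtype n) := by
    intro m n
    obtain ⟨k, hk⟩ := Subgroup.mem_zpowers_iff.mp n.2
    have h1 : Commute (m : G) y := by
      rw [Subgroup.mem_centralizer_iff] at hy
      exact hy m m.2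
    show Commute (m : G) (n : G)
    rw [← hk]
    exact h1.zpow_right k
  obtain ⟨ι, hι⟩ : ∃ ι : (↥(P : Subgroup G) × ↥(Subgroup.zpowers y)) →* G,
      ∀ x u, ι (x, u) = (x : G) * (u : G) :=
    ⟨MonoidHom.noncommCoprod (P : Subgroup G).subtype (Subgroup.zpowers y).subtype hcomm,
      fun x u => rfl⟩
  obtain ⟨n, hn⟩ := Helper81.exists_linMult φ ι 1
  have hzC : ∀ u : ↥(Subgroup.zpowers y),
      (u : G) ∈ Subgroup.centralizer ((P : Subgroup G) : Set G) := by
    intro u
    obtain ⟨k, hk⟩ := Subgroup.mem_zpowers_iff.mp u.2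
    rw [← hk]
    exact Subgroup.zpow_mem _ hy k
  have hzreg : ∀ u : ↥(Subgroup.zpowers y), ¬ p ∣ orderOf (u : G) := by
    intro u hdiv
    obtain ⟨k, hk⟩ := Subgroup.mem_zpowers_iff.mp u.2
    rw [← hk] at hdiv
    exact hyp (dvd_trans hdiv (orderOf_dvd_of_pow_eq_one (by
      rw [← zpow_natCast, ← zpow_mul, mul_comm, zpow_mul, zpow_natCast, pow_orderOf_eq_one,
        one_zpow])))
  have hcardP : Fintype.card ↥(P : Subgroup G) = p := by
    rw [← Nat.card_eq_fintype_card]; exact hP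
  have hinner : ∀ u : ↥(Subgroup.zpowers y),
      ∑ x : ↥(P : Subgroup G), (φ : G → ℂ) ((x : G) * (u : G)) = (φ : G → ℂ) u - (d : ℂ) := by
    intro u
    rw [← Finset.add_sum_erase Finset.univ _ (Finset.mem_univ (1 : ↥(P : Subgroup G)))]
    have h1 : ∀ x ∈ (Finset.univ.erase (1 : ↥(P : Subgroup G))),
        (φ : G → ℂ) ((x : G) * (u : G)) = -1 := by
      intro x hx
      have hx1 : (x : G) ≠ 1 := by
        intro h
        exact (Finset.mem_erase.mp hx).1 (Subtype.ext h)
      exact hval x x.2 hx1 u (hzC u) (hzreg u)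
    rw [Finset.sum_congr rfl h1, Finset.sum_const, Finset.card_erase_of_mem (Finset.mem_univ _),
      Finset.card_univ, show Fintype.card ↥(P : Subgroup G) - 1 = d by omega]
    simp only [Subgroup.coe_one, one_mul, nsmul_eq_mul, mul_neg, mul_one]
    ring
  have hsum : ∑ u : ↥(Subgroup.zpowers y), ((φ : G → ℂ) u - (d : ℂ))
      = (Fintype.card (↥(P : Subgroup G) × ↥(Subgroup.zpowers y)) : ℂ) * n := by
    rw [← hn, Fintype.sum_prod_type, Finset.sum_comm]
    apply Finset.sum_congr rfl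
    intro u _
    rw [← hinner u]
    apply Finset.sum_congr rfl
    intro x _
    rw [hι]
    simp
  have hre : ∑ u : ↥(Subgroup.zpowers y), (((φ : G → ℂ) u).re - (d : ℝ))
      = ((Fintype.card (↥(P : Subgroup G) × ↥(Subgroup.zpowers y)) * n : ℕ) : ℝ) := by
    have h1 := congrArg Complex.re hsum
    rw [Complex.re_sum, ← Nat.cast_mul, Complex.natCast_re] at h1
    rw [← h1]
    apply Finset.sum_congr rfl
    intro u _
    rw [Complex.sub_re, Complex.natCast_re]
  have hle : ∀ u : ↥(Subgroup.zpowers y), ‖(φ : G → ℂ) u‖ ≤ (d : ℝ) := by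
    intro u
    rw [hd]
    exact Helper80.isCharacter_norm_le (Helper79.irr_isCharacter φ) u
  have hterm : ∀ u ∈ (Finset.univ : Finset ↥(Subgroup.zpowers y)),
      ((φ : G → ℂ) u).re - (d : ℝ) ≤ 0 := by
    intro u _
    have := Complex.re_le_norm ((φ : G → ℂ) u)
    have := hle u
    linarith
  have hzero : ∑ u : ↥(Subgroup.zpowers y), (((φ : G → ℂ) u).re - (d : ℝ)) = 0 := by
    apply le_antisymm (Finset.sum_nonpos hterm)
    rw [hre]
    exact Nat.cast_nonneg _
  have hy0 := (Finset.sum_eq_zero_iff_of_nonpos hterm).mp hzero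
    ⟨y, Subgroup.mem_zpowers y⟩ (Finset.mem_univ _)
  have hy1 : ((φ : G → ℂ) y).re = (d : ℝ) := by
    have : ((φ : G → ℂ) y).re - (d : ℝ) = 0 := hy0
    linarith
  have hy2 := br_eq_of_re_eq_norm_le hy1 (hle ⟨y, Subgroup.mem_zpowers y⟩)
  rw [hy2, Helper81.irr_one_eq_charDegree φ, ← hd]
  simp

theorem br_centralizer_card_gen {G : Type u} [Group G] [Finite G] {p : ℕ}
    [Fact p.Prime] (hOp : ∀ K : Subgroup G, K.Normal → (Nat.card K).Coprime p → K = ⊥)
    (P : Sylow p G) (hP : Nat.card (P : Subgroup G) = p)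
    (φ : Cfsg.IrrCharacter G) (hdeg : Cfsg.charDegree (φ : G → ℂ) = p - 1)
    (hval : ∀ x : G, x ∈ (P : Subgroup G) → x ≠ 1 → ∀ y : G,
      y ∈ Subgroup.centralizer ((P : Subgroup G) : Set G) → ¬ p ∣ orderOf y →
      (φ : G → ℂ) (x * y) = -1) :
    Nat.card (Subgroup.centralizer ((P : Subgroup G) : Set G)) = p := by
  classical
  have hpP : p.Prime := Fact.out
  have hp2 := hpP.two_le
  have h1ord : ¬ p ∣ orderOf (1 : G) := by
    rw [orderOf_one]
    intro h
    have := Nat.le_of_dvd one_pos h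
    omega
  have hφc := Helper79.irr_isCharacter φ
  -- the kernel is a normal p'-subgroup
  have hKnorm : (Helper79.charKer hφc).Normal := Helper79.charKer_normal hφc
  have hKcop : (Nat.card (Helper79.charKer hφc)).Coprime p := by
    rw [Nat.coprime_comm, Nat.Prime.coprime_iff_not_dvd hpP]
    intro hdvd
    obtain ⟨k, hk⟩ := exists_prime_orderOf_dvd_card' p hdvd
    have hkp : IsPGroup p (Subgroup.zpowers (k : G)) := by
      apply IsPGroup.of_card (n := 1)
      rw [Nat.card_zpowers, Subgroup.orderOf_coe, hk, pow_one]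
    obtain ⟨Q, hQ⟩ := hkp.exists_le_sylow
    obtain ⟨g, hg⟩ := MulAction.exists_smul_eq G Q P
    have hkQ : (k : G) ∈ (Q : Subgroup G) := hQ (Subgroup.mem_zpowers _)
    have hx : g * (k : G) * g⁻¹ ∈ (P : Subgroup G) := by
      rw [← hg, Sylow.coe_subgroup_smul]
      have h0 := Subgroup.smul_mem_pointwise_smul (k : G) (MulAut.conj g) (Q : Subgroup G) hkQ
      rw [MulAut.smul_def, MulAut.conj_apply] at h0
      exact h0
    have hk1 : (k : G) ≠ 1 := by
      intro h
      have h2 : orderOf (k : G) = p := by rw [Subgroup.orderOf_coe, hk]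
      rw [h, orderOf_one] at h2
      omega
    have hx1 : g * (k : G) * g⁻¹ ≠ 1 := by
      intro h
      apply hk1
      have : (k : G) = g⁻¹ * (g * (k : G) * g⁻¹) * g := by group
      rw [this, h]; group
    have hxK : g * (k : G) * g⁻¹ ∈ Helper79.charKer hφc := hKnorm.conj_mem _ k.2 g
    rw [Helper79.mem_charKer] at hxK
    have h3 := hval _ hx hx1 1 (Subgroup.one_mem _) h1ord
    rw [mul_one, hxK, Helper81.irr_one_eq_charDegree φ, hdeg] at h3
    have h4 : (((p - 1 : ℕ) : ℂ)).re = (-1 : ℂ).re := by rw [h3]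
    rw [Complex.natCast_re] at h4
    simp only [Complex.neg_re, Complex.one_re] at h4
    have h5 : (0 : ℝ) ≤ ((p - 1 : ℕ) : ℝ) := Nat.cast_nonneg _
    linarith
  have hKbot := hOp _ hKnorm hKcop
  have hreg : ∀ y : G, y ∈ Subgroup.centralizer ((P : Subgroup G) : Set G) →
      ¬ p ∣ orderOf y → y = 1 := by
    intro y hy hyp
    have h1 := br_regular_mem_ker P hP φ hdeg hval y hy hyp
    have h2 : y ∈ Helper79.charKer hφc := (Helper79.mem_charKer hφc y).mpr h1
    rw [hKbot, Subgroup.mem_bot] at h2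
    exact h2
  -- C(P) is a p-group
  have hCp : IsPGroup p (Subgroup.centralizer ((P : Subgroup G) : Set G)) := by
    intro g
    have ho : orderOf (g : G) ≠ 0 := (orderOf_pos (g : G)).ne'
    obtain ⟨a, m, hm, hom⟩ := Nat.exists_eq_pow_mul_and_not_dvd ho p hpP.ne_one
    refine ⟨a, ?_⟩
    apply Subtype.ext
    rw [Subgroup.coe_pow, Subgroup.coe_one]
    apply hreg _ (Subgroup.pow_mem _ g.2 _)
    have h1 : orderOf ((g : G) ^ p ^ a) = m := by
      rw [orderOf_pow_of_dvd (pow_ne_zero a hpP.ne_zero) (by rw [hom]; exact dvd_mul_right _ _),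
        hom]
      exact Nat.mul_div_cancel_left m (pow_pos hpP.pos a)
    rw [h1]
    exact hm
  -- P ≤ C(P)
  have hPle : (P : Subgroup G) ≤ Subgroup.centralizer ((P : Subgroup G) : Set G) := by
    intro x hx
    rw [Subgroup.mem_centralizer_iff]
    intro z hz
    have hcyc : IsCyclic ↥(P : Subgroup G) := isCyclic_of_prime_card hP
    have h1 : (⟨z, hz⟩ : ↥(P : Subgroup G)) * ⟨x, hx⟩ = ⟨x, hx⟩ * ⟨z, hz⟩ := by
      let _c := hcyc.commGroup
      exact mul_comm _ _
    exact congrArg Subtype.val h1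
  rw [P.is_maximal' hCp hPle]
  exact hP

end Cfsg.Agent.Helper67
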