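import Mathlib
import Cfsg.Agent.Helper9.BRDefs
import Cfsg.Agent.Helper19.BRNum
import Cfsg.Agent.Helper65.BRN3
import Cfsg.Agent.Helper67.BRA2
import Cfsg.Agent.Helper67.BRK4
import Cfsg.Agent.Helper67.BRK5
import Cfsg.Agent.Helper67.BRT2g
import Cfsg.Agent.Helper75.BRT1

set_option autoImplicit false

/-!
Piece S1g of CALL S0999 (helper9): degrees of the characters of the principal block and the
alpha/beta dichotomy, for a perfect group without nontrivial normal `p'`-subgroups.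
-/

open Cfsg
open scoped ComplexConjugate

universe u



namespace Cfsg.Agent.Helper67

theorem br_stage1_gen {G : Type u} [Group G] [Fintype G] (hperf : commutator G = ⊤)
    {p : ℕ} [Fact p.Prime]
    (hOp : ∀ K : Subgroup G, K.Normal → (Nat.card K).Coprime p → K = ⊥)
    (hodd : p ≠ 2) {M : Ideal Cfsg.AlgInt} (hM : Cfsg.IsPModular p M)
    (P : Sylow p G) (hP : Nat.card (P : Subgroup G) = p) (q n v : ℕ)
    (hq : (Subgroup.centralizer ((P : Subgroup G) : Set G)).relIndex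
        (Subgroup.normalizer ((P : Subgroup G) : Set G)) = q)
    (hq2 : 2 ≤ q) (hqd : q ∣ p - 1) (hn : 1 ≤ n) (hv : 1 ≤ v)
    (hCv : Nat.card (Subgroup.centralizer ((P : Subgroup G) : Set G)) = p * v)
    (hcard : Nat.card G = p * q * v * (1 + n * p)) (hlt : q * v * n < p)
    (T : Cfsg.Agent.Helper9.BRTab p M P q) :
    Nat.card (Subgroup.centralizer ((P : Subgroup G) : Set G)) = p ∧
    ∃ t a : ℕ, 2 ≤ t ∧ q * t = p - 1 ∧ n + 1 = t ∧ T.X1.card = a ∧
      (∀ χ ∈ T.X1, Cfsg.charDegree (χ : G → ℂ) = 1 + n * p) ∧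
      (∀ χ ∈ T.X2, Cfsg.charDegree (χ : G → ℂ) = p - 1) ∧
      ((T.ε = 1 ∧ q = 1 + a * t ∧ 1 ≤ a ∧ ∀ θ ∈ T.Y, Cfsg.charDegree (θ : G → ℂ) = q) ∨
       (T.ε = -1 ∧ q = 2 + a * t ∧ ∀ θ ∈ T.Y, Cfsg.charDegree (θ : G → ℂ) = p - q)) := by
  classical
  have hpP : p.Prime := Fact.out
  have hp2 : 2 ≤ p := hpP.two_le
  -- a nontrivial element of P
  obtain ⟨y, hy, hy1⟩ : ∃ y : G, y ∈ (P : Subgroup G) ∧ y ≠ 1 := by
    by_contra hcon
    push Not at hcon
    have hbot : (P : Subgroup G) = ⊥ := by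
      rw [eq_bot_iff]
      intro x hx
      rw [Subgroup.mem_bot]
      exact hcon x hx
    rw [hbot, Subgroup.card_bot] at hP
    omega
  have hy1ord : ¬ p ∣ orderOf (1 : G) := by
    rw [orderOf_one]
    intro h
    have := Nat.le_of_dvd one_pos h
    omega
  have h1C : (1 : G) ∈ Subgroup.centralizer ((P : Subgroup G) : Set G) := Subgroup.one_mem _
  -- the index of the centralizer of y
  have hidx : (Subgroup.centralizer ({y} : Set G)).index = q * (1 + n * p) := by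
    rw [br_centralizer_singleton P hP y hy hy1]
    have h1 := Subgroup.index_mul_card (Subgroup.centralizer ((P : Subgroup G) : Set G))
    rw [hCv, hcard] at h1
    have h2 : 0 < p * v := by positivity
    have h3 : (Subgroup.centralizer ((P : Subgroup G) : Set G)).index * (p * v)
        = q * (1 + n * p) * (p * v) := by rw [h1]; ring
    exact Nat.eq_of_mul_eq_mul_right h2 h3
  -- X1
  have hX1val : ∀ χ ∈ T.X1, (χ : G → ℂ) y = 1 := by
    intro χ hχ
    have h1 := (T.hX1 χ hχ).2 y hy hy1 1 h1C hy1ord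
    rwa [mul_one] at h1
  have hX2val : ∀ χ ∈ T.X2, (χ : G → ℂ) y = -1 := by
    intro χ hχ
    have h1 := (T.hX2 χ hχ).2 y hy hy1 1 h1C hy1ord
    rwa [mul_one] at h1
  have hX1deg : ∀ χ ∈ T.X1, Cfsg.charDegree (χ : G → ℂ) = 1 + n * p := by
    intro χ hχ
    have hne : χ ≠ Helper81.trivIrr G := by
      intro h
      rw [h] at hχ
      exact T.h1X1 hχ
    have h2 := br_perfect_deg hperf χ hne
    have h3 := br_deg_dvd χ y 1 (by rw [hX1val χ hχ]; simp)
    rw [hidx, mul_one] at h3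
    have h4 : Cfsg.charDegree (χ : G → ℂ) ∣ q * (1 + n * p) := by exact_mod_cast h3
    exact Helper19.br_num_X1 p q n v _ hpP hq2 hqd hn hv hlt h2 (T.hX1 χ hχ).1 h4
  have hX2dvd : ∀ χ ∈ T.X2, Cfsg.charDegree (χ : G → ℂ) ∣ q * (1 + n * p) := by
    intro χ hχ
    have h3 := br_deg_dvd χ y (-1) (by rw [hX2val χ hχ]; simp)
    rw [hidx, mul_neg, mul_one, dvd_neg] at h3
    exact_mod_cast h3
  have hX2deg : ∀ χ ∈ T.X2, Cfsg.charDegree (χ : G → ℂ) = p - 1 := by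
    intro χ hχ
    have hne : χ ≠ Helper81.trivIrr G := by
      intro h
      rw [h] at hχ
      exact T.h1X2 hχ
    have h2 := br_deg_sq_lt χ hne
    rw [hcard] at h2
    exact Helper19.br_num_X2 p q n v _ hpP hq2 hqd hn hv hlt (T.hX2 χ hχ).1 (hX2dvd χ hχ) h2
  -- Y
  have hYne : T.Y.Nonempty := by
    rw [← Finset.card_pos, T.hcardY]
    have h1 : 0 < p - 1 := by omega
    exact Nat.div_pos (Nat.le_of_dvd h1 hqd) (by omega)
  obtain ⟨θ₀, hθ₀⟩ := hYne
  obtain ⟨x₀, hx₀⟩ : ∃ x₀ : ℕ, x₀ = Cfsg.charDegree (θ₀ : G → ℂ) := ⟨_, rfl⟩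
  have hYdeg : ∀ θ ∈ T.Y, Cfsg.charDegree (θ : G → ℂ) = x₀ := by
    intro θ hθ
    have h1 := T.hYreg θ hθ θ₀ hθ₀ 1 hy1ord
    rw [hx₀]
    unfold Cfsg.charDegree
    rw [h1]
  have hθ₀ne : θ₀ ≠ Helper81.trivIrr G := by
    intro h
    rw [h] at hθ₀
    exact T.h1Y hθ₀
  have hx2 : 2 ≤ x₀ := by
    rw [hx₀]; exact br_perfect_deg hperf θ₀ hθ₀ne
  have hxdvd : x₀ ∣ q * (1 + n * p) := by
    have h1 := Helper75.br_theta_sum hM T ⟨θ₀, hθ₀⟩ y hy hy1
    have h2 := br_deg_dvd_sum T.Y x₀ hYdeg y (-T.ε) (by rw [h1]; push_cast; rfl)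
    rw [hidx, mul_neg, dvd_neg] at h2
    rcases T.hε with he | he
    · rw [he, mul_one] at h2
      exact_mod_cast h2
    · rw [he, mul_neg, mul_one, dvd_neg] at h2
      exact_mod_cast h2
  have hrel : T.ε * (x₀ : ℤ)
      = 1 + (T.X1.card : ℤ) * (1 + n * p) - (T.X2.card : ℤ) * ((p : ℤ) - 1) := by
    have h1 := T.hrel θ₀ hθ₀ 1 hy1ord
    have h2 : ∑ χ ∈ T.X1, (χ : G → ℂ) 1 = (T.X1.card : ℂ) * (1 + n * p) := by
      rw [Finset.sum_congr rfl (fun χ hχ => by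
        rw [Helper81.irr_one_eq_charDegree χ, hX1deg χ hχ]), Finset.sum_const, nsmul_eq_mul]
      push_cast
      rfl
    have h3 : ∑ χ ∈ T.X2, (χ : G → ℂ) 1 = (T.X2.card : ℂ) * ((p : ℂ) - 1) := by
      rw [Finset.sum_congr rfl (fun χ hχ => by
        rw [Helper81.irr_one_eq_charDegree χ, hX2deg χ hχ]), Finset.sum_const, nsmul_eq_mul]
      rw [Nat.cast_sub (by omega)]
      push_cast
      rfl
    rw [h2, h3, Helper81.irr_one_eq_charDegree θ₀, ← hx₀] at h1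
    exact_mod_cast h1
  -- X2 is nonempty
  have hX2ne : T.X2.Nonempty := by
    by_contra hemp
    rw [Finset.not_nonempty_iff_eq_empty] at hemp
    have hc := T.hcard
    rw [hemp, Finset.card_empty] at hc hrel
    have h1 : (T.X1.card : ℤ) = (q : ℤ) - 1 := by
      have : (T.X1.card : ℤ) + 1 = (q : ℤ) := by exact_mod_cast (by omega : T.X1.card + 1 = q)
      linarith
    rw [h1] at hrel
    simp only [Nat.cast_zero, zero_mul, sub_zero] at hrel
    exact Helper19.br_num_b q n p x₀ T.ε hq2 hn hp2 (by omega) T.hε hxdvd hrel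
  obtain ⟨φ, hφ⟩ := hX2ne
  have hCp : Nat.card (Subgroup.centralizer ((P : Subgroup G) : Set G)) = p :=
    br_centralizer_card_gen hOp P hP φ (hX2deg φ hφ) (T.hX2 φ hφ).2
  have hv1 : v = 1 := by
    rw [hCv] at hCp
    have h1 : p * v = p * 1 := by rw [hCp, mul_one]
    exact Nat.eq_of_mul_eq_mul_left (by omega) h1
  subst hv1
  refine ⟨hCp, ?_⟩
  have hb : 1 ≤ T.X2.card := Finset.card_pos.mpr ⟨φ, hφ⟩
  have hdvd1 : (p - 1) ∣ q * (1 + n * p) := by
    rw [← hX2deg φ hφ]; exact hX2dvd φ hφ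
  have hsq : x₀ ^ 2 < p * q * (1 + n * p) := by
    have h2 := br_deg_sq_lt θ₀ hθ₀ne
    rw [hcard, ← hx₀] at h2
    simpa using h2
  have hxmod : (x₀ : ℤ) ≡ T.ε * (q : ℤ) [ZMOD p] := by
    rw [hx₀]; exact T.hYdeg θ₀ hθ₀
  obtain ⟨t, ht2, hqt, hnt, hcases⟩ := Helper65.br_num_cases p q n T.X1.card T.X2.card x₀ T.ε hpP hodd
    hq2 hqd hn (by simpa using hlt) T.hcard hb hdvd1 hx2 T.hε hxmod hxdvd hsq hrel
  refine ⟨t, T.X1.card, ht2, hqt, hnt, rfl, hX1deg, hX2deg, ?_⟩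
  rcases hcases with ⟨he, hxq, hqa, ha⟩ | ⟨he, hxq, hqa⟩
  · left
    exact ⟨he, hqa, ha, fun θ hθ => by rw [hYdeg θ hθ, hxq]⟩
  · right
    exact ⟨he, hqa, fun θ hθ => by rw [hYdeg θ hθ, hxq]⟩

end Cfsg.Agent.Helper67
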