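import Mathlib
import Cfsg.Agent.Helper79.Linear
import Cfsg.Agent.Helper79.Abelian
import Cfsg.Agent.Helper76.CentralChar
import Cfsg.Agent.Helper76.PGroup

/-!
# Characters of p-groups with derived subgroup of prime order

Vanishing off the centre, the degree formula `χ(1)² |Z(G)| = |G|`, primitivity of the central
character for a cyclic centre, and the Galois conjugacy of the non-linear irreducible characters
of equal degree.
-/

set_option autoImplicit false

namespace Cfsg.Agent.Helper67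

open Cfsg
open scoped commutatorElement

universe u

section General

variable {G : Type u} [Group G]

/-- The central scalar function of an irreducible character. -/
theorem gca_scalar (χ : IrrCharacter G) :
    ∃ c : Subgroup.center G → ℂ, c 1 = 1 ∧ (∀ z w, c (z * w) = c z * c w) ∧
      (∀ z : Subgroup.center G, (χ : G → ℂ) z = c z * (χ : G → ℂ) 1) ∧
      ∀ (z : Subgroup.center G) (g : G), (χ : G → ℂ) (g * z) = c z * (χ : G → ℂ) g := by
  obtain ⟨c, hc⟩ := Helper76.exists_central_scalar (Subgroup.center G).subtype (fun w => w.2) χ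
  obtain ⟨hc1, hcm⟩ := Helper76.scalar_mul (Subgroup.center G).subtype (χ : G → ℂ)
    (Helper76.irr_one_ne_zero χ) c hc
  refine ⟨c, hc1, hcm, fun z => ?_, fun z g => hc z g⟩
  have h := hc z 1
  rwa [one_mul] at h

/-- If `y x y⁻¹ = x z` with `z` central and outside the kernel of `χ`, then `χ x = 0`. -/
theorem gca_vanish (χ : IrrCharacter G) (x y z : G) (hz : z ∈ Subgroup.center G)
    (hxy : y * x * y⁻¹ = x * z) (hne : (χ : G → ℂ) z ≠ (χ : G → ℂ) 1) :
    (χ : G → ℂ) x = 0 := by
  obtain ⟨c, -, -, hc0, hc⟩ := gca_scalar χ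
  have h1 := hc ⟨z, hz⟩ x
  have h2 := hc0 ⟨z, hz⟩
  simp only at h1 h2
  have h3 : (χ : G → ℂ) (x * z) = (χ : G → ℂ) x := by
    rw [← hxy]; exact Helper76.irr_conj χ x y
  by_contra hx
  apply hne
  have h4 : c ⟨z, hz⟩ = 1 := by
    have : (c ⟨z, hz⟩ - 1) * (χ : G → ℂ) x = 0 := by rw [sub_mul, ← h1, h3, one_mul, sub_self]
    rcases mul_eq_zero.mp this with h | h
    · exact sub_eq_zero.mp h
    · exact absurd h hx
  rw [h2, h4, one_mul]

/-- On the centre, an irreducible character has the absolute value of its degree. -/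
theorem gca_center_normSq [Finite G] (χ : IrrCharacter G) (z : G) (hz : z ∈ Subgroup.center G) :
    Complex.normSq ((χ : G → ℂ) z) = Complex.normSq ((χ : G → ℂ) 1) := by
  obtain ⟨c, hc1, hcm, hc0, -⟩ := gca_scalar χ
  have h2 := hc0 ⟨z, hz⟩
  simp only at h2
  have h3 := Helper76.scalar_norm c hc1 hcm ⟨z, hz⟩
  rw [h2, Complex.normSq_mul]
  have h4 : Complex.normSq (c ⟨z, hz⟩) = 1 := by
    have : ((Complex.normSq (c ⟨z, hz⟩) : ℝ) : ℂ) = 1 := by rw [← Complex.mul_conj]; exact h3
    exact_mod_cast this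
  rw [h4, one_mul]

/-- `|Z(G)| χ(1)² + (sum of |χ|² off the centre) = |G|`. -/
theorem gca_center_sum [Finite G] (χ : IrrCharacter G) :
    ∃ r : ℝ, 0 ≤ r ∧ ((∀ x : G, x ∉ Subgroup.center G → (χ : G → ℂ) x = 0) → r = 0) ∧
      ((Nat.card (Subgroup.center G) * charDegree (χ : G → ℂ) ^ 2 : ℕ) : ℝ) + r =
        (Nat.card G : ℝ) := by
  classical
  have : Fintype G := Fintype.ofFinite G
  have hsum := Helper79.irr_sum_normSq χ
  rw [← Finset.sum_filter_add_sum_filter_not Finset.univ
    (fun g : G => g ∈ Subgroup.center G)] at hsum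
  refine ⟨∑ g ∈ Finset.univ.filter (fun g : G => ¬ g ∈ Subgroup.center G),
    Complex.normSq ((χ : G → ℂ) g), Finset.sum_nonneg (fun g _ => Complex.normSq_nonneg _), ?_, ?_⟩
  · intro h
    apply Finset.sum_eq_zero
    intro g hg
    rw [h g (Finset.mem_filter.mp hg).2, map_zero]
  · rw [← Nat.card_eq_fintype_card] at hsum
    rw [← hsum]
    congr 1
    have h1 : ∀ g ∈ Finset.univ.filter (fun g : G => g ∈ Subgroup.center G),
        Complex.normSq ((χ : G → ℂ) g) = (charDegree (χ : G → ℂ) : ℝ) ^ 2 := by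
      intro g hg
      rw [gca_center_normSq χ g (Finset.mem_filter.mp hg).2,
        Helper79.isCharacter_one_eq_charDegree (Helper79.irr_isCharacter χ),
        Complex.normSq_natCast, sq]
    rw [Finset.sum_congr rfl h1, Finset.sum_const, nsmul_eq_mul]
    have h2 : (Finset.univ.filter (fun g : G => g ∈ Subgroup.center G)).card =
        Nat.card (Subgroup.center G) := by
      rw [Nat.card_eq_fintype_card, Fintype.card_subtype]
    rw [h2]
    push_cast
    ring

/-- `|Z(G)| χ(1)² ≤ |G|`. -/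
theorem gca_center_le [Finite G] (χ : IrrCharacter G) :
    Nat.card (Subgroup.center G) * charDegree (χ : G → ℂ) ^ 2 ≤ Nat.card G := by
  obtain ⟨r, hr, -, h⟩ := gca_center_sum χ
  have : ((Nat.card (Subgroup.center G) * charDegree (χ : G → ℂ) ^ 2 : ℕ) : ℝ) ≤
      (Nat.card G : ℝ) := by linarith
  exact_mod_cast this

/-- `|Z(G)| χ(1)² = |G|` when `χ` vanishes off the centre. -/
theorem gca_center_eq [Finite G] (χ : IrrCharacter G)
    (h0 : ∀ x : G, x ∉ Subgroup.center G → (χ : G → ℂ) x = 0) :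
    Nat.card (Subgroup.center G) * charDegree (χ : G → ℂ) ^ 2 = Nat.card G := by
  obtain ⟨r, -, hr0, h⟩ := gca_center_sum χ
  rw [hr0 h0, add_zero] at h
  exact_mod_cast h

end General

section PGroup

variable {G : Type u} [Group G] [Finite G] (p : ℕ) [Fact p.Prime]

theorem gca_derived_le_center (hG : IsPGroup p G) (hd : Nat.card (commutator G) = p) :
    commutator G ≤ Subgroup.center G :=
  Helper76.normal_card_prime_le_center hG (commutator G) hd

/-- A non-linear irreducible character is faithful on a derived subgroup of prime order. -/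
theorem gca_derived_faithful (hd : Nat.card (commutator G) = p) (χ : IrrCharacter G)
    (hχ : charDegree (χ : G → ℂ) ≠ 1) (z : G) (hz : z ∈ commutator G) (hz1 : z ≠ 1) :
    (χ : G → ℂ) z ≠ (χ : G → ℂ) 1 := by
  intro h
  apply hχ
  apply Helper79.irr_linear_of_commutator_le_ker χ
  have hχc := Helper79.irr_isCharacter χ
  have hK : Nat.card (Helper79.charKer hχc ⊓ commutator G : Subgroup G) ∣ p := by
    rw [← hd]; exact Subgroup.card_dvd_of_le inf_le_right
  have hp : p.Prime := Fact.out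
  rcases (Nat.dvd_prime hp).mp hK with h1 | h1
  · exfalso
    have h2 : (Helper79.charKer hχc ⊓ commutator G : Subgroup G) = ⊥ :=
      Subgroup.eq_bot_of_card_eq _ h1
    have hzK : z ∈ (Helper79.charKer hχc ⊓ commutator G : Subgroup G) := ⟨h, hz⟩
    rw [h2, Subgroup.mem_bot] at hzK
    exact hz1 hzK
  · have hKe : (Helper79.charKer hχc ⊓ commutator G : Subgroup G) = commutator G :=
      Subgroup.eq_of_le_of_card_ge inf_le_right (by rw [h1, hd])
    intro x hx
    have h3 : x ∈ (Helper79.charKer hχc ⊓ commutator G : Subgroup G) := by rw [hKe]; exact hx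
    exact h3.1

/-- A non-linear irreducible character vanishes off the centre when `|G'| = p`. -/
theorem gca_derived_vanish (hG : IsPGroup p G) (hd : Nat.card (commutator G) = p)
    (χ : IrrCharacter G) (hχ : charDegree (χ : G → ℂ) ≠ 1) (x : G)
    (hx : x ∉ Subgroup.center G) : (χ : G → ℂ) x = 0 := by
  rw [Subgroup.mem_center_iff] at hx
  push Not at hx
  obtain ⟨y, hy⟩ := hx
  have hzc : ⁅x⁻¹, y⁆ ∈ commutator G := by
    rw [commutator_def]
    exact Subgroup.commutator_mem_commutator (Subgroup.mem_top _) (Subgroup.mem_top _)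
  refine gca_vanish χ x y ⁅x⁻¹, y⁆ (gca_derived_le_center p hG hd hzc) ?_
    (gca_derived_faithful p hd χ hχ _ hzc ?_)
  · rw [commutatorElement_def]; group
  · intro h
    apply hy
    rw [commutatorElement_def] at h
    have h2 : y * x = x * (x⁻¹ * y * x⁻¹⁻¹ * y⁻¹) * y := by group
    rw [h2, h, mul_one]

/-- `|Z(G)| χ(1)² = |G|` for non-linear `χ` when `|G'| = p`. -/
theorem gca_derived_degree (hG : IsPGroup p G) (hd : Nat.card (commutator G) = p)
    (χ : IrrCharacter G) (hχ : charDegree (χ : G → ℂ) ≠ 1) :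
    Nat.card (Subgroup.center G) * charDegree (χ : G → ℂ) ^ 2 = Nat.card G :=
  gca_center_eq χ (gca_derived_vanish p hG hd χ hχ)

/-- The Galois conjugacy property of the statement: non-linear irreducible characters of equal
degree are conjugate under a power map. -/
def GcaProp (P : Type u) [Group P] : Prop :=
  ∀ χ ψ : Cfsg.IrrCharacter P, Cfsg.charDegree (χ : P → ℂ) ≠ 1 →
    Cfsg.charDegree (χ : P → ℂ) = Cfsg.charDegree (ψ : P → ℂ) →
    ∃ k : ℕ, Nat.Coprime k (Nat.card P) ∧ ∀ g : P, (ψ : P → ℂ) g = (χ : P → ℂ) (g ^ k)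

/-- For a cyclic centre generated by `z₀`, the central scalar of a non-linear irreducible
character at `z₀` is a primitive `|Z(G)|`-th root of unity. -/
theorem gca_primitive (hG : IsPGroup p G) (hd : Nat.card (commutator G) = p)
    (z₀ : Subgroup.center G) (hz₀ : ∀ x : Subgroup.center G, x ∈ Subgroup.zpowers z₀)
    (χ : IrrCharacter G) (hχ : charDegree (χ : G → ℂ) ≠ 1)
    (c : Subgroup.center G → ℂ) (hc1 : c 1 = 1) (hcm : ∀ z w, c (z * w) = c z * c w)
    (hc0 : ∀ z : Subgroup.center G, (χ : G → ℂ) z = c z * (χ : G → ℂ) 1) :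
    IsPrimitiveRoot (c z₀) (Nat.card (Subgroup.center G)) := by
  have hp : p.Prime := Fact.out
  have hord : orderOf z₀ = Nat.card (Subgroup.center G) :=
    orderOf_eq_card_of_forall_mem_zpowers hz₀
  have hZp : IsPGroup p (Subgroup.center G) := hG.to_subgroup _
  obtain ⟨m, hm⟩ := IsPGroup.iff_card.mp hZp
  have hle := gca_derived_le_center p hG hd
  have hm0 : m ≠ 0 := by
    rintro rfl
    have h1 : Nat.card (commutator G) ∣ Nat.card (Subgroup.center G) :=
      Subgroup.card_dvd_of_le hle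
    rw [hd, hm, pow_zero] at h1
    exact hp.one_lt.ne' (Nat.dvd_one.mp h1)
  obtain ⟨k, rfl⟩ := Nat.exists_eq_succ_of_ne_zero hm0
  have hne : commutator G ≠ ⊥ := by
    rw [← Subgroup.one_lt_card_iff_ne_bot, hd]; exact hp.one_lt
  obtain ⟨⟨t, ht⟩, ht1⟩ := (Subgroup.ne_bot_iff_exists_ne_one).mp hne
  have ht1' : t ≠ 1 := fun h => ht1 (Subtype.ext h)
  have htp : t ^ p = 1 := by
    have h1 : (⟨t, ht⟩ : commutator G) ^ p = 1 := by rw [← hd]; exact pow_card_eq_one'
    exact congrArg Subtype.val h1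
  have htz : (⟨t, hle ht⟩ : Subgroup.center G) ∈ Submonoid.powers z₀ :=
    mem_powers_iff_mem_zpowers.mpr (hz₀ _)
  obtain ⟨a, ha⟩ := (Submonoid.mem_powers_iff _ _).mp htz
  have hap : z₀ ^ (a * p) = 1 := by
    rw [pow_mul, ha]
    exact Subtype.ext htp
  have hdvd : p ^ k ∣ a := by
    have h1 := orderOf_dvd_of_pow_eq_one hap
    rw [hord, hm, pow_succ] at h1
    exact Nat.dvd_of_mul_dvd_mul_right hp.pos h1
  obtain ⟨a', rfl⟩ := hdvd
  have hct : c ⟨t, hle ht⟩ ≠ 1 := by
    intro h
    have h2 := hc0 ⟨t, hle ht⟩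
    rw [h, one_mul] at h2
    exact gca_derived_faithful p hd χ hχ t ht ht1' h2
  have hnot : ¬ (c z₀) ^ p ^ k = 1 := by
    intro h
    apply hct
    rw [← ha, Helper76.scalar_pow c hc1 hcm, pow_mul, h, one_pow]
  have hfin : (c z₀) ^ p ^ (k + 1) = 1 := by
    rw [← Helper76.scalar_pow c hc1 hcm, ← hm, pow_card_eq_one', hc1]
  have h3 : orderOf (c z₀) = p ^ (k + 1) := orderOf_eq_prime_pow hnot hfin
  rw [hm, ← h3]
  exact IsPrimitiveRoot.orderOf (c z₀)

/-- If the centre is cyclic and `|G'| = p`, then non-linear irreducible characters of equal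
degree are Galois conjugate. -/
theorem gca_conj_of_cyclic (hG : IsPGroup p G) (hd : Nat.card (commutator G) = p)
    (hcyc : IsCyclic (Subgroup.center G)) : GcaProp G := by
  intro χ ψ hχ hdeg
  have hψ : charDegree (ψ : G → ℂ) ≠ 1 := hdeg ▸ hχ
  obtain ⟨z₀, hz₀⟩ := hcyc.exists_generator
  obtain ⟨c, hc1, hcm, hc0, -⟩ := gca_scalar χ
  obtain ⟨e, he1, hem, he0, -⟩ := gca_scalar ψ
  have hpc := gca_primitive p hG hd z₀ hz₀ χ hχ c hc1 hcm hc0
  have hpe := gca_primitive p hG hd z₀ hz₀ ψ hψ e he1 hem he0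
  have hZpos : 0 < Nat.card (Subgroup.center G) := Nat.card_pos
  have : NeZero (Nat.card (Subgroup.center G)) := ⟨hZpos.ne'⟩
  obtain ⟨i, -, hi⟩ := hpc.eq_pow_of_pow_eq_one hpe.pow_eq_one
  have hcop : i.Coprime (Nat.card (Subgroup.center G)) := by
    rw [← hpc.pow_iff_coprime hZpos i, hi]; exact hpe
  have hp : p.Prime := Fact.out
  have hpZ : p ∣ Nat.card (Subgroup.center G) := by
    rw [← hd]; exact Subgroup.card_dvd_of_le (gca_derived_le_center p hG hd)
  have hip : i.Coprime p := Nat.Coprime.coprime_dvd_right hpZ hcop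
  obtain ⟨n, hn⟩ := IsPGroup.iff_card.mp hG
  have hiG : i.Coprime (Nat.card G) := by rw [hn]; exact Nat.Coprime.pow_right n hip
  refine ⟨i, hiG, fun g => ?_⟩
  have h1 : (ψ : G → ℂ) 1 = (χ : G → ℂ) 1 := by
    rw [Helper79.isCharacter_one_eq_charDegree (Helper79.irr_isCharacter ψ),
      Helper79.isCharacter_one_eq_charDegree (Helper79.irr_isCharacter χ), hdeg]
  by_cases hg : g ∈ Subgroup.center G
  · have hgz : (⟨g, hg⟩ : Subgroup.center G) ∈ Submonoid.powers z₀ :=
      mem_powers_iff_mem_zpowers.mpr (hz₀ _)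
    obtain ⟨j, hj⟩ := (Submonoid.mem_powers_iff _ _).mp hgz
    have h5 := hc0 (⟨g, hg⟩ ^ i)
    rw [Subgroup.coe_pow] at h5
    calc (ψ : G → ℂ) g = e ⟨g, hg⟩ * (ψ : G → ℂ) 1 := he0 ⟨g, hg⟩
      _ = e (z₀ ^ j) * (χ : G → ℂ) 1 := by rw [hj, h1]
      _ = (c z₀ ^ i) ^ j * (χ : G → ℂ) 1 := by rw [Helper76.scalar_pow e he1 hem, hi]
      _ = c ((z₀ ^ j) ^ i) * (χ : G → ℂ) 1 := by
          rw [← pow_mul z₀, Helper76.scalar_pow c hc1 hcm, ← pow_mul, mul_comm i j]
      _ = c (⟨g, hg⟩ ^ i) * (χ : G → ℂ) 1 := by rw [hj]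
      _ = (χ : G → ℂ) (g ^ i) := h5.symm
  · rw [gca_derived_vanish p hG hd ψ hψ g hg]
    symm
    apply gca_derived_vanish p hG hd χ hχ
    intro hgi
    apply hg
    have hco : i.Coprime (orderOf g) :=
      Nat.Coprime.coprime_dvd_right (orderOf_dvd_natCard g) hiG
    obtain ⟨l, hl⟩ := exists_pow_eq_self_of_coprime hco
    rw [← hl]
    exact Subgroup.pow_mem _ hgi l

/-- Under the Galois conjugacy property, characters of equal non-linear degree have the same
kernel. -/
theorem gca_ker_imp (H : GcaProp G) (χ ψ : IrrCharacter G)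
    (hχ : charDegree (χ : G → ℂ) ≠ 1)
    (hdeg : charDegree (χ : G → ℂ) = charDegree (ψ : G → ℂ)) (g : G)
    (hg : (ψ : G → ℂ) g = (ψ : G → ℂ) 1) : (χ : G → ℂ) g = (χ : G → ℂ) 1 := by
  obtain ⟨k, -, hk⟩ := H ψ χ (hdeg ▸ hχ) hdeg.symm
  have hψc := Helper79.irr_isCharacter ψ
  have h1 : g ^ k ∈ Helper79.charKer hψc := Subgroup.pow_mem _ hg k
  rw [hk g, hk 1, one_pow]
  exact h1

/-- The Galois conjugacy property passes to quotients. -/
theorem gca_quot (H : GcaProp G) (Y : Subgroup G) [Y.Normal] : GcaProp (G ⧸ Y) := by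
  intro χ ψ hχ hdeg
  obtain ⟨k, hk, hk2⟩ := H (Helper79.irrQuotientEquiv Y χ).1 (Helper79.irrQuotientEquiv Y ψ).1
    hχ hdeg
  refine ⟨k, Nat.Coprime.coprime_dvd_right (Subgroup.card_quotient_dvd_card Y) hk, fun q => ?_⟩
  induction q using QuotientGroup.induction_on with
  | H g => exact hk2 g

/-- Under the Galois conjugacy property, `|G'| = p` forces a cyclic centre. -/
theorem gca_center_cyclic (hd : Nat.card (commutator G) = p)
    (H : GcaProp G) : IsCyclic (Subgroup.center G) := by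
  have hp : p.Prime := Fact.out
  have hne : commutator G ≠ ⊥ := by
    rw [← Subgroup.one_lt_card_iff_ne_bot, hd]; exact hp.one_lt
  obtain ⟨χ, hχ⟩ := Helper79.exists_nonlinear_of_commutator_ne_bot hne
  obtain ⟨c, hc1, hcm, hc0, -⟩ := gca_scalar χ
  let φ : Subgroup.center G →* ℂ :=
    { toFun := c
      map_one' := hc1
      map_mul' := hcm }
  have hinj : Function.Injective φ := by
    rw [injective_iff_map_eq_one]
    intro z hz
    have hz' : c z = 1 := hz
    have hχz : (χ : G → ℂ) z = (χ : G → ℂ) 1 := by rw [hc0 z, hz', one_mul]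
    have hzc : (z : G) ∈ commutator G := by
      by_contra hzn
      obtain ⟨f, hf⟩ := Helper79.exists_hom_apply_ne_one hzn
      apply hf
      have h1 := gca_ker_imp H (Helper79.irrTwist f χ) χ
        (by rw [Helper79.charDegree_irrTwist]; exact hχ)
        (Helper79.charDegree_irrTwist f χ) z hχz
      rw [Helper79.irrTwist_apply, Helper79.irrTwist_apply, hχz, map_one, Units.val_one,
        one_mul] at h1
      have h2 : ((f z : ℂˣ) : ℂ) = 1 := by
        have h3 : (((f z : ℂˣ) : ℂ) - 1) * (χ : G → ℂ) 1 = 0 := by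
          rw [sub_mul, h1, one_mul, sub_self]
        rcases mul_eq_zero.mp h3 with h4 | h4
        · exact sub_eq_zero.mp h4
        · exact absurd h4 (Helper76.irr_one_ne_zero χ)
      exact Units.ext h2
    by_contra hz1
    exact gca_derived_faithful p hd χ hχ z hzc (fun h => hz1 (Subtype.ext h)) hχz
  exact isCyclic_of_injective_ringHom φ hinj

end PGroup

end Cfsg.Agent.Helper67
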