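import Mathlib
import Cfsg.Agent.Helper67.GalConjA

/-!
# p-groups whose non-linear irreducible characters of equal degree are Galois conjugate

Under the Galois conjugacy property the derived subgroup has order `p` (and then the centre is
cyclic).  The proof is by induction on the order, passing to quotients by central subgroups of
order `p`.
-/

set_option autoImplicit false

namespace Cfsg.Agent.Helper67

open Cfsg
open scoped commutatorElement

universe u

section Tools

variable {P : Type u} [Group P]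

/-- `⁅a ^ n, b⁆ = ⁅a, b⁆ ^ n` when `a` commutes with `⁅a, b⁆`. -/
theorem gcb_comm_pow (a b : P) (h : Commute a ⁅a, b⁆) (n : ℕ) : ⁅a ^ n, b⁆ = ⁅a, b⁆ ^ n := by
  induction n with
  | zero => simp
  | succ n ih =>
    have h1 : ⁅a ^ (n + 1), b⁆ = a ^ n * ⁅a, b⁆ * (a ^ n)⁻¹ * ⁅a ^ n, b⁆ := by
      rw [pow_succ]; simp only [commutatorElement_def]; group
    have h2 : a ^ n * ⁅a, b⁆ = ⁅a, b⁆ * a ^ n := (h.pow_left n).eq
    rw [h1, h2, mul_inv_cancel_right, ih, pow_succ']

/-- Order of the preimage of a subgroup of a quotient. -/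
theorem gcb_card_comap [Finite P] (Y : Subgroup P) [Y.Normal] (K : Subgroup (P ⧸ Y)) :
    Nat.card (K.comap (QuotientGroup.mk' Y)) = Nat.card K * Nat.card Y := by
  have h1 := Subgroup.index_comap_of_surjective K (QuotientGroup.mk'_surjective Y)
  have h2 := Subgroup.card_mul_index (K.comap (QuotientGroup.mk' Y))
  have h3 := Subgroup.card_mul_index K
  have h4 := Subgroup.card_eq_card_quotient_mul_card_subgroup Y
  have h5 : 0 < K.index := Nat.pos_of_ne_zero Subgroup.index_ne_zero_of_finite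
  rw [h1] at h2
  have h6 : Nat.card (K.comap (QuotientGroup.mk' Y)) * K.index =
      Nat.card K * Nat.card Y * K.index := by
    rw [h2, h4, ← h3]; ring
  exact Nat.eq_of_mul_eq_mul_right h5 h6

/-- The preimage of the centre of `P ⧸ Y`. -/
theorem gcb_mem_W (Y : Subgroup P) [Y.Normal] (x : P) :
    x ∈ (Subgroup.center (P ⧸ Y)).comap (QuotientGroup.mk' Y) ↔ ∀ u : P, ⁅x, u⁆ ∈ Y := by
  rw [Subgroup.mem_comap, Subgroup.mem_center_iff]
  constructor
  · intro h u
    rw [← QuotientGroup.eq_one_iff, ← QuotientGroup.mk'_apply, map_commutatorElement,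
      commutatorElement_eq_one_iff_mul_comm]
    exact (h _).symm
  · intro h q
    induction q using QuotientGroup.induction_on with
    | H u =>
      have h1 := h u
      rw [← QuotientGroup.eq_one_iff, ← QuotientGroup.mk'_apply, map_commutatorElement,
        commutatorElement_eq_one_iff_mul_comm] at h1
      exact h1.symm

/-- A generator of the centre of `P ⧸ Y`, lifted to `P`. -/
theorem gcb_gen [Finite P] (Y : Subgroup P) [Y.Normal]
    (hQc : IsCyclic (Subgroup.center (P ⧸ Y))) :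
    ∃ w₀ : P, (∀ u, ⁅w₀, u⁆ ∈ Y) ∧
      ∀ x : P, (∀ u, ⁅x, u⁆ ∈ Y) → ∃ j : ℕ, ∃ y ∈ Y, x = w₀ ^ j * y := by
  obtain ⟨g, hg⟩ := hQc.exists_generator
  obtain ⟨w₀, hw₀⟩ := QuotientGroup.mk_surjective (g : P ⧸ Y)
  refine ⟨w₀, ?_, ?_⟩
  · rw [← gcb_mem_W, Subgroup.mem_comap, QuotientGroup.mk'_apply, hw₀]
    exact g.2
  · intro x hx
    rw [← gcb_mem_W, Subgroup.mem_comap] at hx
    have h1 : (⟨QuotientGroup.mk' Y x, hx⟩ : Subgroup.center (P ⧸ Y)) ∈ Submonoid.powers g :=
      mem_powers_iff_mem_zpowers.mpr (hg _)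
    obtain ⟨j, hj⟩ := (Submonoid.mem_powers_iff _ _).mp h1
    have h2 : ((w₀ ^ j : P) : P ⧸ Y) = (x : P ⧸ Y) := by
      have h3 := congrArg Subtype.val hj
      rw [Subgroup.coe_pow, ← hw₀] at h3
      exact h3
    refine ⟨j, (w₀ ^ j)⁻¹ * x, QuotientGroup.eq.mp h2, ?_⟩
    group

/-- The `p`-th power of the lifted generator is central. -/
theorem gcb_w0_pow [Finite P] (p : ℕ) (Y : Subgroup P) (hY : Y ≤ Subgroup.center P)
    (hYp : Nat.card Y = p) (w₀ : P) (hw₀ : ∀ u, ⁅w₀, u⁆ ∈ Y) : w₀ ^ p ∈ Subgroup.center P := by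
  rw [Subgroup.mem_center_iff]
  intro u
  have h1 : ⁅w₀ ^ p, u⁆ = 1 := by
    rw [gcb_comm_pow w₀ u ((Subgroup.mem_center_iff.mp (hY (hw₀ u)) w₀))]
    have h2 : (⟨⁅w₀, u⁆, hw₀ u⟩ : Y) ^ p = 1 := by rw [← hYp]; exact pow_card_eq_one'
    exact congrArg Subtype.val h2
  exact (commutatorElement_eq_one_iff_mul_comm.mp h1).symm

/-- The preimage of the centre of `P ⧸ Y` has index at most `p` over the centre of `P`. -/
theorem gcb_W_card_le [Finite P] (p : ℕ) [Fact p.Prime] (Y : Subgroup P) [Y.Normal]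
    (hY : Y ≤ Subgroup.center P) (hYp : Nat.card Y = p)
    (hQc : IsCyclic (Subgroup.center (P ⧸ Y))) :
    Nat.card ((Subgroup.center (P ⧸ Y)).comap (QuotientGroup.mk' Y)) ≤
      p * Nat.card (Subgroup.center P) := by
  have hp : p.Prime := Fact.out
  obtain ⟨w₀, hw₀, hgen⟩ := gcb_gen Y hQc
  have hwp := gcb_w0_pow p Y hY hYp w₀ hw₀
  have hdec : ∀ x : (Subgroup.center (P ⧸ Y)).comap (QuotientGroup.mk' Y),
      ∃ rz : Fin p × Subgroup.center P, (x : P) = w₀ ^ (rz.1 : ℕ) * (rz.2 : P) := by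
    intro x
    obtain ⟨j, y, hy, hxy⟩ := hgen x ((gcb_mem_W Y x).mp x.2)
    refine ⟨(⟨j % p, Nat.mod_lt _ hp.pos⟩, ⟨(w₀ ^ p) ^ (j / p) * y,
      Subgroup.mul_mem _ (Subgroup.pow_mem _ hwp _) (hY hy)⟩), ?_⟩
    show (x : P) = w₀ ^ (j % p) * ((w₀ ^ p) ^ (j / p) * y)
    rw [← mul_assoc, ← pow_mul, ← pow_add, Nat.mod_add_div]
    exact hxy
  choose f hf using hdec
  have hinj : Function.Injective f := by
    intro x x' h
    apply Subtype.ext
    rw [hf x, hf x', h]
  have h1 := Nat.card_le_card_of_injective f hinj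
  rw [Nat.card_prod, Nat.card_fin] at h1
  exact h1

end Tools

section Induction

variable (p : ℕ) [Fact p.Prime] {P : Type u} [Group P] [Finite P]

/-- The quotient by a central subgroup of order `p`, under the induction hypothesis. -/
theorem gcb_pkg (hP : IsPGroup p P) (H : GcaProp P)
    (IH : ∀ (Q : Type u) [Group Q] [Finite Q], Nat.card Q < Nat.card P → IsPGroup p Q →
      commutator Q ≠ ⊥ → GcaProp Q → Nat.card (commutator Q) = p)
    (hnp : Nat.card (commutator P) ≠ p) (hne : commutator P ≠ ⊥)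
    (Y : Subgroup P) [Y.Normal] (hYp : Nat.card Y = p) :
    Nat.card (commutator (P ⧸ Y)) = p ∧ IsCyclic (Subgroup.center (P ⧸ Y)) ∧
      Y ≤ commutator P ∧ Nat.card (commutator P) = p ^ 2 := by
  have hp : p.Prime := Fact.out
  have hcardQ : Nat.card (P ⧸ Y) < Nat.card P := by
    rw [Subgroup.card_eq_card_quotient_mul_card_subgroup Y, hYp]
    exact lt_mul_of_one_lt_right Nat.card_pos hp.one_lt
  have hQne : commutator (P ⧸ Y) ≠ ⊥ := by
    intro h
    have hcomm : ∀ a b : P ⧸ Y, a * b = b * a := by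
      intro a b
      have h1 : ⁅a, b⁆ ∈ commutator (P ⧸ Y) := by
        rw [commutator_def]
        exact Subgroup.commutator_mem_commutator (Subgroup.mem_top _) (Subgroup.mem_top _)
      rw [h, Subgroup.mem_bot] at h1
      exact commutatorElement_eq_one_iff_mul_comm.mp h1
    have h2 := Helper76.commutator_le_of_quotient_comm Y hcomm
    have h3 : Nat.card (commutator P) ∣ p := by
      rw [← hYp]; exact Subgroup.card_dvd_of_le h2
    rcases (Nat.dvd_prime hp).mp h3 with h4 | h4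
    · exact hne (Subgroup.eq_bot_of_card_eq _ h4)
    · exact hnp h4
  have hQd : Nat.card (commutator (P ⧸ Y)) = p :=
    IH (P ⧸ Y) hcardQ (hP.to_quotient Y) hQne (gca_quot H Y)
  have hQc : IsCyclic (Subgroup.center (P ⧸ Y)) :=
    gca_center_cyclic p hQd (gca_quot H Y)
  have hC := gcb_card_comap Y (commutator (P ⧸ Y))
  rw [hQd, hYp] at hC
  have hle : commutator P ≤ (commutator (P ⧸ Y)).comap (QuotientGroup.mk' Y) := by
    rw [commutator_def, Subgroup.commutator_le]
    intro a _ b _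
    rw [Subgroup.mem_comap, map_commutatorElement, commutator_def]
    exact Subgroup.commutator_mem_commutator (Subgroup.mem_top _) (Subgroup.mem_top _)
  have hdvd : Nat.card (commutator P) ∣ p ^ 2 := by
    rw [sq, ← hC]; exact Subgroup.card_dvd_of_le hle
  obtain ⟨m, hm, hm2⟩ := (Nat.dvd_prime_pow hp).mp hdvd
  have hm' : m = 2 := by
    rcases Nat.lt_or_ge m 2 with h | h
    · exfalso
      interval_cases m
      · rw [pow_zero] at hm2
        exact hne (Subgroup.eq_bot_of_card_eq _ hm2)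
      · rw [pow_one] at hm2
        exact hnp hm2
    · omega
  subst hm'
  refine ⟨hQd, hQc, ?_, hm2⟩
  have heq : commutator P = (commutator (P ⧸ Y)).comap (QuotientGroup.mk' Y) :=
    Subgroup.eq_of_le_of_card_ge hle (by rw [hC, hm2, sq])
  rw [heq]
  intro y hy
  rw [Subgroup.mem_comap, QuotientGroup.mk'_apply, (QuotientGroup.eq_one_iff y).mpr hy]
  exact Subgroup.one_mem _

/-- Degrees of the non-linear irreducible characters of the quotient by a central subgroup of
order `p` with `|(P/Y)'| = p` and cyclic centre. -/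
theorem gcb_deg (hP : IsPGroup p P) (Y : Subgroup P) [Y.Normal]
    (hY : Y ≤ Subgroup.center P) (hYp : Nat.card Y = p)
    (hQd : Nat.card (commutator (P ⧸ Y)) = p) (hQc : IsCyclic (Subgroup.center (P ⧸ Y)))
    (χ : IrrCharacter (P ⧸ Y)) (hχ : charDegree (χ : P ⧸ Y → ℂ) ≠ 1) (n c : ℕ)
    (hn : Nat.card P = p ^ n) (hc : Nat.card (Subgroup.center P) = p ^ c) :
    ∃ a : ℕ, charDegree (χ : P ⧸ Y → ℂ) = p ^ a ∧ (n = 2 * a + c ∨ n = 2 * a + c + 1) := by
  have hp : p.Prime := Fact.out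
  have h1 := gca_derived_degree p (hP.to_quotient Y) hQd χ hχ
  have h2 := gcb_card_comap Y (Subgroup.center (P ⧸ Y))
  have h3 := Subgroup.card_eq_card_quotient_mul_card_subgroup Y
  have h4 : Nat.card ((Subgroup.center (P ⧸ Y)).comap (QuotientGroup.mk' Y)) *
      charDegree (χ : P ⧸ Y → ℂ) ^ 2 = p ^ n := by
    rw [← hn, h3, ← h1, h2]; ring
  have h5 : charDegree (χ : P ⧸ Y → ℂ) ∣ p ^ n := by
    rw [← hn]
    exact (Helper79.irr_charDegree_dvd_card χ).trans (Subgroup.card_quotient_dvd_card Y)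
  obtain ⟨a, -, ha⟩ := (Nat.dvd_prime_pow hp).mp h5
  obtain ⟨w, -, hw⟩ := Helper76.card_subgroup_eq_pow hp hn
    ((Subgroup.center (P ⧸ Y)).comap (QuotientGroup.mk' Y))
  refine ⟨a, ha, ?_⟩
  rw [hw, ha, ← pow_mul, ← pow_add] at h4
  have h6 : w + a * 2 = n := Nat.pow_right_injective hp.two_le h4
  have h7 : c ≤ w := by
    have h8 : Subgroup.center P ≤ (Subgroup.center (P ⧸ Y)).comap (QuotientGroup.mk' Y) := by
      intro z hz
      rw [gcb_mem_W]
      intro u
      have h9 : ⁅z, u⁆ = 1 :=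
        commutatorElement_eq_one_iff_mul_comm.mpr (Subgroup.mem_center_iff.mp hz u).symm
      rw [h9]
      exact Subgroup.one_mem _
    have h10 := Subgroup.card_dvd_of_le h8
    rw [hc, hw] at h10
    exact (Nat.pow_dvd_pow_iff_le_right hp.one_lt).mp h10
  have h11 : w ≤ c + 1 := by
    have h12 := gcb_W_card_le p Y hY hYp hQc
    rw [hw, hc, ← pow_succ'] at h12
    exact (Nat.pow_le_pow_iff_right hp.one_lt).mp h12
  omega

omit [Fact p.Prime] in
/-- A character of `P` of the same degree as a non-linear character of `P ⧸ Y` has `Y` in its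
kernel. -/
theorem gcb_ker_of_quot (H : GcaProp P) (Y : Subgroup P) [Y.Normal]
    (χ : IrrCharacter (P ⧸ Y)) (ψ : IrrCharacter P) (hχ : charDegree (χ : P ⧸ Y → ℂ) ≠ 1)
    (hdeg : charDegree (χ : P ⧸ Y → ℂ) = charDegree (ψ : P → ℂ)) (y : P) (hy : y ∈ Y) :
    (ψ : P → ℂ) y = (ψ : P → ℂ) 1 := by
  have hdeg' : charDegree (ψ : P → ℂ) =
      charDegree (((Helper79.irrQuotientEquiv Y χ).1 : IrrCharacter P) : P → ℂ) := hdeg.symm
  refine gca_ker_imp H ψ (Helper79.irrQuotientEquiv Y χ).1 (hdeg ▸ hχ) hdeg' y ?_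
  show (χ : P ⧸ Y → ℂ) (y : P ⧸ Y) = (χ : P ⧸ Y → ℂ) ((1 : P) : P ⧸ Y)
  rw [(QuotientGroup.eq_one_iff y).mpr hy]
  rfl

/-- Two subgroups of order `p` of a derived subgroup of order `p²` whose quotients have
non-linear characters of the same degree coincide. -/
theorem gcb_same_deg (H : GcaProp P) (hd2 : Nat.card (commutator P) = p ^ 2)
    (Y₁ Y₂ : Subgroup P) [Y₁.Normal] [Y₂.Normal] (h1 : Y₁ ≤ commutator P)
    (h2 : Y₂ ≤ commutator P) (hc1 : Nat.card Y₁ = p) (hc2 : Nat.card Y₂ = p)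
    (χ₁ : IrrCharacter (P ⧸ Y₁)) (χ₂ : IrrCharacter (P ⧸ Y₂))
    (hχ₁ : charDegree (χ₁ : P ⧸ Y₁ → ℂ) ≠ 1)
    (hdeg : charDegree (χ₁ : P ⧸ Y₁ → ℂ) = charDegree (χ₂ : P ⧸ Y₂ → ℂ)) : Y₁ = Y₂ := by
  have hp : p.Prime := Fact.out
  have hψc := Helper79.irr_isCharacter ((Helper79.irrQuotientEquiv Y₁ χ₁).1 : IrrCharacter P)
  have hψd : charDegree (((Helper79.irrQuotientEquiv Y₁ χ₁).1 : IrrCharacter P) : P → ℂ) =
      charDegree (χ₁ : P ⧸ Y₁ → ℂ) := rfl
  have hk1 : Y₁ ≤ Helper79.charKer hψc ⊓ commutator P := by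
    intro y hy
    refine ⟨?_, h1 hy⟩
    show (χ₁ : P ⧸ Y₁ → ℂ) (y : P ⧸ Y₁) = (χ₁ : P ⧸ Y₁ → ℂ) ((1 : P) : P ⧸ Y₁)
    rw [(QuotientGroup.eq_one_iff y).mpr hy]
    rfl
  have hk2 : Y₂ ≤ Helper79.charKer hψc ⊓ commutator P := by
    intro y hy
    refine ⟨?_, h2 hy⟩
    exact gcb_ker_of_quot H Y₂ χ₂ (Helper79.irrQuotientEquiv Y₁ χ₁).1 (hdeg ▸ hχ₁)
      (hdeg.symm.trans hψd.symm) y hy
  have hKd : Nat.card (Helper79.charKer hψc ⊓ commutator P : Subgroup P) ∣ p ^ 2 := by
    rw [← hd2]; exact Subgroup.card_dvd_of_le inf_le_right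
  obtain ⟨m, hm, hm2⟩ := (Nat.dvd_prime_pow hp).mp hKd
  have hKp : Nat.card (Helper79.charKer hψc ⊓ commutator P : Subgroup P) = p := by
    have hm1 : m ≠ 0 := by
      rintro rfl
      have h3 := Subgroup.card_dvd_of_le hk1
      rw [hc1, hm2, pow_zero] at h3
      exact hp.one_lt.ne' (Nat.dvd_one.mp h3)
    have hm3 : m ≠ 2 := by
      rintro rfl
      have hKe : (Helper79.charKer hψc ⊓ commutator P : Subgroup P) = commutator P :=
        Subgroup.eq_of_le_of_card_ge inf_le_right (by rw [hm2, hd2])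
      apply hχ₁
      rw [← hψd]
      apply Helper79.irr_linear_of_commutator_le_ker
      intro x hx
      have h3 : x ∈ (Helper79.charKer hψc ⊓ commutator P : Subgroup P) := by rw [hKe]; exact hx
      exact h3.1
    have hm4 : m = 1 := by omega
    rw [hm2, hm4, pow_one]
  have e1 : Y₁ = (Helper79.charKer hψc ⊓ commutator P : Subgroup P) :=
    Subgroup.eq_of_le_of_card_ge hk1 (by rw [hKp, hc1])
  have e2 : Y₂ = (Helper79.charKer hψc ⊓ commutator P : Subgroup P) :=
    Subgroup.eq_of_le_of_card_ge hk2 (by rw [hKp, hc2])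
  rw [e1, ← e2]

/-- The case of a unique central subgroup of order `p` is impossible. -/
theorem gcb_case_a (hP : IsPGroup p P) (H : GcaProp P) (Y : Subgroup P) [Y.Normal]
    (hY : Y ≤ Subgroup.center P) (hYp : Nat.card Y = p)
    (hQd : Nat.card (commutator (P ⧸ Y)) = p) (hQc : IsCyclic (Subgroup.center (P ⧸ Y)))
    (hYd : Y ≤ commutator P)
    (huniq : ∀ z ∈ Subgroup.center P, z ^ p = 1 → z ∈ Y) : False := by
  have hp : p.Prime := Fact.out
  have hQP : IsPGroup p (P ⧸ Y) := hP.to_quotient Y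
  have hQle := gca_derived_le_center p hQP hQd
  obtain ⟨w₀, hw₀, hgen⟩ := gcb_gen Y hQc
  -- the centralizer of `w₀` centralizes the preimage of the centre of the quotient
  have hWc : ∀ x : P, (∀ u, ⁅x, u⁆ ∈ Y) → ∀ t ∈ Subgroup.centralizer ({w₀} : Set P),
      t * x = x * t := by
    intro x hx t ht
    obtain ⟨j, y, hy, rfl⟩ := hgen x hx
    have h1 : t * w₀ = w₀ * t := (Subgroup.mem_centralizer_iff.mp ht w₀ rfl).symm
    have h2 : t * w₀ ^ j = w₀ ^ j * t := (Commute.pow_right (show Commute t w₀ from h1) j).eq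
    have h3 : t * y = y * t := Subgroup.mem_center_iff.mp (hY hy) t
    rw [← mul_assoc, h2, mul_assoc, h3, mul_assoc]
  -- commutators lie in that preimage
  have hcomW : ∀ a b u : P, ⁅⁅a, b⁆, u⁆ ∈ Y := by
    intro a b
    rw [← gcb_mem_W, Subgroup.mem_comap, map_commutatorElement]
    apply hQle
    rw [commutator_def]
    exact Subgroup.commutator_mem_commutator (Subgroup.mem_top _) (Subgroup.mem_top _)
  -- commutators of the centralizer are central
  have hTT : ∀ a ∈ Subgroup.centralizer ({w₀} : Set P),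
      ∀ b ∈ Subgroup.centralizer ({w₀} : Set P), ⁅a, b⁆ ∈ Subgroup.center P := by
    have h1 : ⁅⁅Subgroup.centralizer ({w₀} : Set P), (⊤ : Subgroup P)⁆,
        Subgroup.centralizer ({w₀} : Set P)⁆ = ⊥ := by
      rw [Subgroup.commutator_eq_bot_iff_le_centralizer, Subgroup.commutator_le]
      intro g₁ _ g₂ _
      rw [Subgroup.mem_centralizer_iff]
      intro t ht
      exact hWc _ (hcomW g₁ g₂) t ht
    have h2 : ⁅⁅(⊤ : Subgroup P), Subgroup.centralizer ({w₀} : Set P)⁆,
        Subgroup.centralizer ({w₀} : Set P)⁆ = ⊥ := by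
      rw [Subgroup.commutator_eq_bot_iff_le_centralizer, Subgroup.commutator_le]
      intro g₁ _ g₂ _
      rw [Subgroup.mem_centralizer_iff]
      intro t ht
      exact hWc _ (hcomW g₁ g₂) t ht
    have h3 := Subgroup.commutator_commutator_eq_bot_of_rotate h1 h2
    rw [Subgroup.commutator_eq_bot_iff_le_centralizer] at h3
    intro a ha b hb
    have h4 := h3 (Subgroup.commutator_mem_commutator ha hb)
    rw [Subgroup.mem_centralizer_iff] at h4
    rw [Subgroup.mem_center_iff]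
    intro g
    exact h4 g (Subgroup.mem_top g)
  -- `p`-th powers lie in the preimage of the centre of the quotient
  have hpow : ∀ a u : P, ⁅a ^ p, u⁆ ∈ Y := by
    intro a u
    rw [← QuotientGroup.eq_one_iff, ← QuotientGroup.mk'_apply, map_commutatorElement, map_pow]
    have h1 : ⁅QuotientGroup.mk' Y a, QuotientGroup.mk' Y u⁆ ∈ commutator (P ⧸ Y) := by
      rw [commutator_def]
      exact Subgroup.commutator_mem_commutator (Subgroup.mem_top _) (Subgroup.mem_top _)
    rw [gcb_comm_pow _ _ (Subgroup.mem_center_iff.mp (hQle h1) _)]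
    have h2 : (⟨_, h1⟩ : commutator (P ⧸ Y)) ^ p = 1 := by rw [← hQd]; exact pow_card_eq_one'
    exact congrArg Subtype.val h2
  -- commutators of the centralizer lie in `Y`
  have hTY : ∀ a ∈ Subgroup.centralizer ({w₀} : Set P),
      ∀ b ∈ Subgroup.centralizer ({w₀} : Set P), ⁅a, b⁆ ∈ Y := by
    intro a ha b hb
    have hz := hTT a ha b hb
    apply huniq _ hz
    rw [← gcb_comm_pow a b (Subgroup.mem_center_iff.mp hz a)]
    exact commutatorElement_eq_one_iff_mul_comm.mpr (hWc _ (hpow a) b hb).symm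
  -- the image of the centralizer is an abelian subgroup of index dividing `p`
  have hA : ∀ x ∈ (Subgroup.centralizer ({w₀} : Set P)).map (QuotientGroup.mk' Y),
      ∀ y ∈ (Subgroup.centralizer ({w₀} : Set P)).map (QuotientGroup.mk' Y), x * y = y * x := by
    rintro x ⟨a, ha, rfl⟩ y ⟨b, hb, rfl⟩
    rw [← commutatorElement_eq_one_iff_mul_comm, ← map_commutatorElement,
      QuotientGroup.mk'_apply, QuotientGroup.eq_one_iff]
    exact hTY a ha b hb
  have hYT : Y ≤ Subgroup.centralizer ({w₀} : Set P) := by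
    intro y hy
    rw [Subgroup.mem_centralizer_iff]
    intro h hh
    rw [Set.mem_singleton_iff] at hh
    rw [hh]
    exact Subgroup.mem_center_iff.mp (hY hy) w₀
  have hidx : ((Subgroup.centralizer ({w₀} : Set P)).map (QuotientGroup.mk' Y)).index =
      (Subgroup.centralizer ({w₀} : Set P)).index :=
    Subgroup.index_map_eq _ (QuotientGroup.mk'_surjective Y)
      (by rw [QuotientGroup.ker_mk']; exact hYT)
  have hTidx : (Subgroup.centralizer ({w₀} : Set P)).index ∣ p := by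
    have hcen : ∀ y : P, ⁅w₀, y⁆ ∈ Subgroup.center P := fun y => hY (hw₀ y)
    rw [← Helper76.commHom_ker w₀ hcen, Subgroup.index_ker, ← hYp]
    apply Subgroup.card_dvd_of_le
    rintro _ ⟨u, rfl⟩
    rw [Helper76.commHom_apply]
    exact hw₀ u
  -- a non-linear character of the quotient has degree `p`
  have hQne : commutator (P ⧸ Y) ≠ ⊥ := by
    rw [← Subgroup.one_lt_card_iff_ne_bot, hQd]; exact hp.one_lt
  obtain ⟨χ, hχ⟩ := Helper79.exists_nonlinear_of_commutator_ne_bot hQne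
  have hfp : charDegree (χ : P ⧸ Y → ℂ) = p := by
    have h1 := Helper79.irr_card_abelian_mul_degree_le χ _ hA
    have h2 := Subgroup.card_mul_index
      ((Subgroup.centralizer ({w₀} : Set P)).map (QuotientGroup.mk' Y))
    rw [hidx] at h2
    have h3 : (Subgroup.centralizer ({w₀} : Set P)).index ≤ p := Nat.le_of_dvd hp.pos hTidx
    have h4 : 0 < Nat.card ((Subgroup.centralizer ({w₀} : Set P)).map (QuotientGroup.mk' Y)) :=
      Nat.card_pos
    have h5 : charDegree (χ : P ⧸ Y → ℂ) ≤ p := by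
      by_contra hlt
      push Not at hlt
      have h6 : Nat.card ((Subgroup.centralizer ({w₀} : Set P)).map (QuotientGroup.mk' Y)) *
          (Subgroup.centralizer ({w₀} : Set P)).index <
          Nat.card ((Subgroup.centralizer ({w₀} : Set P)).map (QuotientGroup.mk' Y)) *
          charDegree (χ : P ⧸ Y → ℂ) :=
        (Nat.mul_lt_mul_left h4).mpr (lt_of_le_of_lt h3 hlt)
      omega
    have h7 : p ∣ charDegree (χ : P ⧸ Y → ℂ) := (Helper79.irr_pgroup_dvd_degree_iff hQP χ).mpr hχ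
    have h8 : 0 < charDegree (χ : P ⧸ Y → ℂ) := Helper80.irr_degree_pos χ
    exact le_antisymm h5 (Nat.le_of_dvd h8 h7)
  obtain ⟨n, hn⟩ := IsPGroup.iff_card.mp hP
  obtain ⟨c, hc⟩ := IsPGroup.iff_card.mp (hP.to_subgroup (Subgroup.center P))
  obtain ⟨a, ha, han⟩ := gcb_deg p hP Y hY hYp hQd hQc χ hχ n c hn hc
  have ha1 : a = 1 := by
    rw [hfp] at ha
    have ha' : p ^ 1 = p ^ a := by rw [pow_one]; exact ha
    exact (Nat.pow_right_injective hp.two_le ha').symm
  subst ha1
  -- a character of `P` that is not trivial on `Y`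
  have hYne : Y ≠ ⊥ := by
    rw [← Subgroup.one_lt_card_iff_ne_bot, hYp]; exact hp.one_lt
  obtain ⟨⟨y₀, hy₀⟩, hy1⟩ := (Subgroup.ne_bot_iff_exists_ne_one).mp hYne
  have hy1' : y₀ ≠ 1 := fun h => hy1 (Subtype.ext h)
  obtain ⟨ψ, hψ⟩ : ∃ ψ : IrrCharacter P, (ψ : P → ℂ) y₀ ≠ (ψ : P → ℂ) 1 := by
    by_contra hcon
    push Not at hcon
    exact hy1' (isConj_one_left.mp (Helper79.isConj_of_forall_irr_eq hcon))
  have hψnl : charDegree (ψ : P → ℂ) ≠ 1 := fun h =>
    hψ (Helper79.irr_commutator_le_ker_of_linear ψ h y₀ (hYd hy₀))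
  have hdp : charDegree (ψ : P → ℂ) = p := by
    have h1 := gca_center_le ψ
    rw [hn, hc] at h1
    have h2 : charDegree (ψ : P → ℂ) ∣ p ^ n := by
      rw [← hn]; exact Helper79.irr_charDegree_dvd_card ψ
    obtain ⟨j, -, hj⟩ := (Nat.dvd_prime_pow hp).mp h2
    rw [hj, ← pow_mul, ← pow_add] at h1
    have h3 : c + j * 2 ≤ n := (Nat.pow_le_pow_iff_right hp.one_lt).mp h1
    have hj0 : j ≠ 0 := by
      rintro rfl
      exact hψnl (by rw [hj, pow_zero])
    have hj1 : j = 1 := by omega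
    rw [hj, hj1, pow_one]
  exact hψ (gcb_ker_of_quot H Y χ ψ hχ (hfp.trans hdp.symm) y₀ hy₀)

end Induction

/-- Under the Galois conjugacy property, a non-abelian finite `p`-group has derived subgroup of
order `p`. -/
theorem gcb_main (p : ℕ) [Fact p.Prime] : ∀ (n : ℕ) (P : Type u) [Group P] [Finite P],
    Nat.card P = n → IsPGroup p P → commutator P ≠ ⊥ → GcaProp P →
    Nat.card (commutator P) = p := by
  intro n
  induction n using Nat.strong_induction_on with
  | _ n IH =>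
  intro P _ _ hcard hP hne H
  by_contra hnp
  have hp : p.Prime := Fact.out
  have IH' : ∀ (Q : Type u) [Group Q] [Finite Q], Nat.card Q < Nat.card P → IsPGroup p Q →
      commutator Q ≠ ⊥ → GcaProp Q → Nat.card (commutator Q) = p := by
    intro Q _ _ hQ hQP hQne hQH
    exact IH (Nat.card Q) (hcard ▸ hQ) Q rfl hQP hQne hQH
  have hnt : Nontrivial P := by
    by_contra h
    rw [not_nontrivial_iff_subsingleton] at h
    exact hne (Subgroup.eq_bot_of_subsingleton _)
  have hZnt : Nontrivial (Subgroup.center P) := hP.center_nontrivial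
  obtain ⟨c, hc⟩ := IsPGroup.iff_card.mp (hP.to_subgroup (Subgroup.center P))
  obtain ⟨n', hn'⟩ := IsPGroup.iff_card.mp hP
  have hpZ : p ∣ Nat.card (Subgroup.center P) := by
    rw [hc]
    have hc0 : c ≠ 0 := by
      rintro rfl
      rw [pow_zero] at hc
      have h1 := Finite.one_lt_card_iff_nontrivial.mpr hZnt
      omega
    exact dvd_pow_self p hc0
  obtain ⟨x, hx⟩ := exists_prime_orderOf_dvd_card' p hpZ
  have hY₀ : Subgroup.zpowers (x : P) ≤ Subgroup.center P := (Subgroup.zpowers_le).mpr x.2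
  have hY₀p : Nat.card (Subgroup.zpowers (x : P)) = p := by
    rw [Nat.card_zpowers, Subgroup.orderOf_coe, hx]
  have hN₀ : (Subgroup.zpowers (x : P)).Normal := Helper76.central_normal _ hY₀
  obtain ⟨hQd, hQc, hYd, hd2⟩ := gcb_pkg p hP H IH' hnp hne (Subgroup.zpowers (x : P)) hY₀p
  by_cases hb : ∃ Y₂ : Subgroup P, Y₂ ≤ Subgroup.center P ∧ Nat.card Y₂ = p ∧
      Y₂ ≠ Subgroup.zpowers (x : P)
  · obtain ⟨Y₂, hY₂, hY₂p, hY₂ne⟩ := hb
    have hN₂ : Y₂.Normal := Helper76.central_normal _ hY₂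
    obtain ⟨hQd₂, hQc₂, hYd₂, -⟩ := gcb_pkg p hP H IH' hnp hne Y₂ hY₂p
    have hQne : commutator (P ⧸ Subgroup.zpowers (x : P)) ≠ ⊥ := by
      rw [← Subgroup.one_lt_card_iff_ne_bot, hQd]; exact hp.one_lt
    have hQne₂ : commutator (P ⧸ Y₂) ≠ ⊥ := by
      rw [← Subgroup.one_lt_card_iff_ne_bot, hQd₂]; exact hp.one_lt
    obtain ⟨χ₁, hχ₁⟩ := Helper79.exists_nonlinear_of_commutator_ne_bot hQne
    obtain ⟨χ₂, hχ₂⟩ := Helper79.exists_nonlinear_of_commutator_ne_bot hQne₂
    obtain ⟨a₁, ha₁, han₁⟩ := gcb_deg p hP _ hY₀ hY₀p hQd hQc χ₁ hχ₁ n' c hn' hc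
    obtain ⟨a₂, ha₂, han₂⟩ := gcb_deg p hP Y₂ hY₂ hY₂p hQd₂ hQc₂ χ₂ hχ₂ n' c hn' hc
    have haa : a₁ = a₂ := by omega
    exact hY₂ne (gcb_same_deg p H hd2 _ Y₂ hYd hYd₂ hY₀p hY₂p χ₁ χ₂ hχ₁
      (by rw [ha₁, ha₂, haa])).symm
  · push Not at hb
    refine gcb_case_a p hP H (Subgroup.zpowers (x : P)) hY₀ hY₀p hQd hQc hYd ?_
    intro z hz hzp
    by_cases hz1 : z = 1
    · rw [hz1]; exact Subgroup.one_mem _
    · have hoz : orderOf z = p := orderOf_eq_prime hzp hz1
      have h1 := hb (Subgroup.zpowers z) ((Subgroup.zpowers_le).mpr hz)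
        (by rw [Nat.card_zpowers, hoz])
      rw [← h1]
      exact Subgroup.mem_zpowers z

/-- The characterisation: the Galois conjugacy property holds iff the centre is cyclic and the
derived subgroup has order `p`. -/
theorem gcb_iff {P : Type u} [Group P] [Finite P] (p : ℕ) [Fact p.Prime] (hP : IsPGroup p P)
    (hna : ¬ IsMulCommutative P) :
    GcaProp P ↔ (IsCyclic (Subgroup.center P) ∧ Nat.card (commutator P) = p) := by
  have hne : commutator P ≠ ⊥ := by
    intro h
    apply hna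
    refine ⟨⟨fun a b => ?_⟩⟩
    have h1 : ⁅a, b⁆ ∈ commutator P := by
      rw [commutator_def]
      exact Subgroup.commutator_mem_commutator (Subgroup.mem_top _) (Subgroup.mem_top _)
    rw [h, Subgroup.mem_bot] at h1
    exact commutatorElement_eq_one_iff_mul_comm.mp h1
  constructor
  · intro H
    have hd := gcb_main p (Nat.card P) P rfl hP hne H
    exact ⟨gca_center_cyclic p hd H, hd⟩
  · rintro ⟨hcyc, hd⟩
    exact gca_conj_of_cyclic p hP hd hcyc

end Cfsg.Agent.Helper67
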