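import Cfsg.Agent.Helper44.PSL2E
import Cfsg.Agent.Helper99.TwoByTwo
import Cfsg.Agent.Helper5.PAct
import Cfsg.Agent.Helper5.DkMax

/-!
# CALL S3206 piece PAUT (core): an automorphism of 2-power order of `PSL₂(F)` fixing an abelian
Sylow 2-subgroup `V` (a four-group) elementwise is conjugation by an element of `V`
-/

set_option autoImplicit false

namespace Cfsg.Agent.Helper67

open Matrix Cfsg.Agent.Helper44

universe u

section PAUT

variable {F : Type u} [Field F]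

/-- twisted commutation passes to `C⁻¹ * G` -/
theorem jrp_twist (G A C C' : Matrix (Fin 2) (Fin 2) F) (r : F) (hr : r * r = 1)
    (hG : G * A = r • (A * G)) (hC : C * A = r • (A * C)) (h1 : C' * C = 1) (h2 : C * C' = 1) :
    A * (C' * G) = (C' * G) * A := by
  have hAC : A * C = r • (C * A) := by rw [hC, smul_smul, hr, one_smul]
  have hC'A : C' * A = r • (A * C') := by
    calc C' * A = C' * A * (C * C') := by rw [h2, Matrix.mul_one]
      _ = C' * (A * C) * C' := by simp only [Matrix.mul_assoc]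
      _ = C' * (r • (C * A)) * C' := by rw [hAC]
      _ = r • ((C' * C) * A * C') := by
          simp only [Matrix.mul_smul, Matrix.smul_mul, Matrix.mul_assoc]
      _ = r • (A * C') := by rw [h1, Matrix.one_mul]
  calc A * (C' * G) = (r * r) • (A * C' * G) := by rw [hr, one_smul, Matrix.mul_assoc]
    _ = r • ((r • (A * C')) * G) := by rw [Matrix.smul_mul, smul_smul]
    _ = r • (C' * A * G) := by rw [← hC'A]
    _ = C' * (r • (A * G)) := by rw [Matrix.mul_smul, Matrix.mul_assoc]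
    _ = C' * G * A := by rw [← hG, Matrix.mul_assoc]

/-- the finishing step: conjugation by `g` agrees with conjugation by `c` -/
theorem jrp_finish (g : GL (Fin 2) F) (a b c : SL2 F) (r₁ r₂ : F)
    (hr₁ : r₁ * r₁ = 1) (hr₂ : r₂ * r₂ = 1)
    (hga : (g : Matrix (Fin 2) (Fin 2) F) * (a : Matrix (Fin 2) (Fin 2) F)
      = r₁ • ((a : Matrix (Fin 2) (Fin 2) F) * (g : Matrix (Fin 2) (Fin 2) F)))
    (hgb : (g : Matrix (Fin 2) (Fin 2) F) * (b : Matrix (Fin 2) (Fin 2) F)
      = r₂ • ((b : Matrix (Fin 2) (Fin 2) F) * (g : Matrix (Fin 2) (Fin 2) F)))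
    (hca : (c : Matrix (Fin 2) (Fin 2) F) * (a : Matrix (Fin 2) (Fin 2) F)
      = r₁ • ((a : Matrix (Fin 2) (Fin 2) F) * (c : Matrix (Fin 2) (Fin 2) F)))
    (hcb : (c : Matrix (Fin 2) (Fin 2) F) * (b : Matrix (Fin 2) (Fin 2) F)
      = r₂ • ((b : Matrix (Fin 2) (Fin 2) F) * (c : Matrix (Fin 2) (Fin 2) F)))
    (hab : (a : Matrix (Fin 2) (Fin 2) F) * (b : Matrix (Fin 2) (Fin 2) F)
      ≠ (b : Matrix (Fin 2) (Fin 2) F) * (a : Matrix (Fin 2) (Fin 2) F)) :
    dAut g = MulAut.conj (pr c) := by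
  have hC1 : ((c⁻¹ : SL2 F) : Matrix (Fin 2) (Fin 2) F) * (c : Matrix (Fin 2) (Fin 2) F) = 1 := by
    rw [← Matrix.SpecialLinearGroup.coe_mul, inv_mul_cancel, Matrix.SpecialLinearGroup.coe_one]
  have hC2 : (c : Matrix (Fin 2) (Fin 2) F) * ((c⁻¹ : SL2 F) : Matrix (Fin 2) (Fin 2) F) = 1 := by
    rw [← Matrix.SpecialLinearGroup.coe_mul, mul_inv_cancel, Matrix.SpecialLinearGroup.coe_one]
  have hZA := jrp_twist (g : Matrix (Fin 2) (Fin 2) F) (a : Matrix (Fin 2) (Fin 2) F)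
    (c : Matrix (Fin 2) (Fin 2) F) ((c⁻¹ : SL2 F) : Matrix (Fin 2) (Fin 2) F) r₁ hr₁ hga hca hC1 hC2
  have hZB := jrp_twist (g : Matrix (Fin 2) (Fin 2) F) (b : Matrix (Fin 2) (Fin 2) F)
    (c : Matrix (Fin 2) (Fin 2) F) ((c⁻¹ : SL2 F) : Matrix (Fin 2) (Fin 2) F) r₂ hr₂ hgb hcb hC1 hC2
  obtain ⟨z, hz⟩ := Cfsg.Agent.Helper99.m2_scalar_of_comm _ _ _ hZA hZB hab
  have hscal : dAut ((Matrix.SpecialLinearGroup.toGL c⁻¹ : GL (Fin 2) F) * g) = 1 :=
    dAut_scalar _ z hz
  have hg : g = (Matrix.SpecialLinearGroup.toGL c : GL (Fin 2) F)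
      * ((Matrix.SpecialLinearGroup.toGL c⁻¹ : GL (Fin 2) F) * g) := by
    rw [← mul_assoc, ← map_mul, mul_inv_cancel, map_one, one_mul]
  rw [conj_pr, hg, map_mul, hscal, mul_one]

/-- the choice of the conjugating element among `1, a, b, a * b` -/
theorem jrp_choose (a b : SL2 F) (r₁ r₂ : F) (hr₁ : r₁ = 1 ∨ r₁ = -1) (hr₂ : r₂ = 1 ∨ r₂ = -1)
    (hBA : (b : Matrix (Fin 2) (Fin 2) F) * (a : Matrix (Fin 2) (Fin 2) F)
      = -((a : Matrix (Fin 2) (Fin 2) F) * (b : Matrix (Fin 2) (Fin 2) F))) :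
    ∃ c : SL2 F, (c = 1 ∨ c = a ∨ c = b ∨ c = a * b) ∧
      (c : Matrix (Fin 2) (Fin 2) F) * (a : Matrix (Fin 2) (Fin 2) F)
        = r₁ • ((a : Matrix (Fin 2) (Fin 2) F) * (c : Matrix (Fin 2) (Fin 2) F)) ∧
      (c : Matrix (Fin 2) (Fin 2) F) * (b : Matrix (Fin 2) (Fin 2) F)
        = r₂ • ((b : Matrix (Fin 2) (Fin 2) F) * (c : Matrix (Fin 2) (Fin 2) F)) := by
  rcases hr₁ with rfl | rfl <;> rcases hr₂ with rfl | rfl
  · refine ⟨1, Or.inl rfl, ?_, ?_⟩
    · rw [Matrix.SpecialLinearGroup.coe_one, Matrix.one_mul, Matrix.mul_one, one_smul]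
    · rw [Matrix.SpecialLinearGroup.coe_one, Matrix.one_mul, Matrix.mul_one, one_smul]
  · refine ⟨a, Or.inr (Or.inl rfl), ?_, ?_⟩
    · rw [one_smul]
    · rw [hBA, neg_one_smul, neg_neg]
  · refine ⟨b, Or.inr (Or.inr (Or.inl rfl)), ?_, ?_⟩
    · rw [hBA, neg_one_smul]
    · rw [one_smul]
  · refine ⟨a * b, Or.inr (Or.inr (Or.inr rfl)), ?_, ?_⟩
    · rw [Matrix.SpecialLinearGroup.coe_mul, neg_one_smul, Matrix.mul_assoc, hBA,
        Matrix.mul_neg]
    · rw [Matrix.SpecialLinearGroup.coe_mul, neg_one_smul, ← Matrix.mul_assoc, hBA,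
        Matrix.neg_mul, neg_neg]

/-- a non-identity lift of an involution of `PSL₂(F)` squares to `-1` -/
theorem jrp_lift_sq (h2 : (2 : F) ≠ 0) (a : SL2 F) (hne : pr a ≠ 1) (hsq : pr a * pr a = 1) :
    (a : Matrix (Fin 2) (Fin 2) F) * (a : Matrix (Fin 2) (Fin 2) F) = -1 := by
  have h1 : pr (1 : SL2 F) = pr (a * a) := by rw [map_one, map_mul, hsq]
  obtain ⟨r, hr, hra⟩ := (pr_eq_iff 1 (a * a)).mp h1
  rw [Matrix.SpecialLinearGroup.coe_mul, Matrix.SpecialLinearGroup.coe_one] at hra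
  rcases mul_self_eq_one_iff.mp hr with rfl | rfl
  · exfalso
    apply hne
    have haa : a * a = 1 := by
      apply Subtype.ext
      rw [Matrix.SpecialLinearGroup.coe_mul, hra, one_smul, Matrix.SpecialLinearGroup.coe_one]
    rcases Cfsg.Agent.Helper5.sl2_sq_eq_one h2 a haa with h | h
    · rw [h, map_one]
    · rw [← map_one pr]
      symm
      apply (pr_eq_iff 1 a).mpr
      refine ⟨-1, by ring, ?_⟩
      rw [Matrix.SpecialLinearGroup.coe_one, neg_one_smul]
      exact h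
  · rw [hra, neg_one_smul]

end PAUT

section Main

variable {F : Type u} [Field F] [Fintype F]

/-- PAUT, with the conclusion of PSYL as a hypothesis -/
theorem jr_psl2_aut_core (hFo : Odd (Fintype.card F)) {P : Type*} [Group P]
    (e : P ≃* Matrix.ProjectiveSpecialLinearGroup (Fin 2) F) (V : Sylow 2 P)
    (hV : ∀ a ∈ (V : Subgroup P), ∀ b ∈ (V : Subgroup P), a * b = b * a)
    (hV4 : Nat.card (V : Subgroup P) = 4) (hVexp : ∀ v ∈ (V : Subgroup P), v * v = 1)
    (α : P ≃* P) (k : ℕ) (hα : α ^ (2 ^ k) = 1) (hfix : ∀ v ∈ (V : Subgroup P), α v = v) :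
    ∃ v ∈ (V : Subgroup P), ∀ x : P, α x = v * x * v⁻¹ := by
  classical
  have hfinP : Finite P := Finite.of_equiv _ e.symm.toEquiv
  obtain ⟨p, hchar⟩ := CharP.exists F
  have hp : p.Prime := CharP.char_is_prime F p
  have : Fact p.Prime := ⟨hp⟩
  obtain ⟨f, -, hf⟩ := FiniteField.card F p
  have h2 : (2 : F) ≠ 0 := by
    apply Ring.two_ne_zero
    intro h
    have h1 := FiniteField.even_card_iff_char_two.mp h
    obtain ⟨j, hj⟩ := hFo
    omega
  -- Step A: `f` is odd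
  have hfodd : Odd (f : ℕ) := by
    by_contra hne
    rw [Nat.not_odd_iff_even] at hne
    obtain ⟨m, hm⟩ := hne
    have hq : Fintype.card F = (p ^ m) ^ 2 := by rw [hf, hm, ← pow_mul, mul_two]
    obtain ⟨r, hr⟩ : ∃ r, r = p ^ m := ⟨_, rfl⟩
    rw [← hr] at hq
    have hrodd : r % 2 = 1 := by
      obtain ⟨j, hj⟩ := hFo
      rw [hq] at hj
      by_contra hcon
      have h0 : r % 2 = 0 := by omega
      have h1 : (r ^ 2) % 2 = 0 := by rw [Nat.pow_mod, h0]
      omega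
    have h16 : (r ^ 2) ^ 2 % 16 = 1 := by
      have h1 : r % 16 < 16 := Nat.mod_lt _ (by norm_num)
      have h3 : (r % 16) % 2 = 1 := by omega
      rw [← pow_mul, Nat.pow_mod]
      interval_cases (r % 16) <;> simp_all
    obtain ⟨t, ht⟩ : ∃ t, (r ^ 2) ^ 2 = 16 * t + 1 := ⟨(r ^ 2) ^ 2 / 16, by omega⟩
    have hcard := Cfsg.Agent.Helper5.two_mul_card_PSL2 (F := F) h2
    have hP : Nat.card P = 4 * (V : Subgroup P).index := by
      rw [← hV4]
      exact ((V : Subgroup P).card_mul_index).symm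
    have hidx : ¬ 2 ∣ (V : Subgroup P).index := V.not_dvd_index
    rw [← Nat.card_congr e.toEquiv, hP, hq, ht, Nat.add_sub_cancel] at hcard
    apply hidx
    refine ⟨r ^ 2 * t, ?_⟩
    have h8 : 8 * (V : Subgroup P).index = 8 * (2 * (r ^ 2 * t)) := by linarith
    exact Nat.eq_of_mul_eq_mul_left (by norm_num) h8
  -- Step B: the transported automorphism is diagonal
  obtain ⟨α', hα'⟩ : ∃ α' : MulAut (PSL2 F), α' = MulAut.congr e α := ⟨_, rfl⟩
  have hα'app : ∀ x : P, α' (e x) = e (α x) := by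
    intro x
    rw [hα']
    simp [MulAut.congr]
  have hα'pow : α' ^ (2 ^ k) = 1 := by rw [hα', ← map_pow, hα, map_one]
  have hgal : galHom p α' = 1 := by
    have h1 : (galHom p α') ^ (2 ^ k) = 1 := by rw [← map_pow, hα'pow, map_one]
    obtain ⟨-, hcardRA⟩ := ringAut_cyclic_card (F := F) p f hf
    have hd1 : orderOf (galHom p α') ∣ 2 ^ k := orderOf_dvd_of_pow_eq_one h1
    have hd2 : orderOf (galHom p α') ∣ (f : ℕ) := by
      rw [← hcardRA]
      exact orderOf_dvd_natCard _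
    have hcop : Nat.Coprime (2 ^ k) (f : ℕ) :=
      Nat.Coprime.pow_left k (Nat.coprime_two_left.mpr hfodd)
    have h3 := Nat.Coprime.eq_one_of_dvd (Nat.Coprime.coprime_dvd_left hd1 hcop) hd2
    exact orderOf_eq_one_iff.mp h3
  obtain ⟨g, hg⟩ := exists_of_galHom_eq_one p α' hgal
  -- Step C: two generators of `V`
  have hfinV : Finite ↥(V : Subgroup P) := inferInstance
  have hntV : Nontrivial ↥(V : Subgroup P) := by
    apply (Finite.one_lt_card_iff_nontrivial).mp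
    rw [hV4]
    norm_num
  obtain ⟨v₁, hv₁⟩ := exists_ne (1 : ↥(V : Subgroup P))
  obtain ⟨v₂, hv₂1, hv₂v₁⟩ : ∃ v₂ : ↥(V : Subgroup P), v₂ ≠ 1 ∧ v₂ ≠ v₁ := by
    by_contra hcon
    push Not at hcon
    have : Fintype ↥(V : Subgroup P) := Fintype.ofFinite _
    have hsub : (Finset.univ : Finset ↥(V : Subgroup P)) ⊆ {1, v₁} := by
      intro v _
      rw [Finset.mem_insert, Finset.mem_singleton]
      by_cases h1 : v = 1
      · exact Or.inl h1
      · exact Or.inr (hcon v h1)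
    have hle := Finset.card_le_card hsub
    rw [Finset.card_univ, ← Nat.card_eq_fintype_card, hV4] at hle
    have := Finset.card_le_two (a := (1 : ↥(V : Subgroup P))) (b := v₁)
    omega
  obtain ⟨a, ha⟩ := pr_surjective (e (v₁ : P))
  obtain ⟨b, hb⟩ := pr_surjective (e (v₂ : P))
  have hea : pr a ≠ 1 := by
    rw [ha]
    intro h
    apply hv₁
    apply Subtype.ext
    exact e.injective (by rw [OneMemClass.coe_one, map_one, h])
  have heb : pr b ≠ 1 := by
    rw [hb]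
    intro h
    apply hv₂1
    apply Subtype.ext
    exact e.injective (by rw [OneMemClass.coe_one, map_one, h])
  have hA2 := jrp_lift_sq h2 a hea (by rw [ha, ← map_mul, hVexp _ v₁.2, map_one])
  have hB2 := jrp_lift_sq h2 b heb (by rw [hb, ← map_mul, hVexp _ v₂.2, map_one])
  -- `a` and `b` anticommute
  have hBA : (b : Matrix (Fin 2) (Fin 2) F) * (a : Matrix (Fin 2) (Fin 2) F)
      = -((a : Matrix (Fin 2) (Fin 2) F) * (b : Matrix (Fin 2) (Fin 2) F)) := by
    have h1 : pr (a * b) = pr (b * a) := by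
      rw [map_mul, map_mul, ha, hb, ← map_mul, ← map_mul, hV _ v₁.2 _ v₂.2]
    obtain ⟨r, hr, hrab⟩ := (pr_eq_iff (a * b) (b * a)).mp h1
    rw [Matrix.SpecialLinearGroup.coe_mul, Matrix.SpecialLinearGroup.coe_mul] at hrab
    rcases mul_self_eq_one_iff.mp hr with rfl | rfl
    · exfalso
      rw [one_smul] at hrab
      have hcomm : b * a = a * b := Subtype.ext (by
        rw [Matrix.SpecialLinearGroup.coe_mul, Matrix.SpecialLinearGroup.coe_mul, hrab])
      have haa : a * a = b * b := Subtype.ext (by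
        rw [Matrix.SpecialLinearGroup.coe_mul, Matrix.SpecialLinearGroup.coe_mul, hA2, hB2])
      have hd : (a * b⁻¹) * (a * b⁻¹) = 1 := by
        have h3 : b⁻¹ * a = a * b⁻¹ := by
          calc b⁻¹ * a = b⁻¹ * (a * b) * b⁻¹ := by group
            _ = b⁻¹ * (b * a) * b⁻¹ := by rw [hcomm]
            _ = a * b⁻¹ := by group
        calc (a * b⁻¹) * (a * b⁻¹) = a * (b⁻¹ * a) * b⁻¹ := by group
          _ = a * (a * b⁻¹) * b⁻¹ := by rw [h3]
          _ = (a * a) * (b * b)⁻¹ := by group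
          _ = 1 := by rw [haa, mul_inv_cancel]
      apply hv₂v₁
      apply Subtype.ext
      apply e.injective
      rw [← ha, ← hb]
      rcases Cfsg.Agent.Helper5.sl2_sq_eq_one h2 (a * b⁻¹) hd with h | h
      · have hab' : a = b := by
          have := congrArg (fun y => y * b) h
          simpa using this
        rw [hab']
      · symm
        apply (pr_eq_iff a b).mpr
        refine ⟨-1, by ring, ?_⟩
        have h5 : (a : Matrix (Fin 2) (Fin 2) F)
            = -(b : Matrix (Fin 2) (Fin 2) F) := by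
          have h6 : ((a * b⁻¹ * b : SL2 F) : Matrix (Fin 2) (Fin 2) F)
              = -(b : Matrix (Fin 2) (Fin 2) F) := by
            rw [Matrix.SpecialLinearGroup.coe_mul]
            have h7 : ((a * b⁻¹ : SL2 F) : Matrix (Fin 2) (Fin 2) F) = -1 := h
            rw [h7, Matrix.neg_mul, Matrix.one_mul]
          rw [inv_mul_cancel_right] at h6
          exact h6
        rw [h5, neg_one_smul, neg_neg]
    · rw [hrab, neg_one_smul]
  have hab : (a : Matrix (Fin 2) (Fin 2) F) * (b : Matrix (Fin 2) (Fin 2) F)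
      ≠ (b : Matrix (Fin 2) (Fin 2) F) * (a : Matrix (Fin 2) (Fin 2) F) := by
    intro h
    rw [hBA] at h
    have h3 : (2 : F) • ((a : Matrix (Fin 2) (Fin 2) F) * (b : Matrix (Fin 2) (Fin 2) F)) = 0 := by
      rw [two_smul]
      nth_rewrite 1 [h]
      exact neg_add_cancel _
    rcases smul_eq_zero.mp h3 with h4 | h4
    · exact h2 h4
    · have h5 := (a * b).2
      rw [Matrix.SpecialLinearGroup.coe_mul, h4, Matrix.det_zero] at h5
      exact zero_ne_one h5
  -- the signs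
  have hsign : ∀ (s : SL2 F) (v : ↥(V : Subgroup P)), pr s = e (v : P) →
      ∃ r : F, (r = 1 ∨ r = -1) ∧ (g : Matrix (Fin 2) (Fin 2) F) * (s : Matrix (Fin 2) (Fin 2) F)
        = r • ((s : Matrix (Fin 2) (Fin 2) F) * (g : Matrix (Fin 2) (Fin 2) F)) := by
    intro s v hs
    have h1 : pr s = pr (conjFun g s) := by
      rw [← dAut_pr, ← hg, hs, hα'app, hfix _ v.2]
    obtain ⟨r, hr, hrs⟩ := (pr_eq_iff s (conjFun g s)).mp h1
    rw [conjFun_coe] at hrs
    refine ⟨r, mul_self_eq_one_iff.mp hr, ?_⟩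
    have hgg : ((g⁻¹ : GL (Fin 2) F) : Matrix (Fin 2) (Fin 2) F) * (g : Matrix (Fin 2) (Fin 2) F)
        = 1 := by
      rw [← Units.val_mul, inv_mul_cancel, Units.val_one]
    calc (g : Matrix (Fin 2) (Fin 2) F) * (s : Matrix (Fin 2) (Fin 2) F)
        = (g : Matrix (Fin 2) (Fin 2) F) * (s : Matrix (Fin 2) (Fin 2) F)
          * ((g⁻¹ : GL (Fin 2) F) : Matrix (Fin 2) (Fin 2) F) * (g : Matrix (Fin 2) (Fin 2) F) := by
          rw [Matrix.mul_assoc _ _ (g : Matrix (Fin 2) (Fin 2) F), hgg, Matrix.mul_one]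
      _ = r • ((s : Matrix (Fin 2) (Fin 2) F) * (g : Matrix (Fin 2) (Fin 2) F)) := by
          rw [hrs, Matrix.smul_mul]
  obtain ⟨r₁, hr₁, hga⟩ := hsign a v₁ ha
  obtain ⟨r₂, hr₂, hgb⟩ := hsign b v₂ hb
  obtain ⟨c, hc, hca, hcb⟩ := jrp_choose a b r₁ r₂ hr₁ hr₂ hBA
  have hconj := jrp_finish g a b c r₁ r₂ (mul_self_eq_one_iff.mpr hr₁) (mul_self_eq_one_iff.mpr hr₂)
    hga hgb hca hcb hab
  obtain ⟨v, hvV, hv⟩ : ∃ v ∈ (V : Subgroup P), pr c = e v := by
    rcases hc with rfl | rfl | rfl | rfl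
    · exact ⟨1, one_mem _, by rw [map_one, map_one]⟩
    · exact ⟨v₁, v₁.2, ha⟩
    · exact ⟨v₂, v₂.2, hb⟩
    · exact ⟨v₁ * v₂, mul_mem v₁.2 v₂.2, by rw [map_mul, map_mul, ha, hb]⟩
  refine ⟨v, hvV, ?_⟩
  intro x
  apply e.injective
  rw [← hα'app, hg, hconj, MulAut.conj_apply, hv, map_mul, map_mul, map_inv]

end Main

end Cfsg.Agent.Helper67
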