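import Mathlib
import Cfsg.Agent.Helper79.Linear
import Cfsg.Agent.Helper79.Codegree
import Cfsg.Agent.Helper80.CharOrtho

/-!
CALL LM piece CHAR (double by helper67): a non-abelian finite group with more than `|G|/p`
conjugacy classes (`p` the least prime divisor of `|G|`) has a commutator subgroup of order `p`.
-/

set_option autoImplicit false
open Cfsg
open scoped commutatorElement

namespace Cfsg.Agent.Helper67.LM

/-- CHAR: more than `|G|/p` classes forces `|G'| = p` (character degrees). -/
theorem lm_char {G : Type*} [Group G] [Finite G] (hna : ¬ IsMulCommutative G)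
    (hk : Nat.card G / (Nat.card G).minFac < Nat.card (ConjClasses G)) :
    Nat.card (commutator G) = (Nat.card G).minFac := by
  classical
  letI := Fintype.ofFinite G
  letI := Fintype.ofFinite (IrrCharacter G)
  set g := Nat.card G with hg
  set p := g.minFac with hp
  have hgpos : 0 < g := Nat.card_pos
  -- G is not trivial
  have hg1 : g ≠ 1 := by
    intro h1
    apply hna
    have hss : Subsingleton G := (Nat.card_eq_one_iff_unique.mp h1).1
    exact ⟨⟨fun a b => Subsingleton.elim _ _⟩⟩
  have hpp : p.Prime := Nat.minFac_prime hg1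
  have hpg : p ∣ g := Nat.minFac_dvd g
  -- the commutator subgroup is not trivial
  have hc1 : Nat.card (commutator G) ≠ 1 := by
    intro h1
    apply hna
    have hbot : commutator G = ⊥ := Subgroup.card_eq_one.mp h1
    refine ⟨⟨fun a b => ?_⟩⟩
    have hmem : ⁅a, b⁆ ∈ commutator G := by
      rw [commutator_def]
      exact Subgroup.commutator_mem_commutator (Subgroup.mem_top a) (Subgroup.mem_top b)
    rw [hbot, Subgroup.mem_bot] at hmem
    exact commutatorElement_eq_one_iff_mul_comm.mp hmem
  have hcpos : 0 < Nat.card (commutator G) := Nat.card_pos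
  have hcdvd : Nat.card (commutator G) ∣ g := Subgroup.card_subgroup_dvd_card _
  have hpc : p ≤ Nat.card (commutator G) := Nat.minFac_le_of_dvd (by omega) hcdvd
  have hidx : (commutator G).index * Nat.card (commutator G) = g := Subgroup.index_mul_card _
  -- the degree sum
  have hsplit := Agent.Helper79.sum_charDegree_sq_split (G := G)
  have hkk := Agent.Helper80.card_irr_eq_card_conjClasses (G := G)
  have hlin := Agent.Helper79.card_linear_irr (G := G)
  rw [Nat.card_eq_fintype_card, Fintype.card_subtype] at hlin
  have hcount : (Finset.univ.filter (fun χ : IrrCharacter G => charDegree (χ : G → ℂ) = 1)).card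
      + (Finset.univ.filter (fun χ : IrrCharacter G => ¬ charDegree (χ : G → ℂ) = 1)).card
      = Fintype.card (IrrCharacter G) := by
    rw [Finset.card_filter_add_card_filter_not, Finset.card_univ]
  set N := (Finset.univ.filter (fun χ : IrrCharacter G => ¬ charDegree (χ : G → ℂ) = 1)).card
    with hN
  set L := (commutator G).index with hL
  have hlow : N * p ^ 2 ≤ ∑ χ ∈ Finset.univ.filter
      (fun χ : IrrCharacter G => ¬ charDegree (χ : G → ℂ) = 1), charDegree (χ : G → ℂ) ^ 2 := by
    rw [hN, ← smul_eq_mul]
    apply Finset.card_nsmul_le_sum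
    intro χ hχ
    have hne : ¬ charDegree (χ : G → ℂ) = 1 := (Finset.mem_filter.mp hχ).2
    have hdvd : charDegree (χ : G → ℂ) ∣ g := Agent.Helper79.irr_charDegree_dvd_card χ
    have hdpos : 0 < charDegree (χ : G → ℂ) := Nat.pos_of_dvd_of_pos hdvd hgpos
    have hpd : p ≤ charDegree (χ : G → ℂ) := Nat.minFac_le_of_dvd (by omega) hdvd
    exact Nat.pow_le_pow_left hpd 2
  have hgF : Fintype.card G = g := by rw [hg, Nat.card_eq_fintype_card]
  rw [hgF] at hsplit
  have h1 : L + N * p ^ 2 ≤ g := by omega
  have h2 : L + N = Nat.card (ConjClasses G) := by rw [← hkk, ← hcount, hlin]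
  have h3 : g < Nat.card (ConjClasses G) * p := (Nat.div_lt_iff_lt_mul hpp.pos).mp hk
  rw [← h2] at h3
  by_contra hne
  have hcp : p + 1 ≤ Nat.card (commutator G) := by omega
  have h4 : L * (p + 1) ≤ g := by
    calc L * (p + 1) ≤ L * Nat.card (commutator G) := Nat.mul_le_mul_left _ hcp
      _ = g := hidx
  have hp2 : 2 ≤ p := hpp.two_le
  have hLpos : 0 < L := by
    rcases Nat.eq_zero_or_pos L with h0 | h0
    · rw [h0] at hidx; omega
    · exact h0
  nlinarith [Nat.mul_le_mul_right p h1, Nat.mul_lt_mul_of_pos_right h3 hpp.pos]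

end Cfsg.Agent.Helper67.LM
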