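import Mathlib
import Cfsg.Agent.Helper90.MDSLDefs
import Cfsg.Agent.Helper20.MDMSCONJ

/-!
# CALL S2332, PIECE MSCLASS (helper67): the class of a transvection in `SL(V)`
-/

set_option autoImplicit false
set_option linter.unusedSectionVars false

namespace Cfsg.Agent.Helper67

open Module Cfsg.Agent.Helper90.MD Cfsg.Agent.Helper60.MinIdx

section
variable {F V0 : Type*} [Field F] [AddCommGroup V0] [Module F V0]

/-- rescaling the two parameters of a transvection. -/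
theorem md_tv_scale (c : Fˣ) (f : Dual F V0) (a : V0) :
    tv ((c : F) • f) (((c⁻¹ : Fˣ) : F) • a) = tv f a := by
  rw [← tv_smul, smul_smul, ← Units.val_mul, mul_inv_cancel, Units.val_one, one_smul]

/-- the parameters of a nontrivial transvection are unique up to rescaling. -/
theorem md_tv_eq_tv {f f' : Dual F V0} {a a' : V0} (h : f a = 0) (hf : f ≠ 0) (ha : a ≠ 0)
    (h' : f' a' = 0) (ha' : a' ≠ 0) (heq : tv f a = tv f' a') :
    ∃ c : Fˣ, f = (c : F) • f' ∧ a = ((c⁻¹ : Fˣ) : F) • a' := by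
  have hx : ∀ x, f x • a = f' x • a' := by
    intro x
    have h1 : tv f a x = tv f' a' x := by rw [heq]
    rw [tv_apply h, tv_apply h'] at h1
    exact add_left_cancel h1
  obtain ⟨x0, hx0⟩ : ∃ x, f x ≠ 0 := by
    by_contra hc; push Not at hc; exact hf (LinearMap.ext hc)
  have had : a = ((f x0)⁻¹ * f' x0) • a' := by
    rw [mul_smul, ← hx x0, smul_smul, inv_mul_cancel₀ hx0, one_smul]
  have hd0 : (f x0)⁻¹ * f' x0 ≠ 0 := by
    intro h0
    rw [h0, zero_smul] at had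
    exact ha had
  refine ⟨(Units.mk0 _ hd0)⁻¹, ?_, ?_⟩
  · ext x
    have h2 := hx x
    rw [had, smul_smul] at h2
    have h3 : f x * ((f x0)⁻¹ * f' x0) = f' x := by
      have h4 : (f x * ((f x0)⁻¹ * f' x0) - f' x) • a' = 0 := by
        rw [sub_smul, h2, sub_self]
      rcases smul_eq_zero.mp h4 with h5 | h5
      · exact sub_eq_zero.mp h5
      · exact absurd h5 ha'
    rw [LinearMap.smul_apply, smul_eq_mul, Units.val_inv_eq_inv_val, Units.val_mk0, ← h3,
      mul_comm (f x), ← mul_assoc, inv_mul_cancel₀ hd0, one_mul]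
  · rw [inv_inv, Units.val_mk0]
    exact had

end

section
variable {F V0 : Type*} [Field F] [Finite F] [AddCommGroup V0] [Module F V0] [Module.Finite F V0]

/-- the number of pairs `(f, a)` with `f ≠ 0`, `a ≠ 0`, `f a = 0`. -/
theorem md_card_pairs :
    Nat.card {p : Dual F V0 × V0 // p.1 ≠ 0 ∧ p.2 ≠ 0 ∧ p.1 p.2 = 0}
      = (Nat.card F ^ finrank F V0 - 1) * (Nat.card F ^ (finrank F V0 - 1) - 1) := by
  classical
  have : Finite V0 := Module.finite_of_finite F
  have : Finite (Dual F V0) := Module.finite_of_finite F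
  let _i1 : Fintype (Dual F V0) := Fintype.ofFinite _
  let _i2 : Fintype {f : Dual F V0 // f ≠ 0} := Fintype.ofFinite _
  have e2 : {p : Dual F V0 × V0 // p.1 ≠ 0 ∧ p.2 ≠ 0 ∧ p.1 p.2 = 0}
      ≃ Σ f : {f : Dual F V0 // f ≠ 0}, {a : LinearMap.ker f.1 // a ≠ 0} :=
    { toFun := fun p => ⟨⟨p.1.1, p.2.1⟩, ⟨⟨p.1.2, p.2.2.2⟩, fun h0 =>
        p.2.2.1 (congrArg Subtype.val h0)⟩⟩
      invFun := fun s => ⟨(s.1.1, s.2.1.1), s.1.2, fun h0 => s.2.2 (Subtype.ext h0), s.2.1.2⟩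
      left_inv := fun p => rfl
      right_inv := fun s => rfl }
  have hfib : ∀ f : {f : Dual F V0 // f ≠ 0},
      Nat.card {a : LinearMap.ker f.1 // a ≠ 0} = Nat.card F ^ (finrank F V0 - 1) - 1 := by
    intro f
    let _i3 : Fintype (LinearMap.ker f.1) := Fintype.ofFinite _
    have h1 : Nat.card (LinearMap.ker f.1) = Nat.card F ^ (finrank F V0 - 1) := by
      rw [Module.natCard_eq_pow_finrank (K := F)]
      congr 1
      have := Module.Dual.finrank_ker_add_one_of_ne_zero f.2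
      omega
    rw [Nat.card_eq_fintype_card, Fintype.card_subtype_compl (fun a : LinearMap.ker f.1 => a = 0),
      Fintype.card_subtype_eq, ← Nat.card_eq_fintype_card, h1]
  have hbase : Nat.card {f : Dual F V0 // f ≠ 0} = Nat.card F ^ finrank F V0 - 1 := by
    have h1 : Nat.card (Dual F V0) = Nat.card F ^ finrank F V0 := by
      rw [Module.natCard_eq_pow_finrank (K := F), Subspace.dual_finrank_eq]
    rw [Nat.card_eq_fintype_card, Fintype.card_subtype_compl (fun f : Dual F V0 => f = 0),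
      Fintype.card_subtype_eq, ← Nat.card_eq_fintype_card, h1]
  rw [Nat.card_congr e2, Nat.card_sigma]
  rw [Finset.sum_congr rfl (fun f _ => hfib f), Finset.sum_const, Finset.card_univ,
    smul_eq_mul, ← Nat.card_eq_fintype_card, hbase]

/-- the number of nontrivial transvections. -/
theorem md_card_tv :
    Nat.card {t : SpecialLinearGroup F V0 // ∃ (f : Dual F V0) (a : V0),
        f a = 0 ∧ f ≠ 0 ∧ a ≠ 0 ∧ t = tv f a} * (Nat.card F - 1)
      = (Nat.card F ^ finrank F V0 - 1) * (Nat.card F ^ (finrank F V0 - 1) - 1) := by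
  classical
  rw [← md_card_pairs, ← Nat.card_units, ← Nat.card_prod]
  have hrep : ∀ t : {t : SpecialLinearGroup F V0 // ∃ (f : Dual F V0) (a : V0),
      f a = 0 ∧ f ≠ 0 ∧ a ≠ 0 ∧ t = tv f a}, ∃ p : Dual F V0 × V0,
      p.1 p.2 = 0 ∧ p.1 ≠ 0 ∧ p.2 ≠ 0 ∧ t.1 = tv p.1 p.2 := by
    rintro ⟨t, f, a, h1, h2, h3, h4⟩
    exact ⟨(f, a), h1, h2, h3, h4⟩
  choose rp hrp using hrep
  let Θ : {t : SpecialLinearGroup F V0 // ∃ (f : Dual F V0) (a : V0),
        f a = 0 ∧ f ≠ 0 ∧ a ≠ 0 ∧ t = tv f a} × Fˣ →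
      {p : Dual F V0 × V0 // p.1 ≠ 0 ∧ p.2 ≠ 0 ∧ p.1 p.2 = 0} := fun x =>
    ⟨((x.2 : F) • (rp x.1).1, ((x.2⁻¹ : Fˣ) : F) • (rp x.1).2),
      smul_ne_zero (Units.ne_zero _) (hrp x.1).2.1,
      smul_ne_zero (Units.ne_zero _) (hrp x.1).2.2.1, by
        show ((x.2 : F) • (rp x.1).1) (((x.2⁻¹ : Fˣ) : F) • (rp x.1).2) = 0
        rw [LinearMap.smul_apply, map_smul, (hrp x.1).1, smul_zero, smul_zero]⟩
  apply Nat.card_congr (Equiv.ofBijective Θ ⟨?_, ?_⟩)
  · rintro ⟨t, c⟩ ⟨t', c'⟩ hxy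
    have h1 : (c : F) • (rp t).1 = (c' : F) • (rp t').1 :=
      congrArg (fun p : {p : Dual F V0 × V0 // p.1 ≠ 0 ∧ p.2 ≠ 0 ∧ p.1 p.2 = 0} => p.1.1) hxy
    have h2 : ((c⁻¹ : Fˣ) : F) • (rp t).2 = ((c'⁻¹ : Fˣ) : F) • (rp t').2 :=
      congrArg (fun p : {p : Dual F V0 × V0 // p.1 ≠ 0 ∧ p.2 ≠ 0 ∧ p.1 p.2 = 0} => p.1.2) hxy
    have ht : t = t' := by
      apply Subtype.ext
      rw [(hrp t).2.2.2, (hrp t').2.2.2, ← md_tv_scale c, ← md_tv_scale c' (rp t').1, h1, h2]
    subst ht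
    have hc : c = c' := by
      apply Units.ext
      obtain ⟨x1, hx1⟩ : ∃ x, (rp t).1 x ≠ 0 := by
        by_contra hc; push Not at hc; exact (hrp t).2.1 (LinearMap.ext hc)
      have h3 := congrArg (fun φ : Dual F V0 => φ x1) h1
      simp only [LinearMap.smul_apply, smul_eq_mul] at h3
      exact mul_right_cancel₀ hx1 h3
    rw [hc]
  · rintro ⟨⟨f, a⟩, hf, ha, hfa⟩
    have hf' : f ≠ 0 := hf
    have ha' : a ≠ 0 := ha
    have hfa' : f a = 0 := hfa
    let t : {t : SpecialLinearGroup F V0 // ∃ (f : Dual F V0) (a : V0),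
        f a = 0 ∧ f ≠ 0 ∧ a ≠ 0 ∧ t = tv f a} := ⟨tv f a, f, a, hfa', hf', ha', rfl⟩
    obtain ⟨c, hc1, hc2⟩ := md_tv_eq_tv hfa' hf' ha' (hrp t).1 (hrp t).2.2.1 (hrp t).2.2.2
    refine ⟨(t, c), ?_⟩
    apply Subtype.ext
    show ((c : F) • (rp t).1, ((c⁻¹ : Fˣ) : F) • (rp t).2) = (f, a)
    rw [← hc1, ← hc2]

/-- PIECE MSCLASS with the conjugacy of transvections (MSCONJ) as a hypothesis. -/
theorem tv_class_card_aux {f : Dual F V0} {a : V0} (h : f a = 0)
    (hf : f ≠ 0) (ha : a ≠ 0)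
    (hconj : ∀ (f' : Dual F V0) (a' : V0), f' a' = 0 → f' ≠ 0 → a' ≠ 0 →
      ∃ g : SpecialLinearGroup F V0, g * tv f a * g⁻¹ = tv f' a') :
    (Subgroup.centralizer ({tv f a} : Set (SpecialLinearGroup F V0))).index =
      (Nat.card F ^ finrank F V0 - 1) * (Nat.card F ^ (finrank F V0 - 1) - 1) / (Nat.card F - 1) := by
  classical
  have hq : Nat.card F - 1 ≠ 0 := by
    have := Finite.one_lt_card (α := F)
    omega
  apply Nat.eq_div_of_mul_eq_left hq
  rw [← md_card_tv, Subgroup.index_eq_card]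
  congr 1
  have hmemT : ∀ g : SpecialLinearGroup F V0, ∃ (f' : Dual F V0) (a' : V0),
      f' a' = 0 ∧ f' ≠ 0 ∧ a' ≠ 0 ∧ g * tv f a * g⁻¹ = tv f' a' := by
    intro g
    refine ⟨cg g f, g a, ?_, ?_, ?_, tv_conj g f a⟩
    · rw [cg_apply_apply]; exact h
    · rw [Ne, cg_eq_zero_iff]; exact hf
    · rw [Ne, sl_map_eq_zero_iff]; exact ha
  let Ψ : SpecialLinearGroup F V0 ⧸
        Subgroup.centralizer ({tv f a} : Set (SpecialLinearGroup F V0)) →
      {t : SpecialLinearGroup F V0 // ∃ (f : Dual F V0) (a : V0),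
        f a = 0 ∧ f ≠ 0 ∧ a ≠ 0 ∧ t = tv f a} := fun x =>
    Quotient.liftOn' x (fun g => ⟨g * tv f a * g⁻¹, hmemT g⟩) (by
      intro g g' hgg'
      rw [QuotientGroup.leftRel_apply] at hgg'
      apply Subtype.ext
      have hc := Subgroup.mem_centralizer_iff.mp hgg' (tv f a) (Set.mem_singleton _)
      show g * tv f a * g⁻¹ = g' * tv f a * g'⁻¹
      calc g * tv f a * g⁻¹ = g * (tv f a * (g⁻¹ * g')) * g'⁻¹ := by group
        _ = g * ((g⁻¹ * g') * tv f a) * g'⁻¹ := by rw [hc]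
        _ = g' * tv f a * g'⁻¹ := by group)
  apply Nat.card_congr (Equiv.ofBijective Ψ ⟨?_, ?_⟩)
  · intro x y hxy
    induction x using Quotient.inductionOn' with
    | h g =>
      induction y using Quotient.inductionOn' with
      | h g' =>
        apply Quotient.sound'
        rw [QuotientGroup.leftRel_apply]
        have h1 : g * tv f a * g⁻¹ = g' * tv f a * g'⁻¹ := congrArg Subtype.val hxy
        rw [Subgroup.mem_centralizer_iff]
        intro z hz
        rw [Set.mem_singleton_iff] at hz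
        subst hz
        calc tv f a * (g⁻¹ * g') = g⁻¹ * (g * tv f a * g⁻¹) * g' := by group
          _ = g⁻¹ * (g' * tv f a * g'⁻¹) * g' := by rw [h1]
          _ = g⁻¹ * g' * tv f a := by group
  · rintro ⟨t, f', a', h', hf', ha', rfl⟩
    obtain ⟨g, hg⟩ := hconj f' a' h' hf' ha'
    exact ⟨Quotient.mk'' g, Subtype.ext hg⟩

theorem tv_class_card (hn : 3 ≤ finrank F V0) {f : Dual F V0} {a : V0} (h : f a = 0)
    (hf : f ≠ 0) (ha : a ≠ 0) :
    (Subgroup.centralizer ({tv f a} : Set (SpecialLinearGroup F V0))).index =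
      (Nat.card F ^ finrank F V0 - 1) * (Nat.card F ^ (finrank F V0 - 1) - 1) / (Nat.card F - 1) :=
  tv_class_card_aux h hf ha (fun _ _ h' hf' ha' => Helper20.tv_conj_all hn h h' hf ha hf' ha')

end

end Cfsg.Agent.Helper67
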