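import Mathlib
import Cfsg.Agent.Helper90.MDDefs
import Cfsg.Agent.Helper3.Induced
import Cfsg.Agent.Helper79.Basic
import Cfsg.Agent.Helper80.CharEigen
import Cfsg.Agent.Helper80.LinChar

/-!
# CALL S2332, PIECE S1 (helper67): `step_one`

A representation whose character is constant `τ` on `A ∖ {1}` (`A` abelian, acting
non-trivially) has dimension `a + m (|A| - 1)` and `τ = a - m` with `m ≥ 1`.
-/

set_option autoImplicit false

namespace Cfsg.Agent.Helper67

open Cfsg.Agent.Helper90.MD
open scoped ComplexConjugate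

theorem step_one {G : Type*} [Group G] {V : Type*} [AddCommGroup V] [Module ℂ V]
    [Finite G] [FiniteDimensional ℂ V] (ρ : Representation ℂ G V) (A : Subgroup G)
    (hA : ∀ x ∈ A, ∀ y ∈ A, x * y = y * x) (τ : ℂ)
    (hτ : ∀ x ∈ A, x ≠ 1 → ρ.character x = τ) (hnt : ∃ x ∈ A, ρ x ≠ 1) :
    ∃ a m : ℕ, 1 ≤ m ∧
      (Module.finrank ℂ V : ℂ) = (a : ℂ) + (m : ℂ) * ((Nat.card A : ℂ) - 1) ∧
      τ = (a : ℂ) - (m : ℂ) := by
  classical
  let _i1 : Fintype A := Fintype.ofFinite _
  have hcardne : (Nat.card A : ℂ) ≠ 0 := by exact_mod_cast Nat.card_pos.ne'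
  have hψ : Cfsg.IsCharacter A (fun x : A => ρ.character (x : G)) :=
    Helper79.isCharacter_restrict (Helper79.isCharacter_of_rep ρ) A
  have hd : ρ.character 1 = (Module.finrank ℂ V : ℂ) := Representation.char_one ρ
  -- a nontrivial linear character of `A`
  obtain ⟨x0, hx0A, hx0⟩ := hnt
  have hx01 : x0 ≠ 1 := by
    rintro rfl
    exact hx0 (map_one ρ)
  have hcomm : commutator A = ⊥ := by
    rw [commutator_def, Subgroup.commutator_eq_bot_iff_le_centralizer]
    intro x _
    rw [Subgroup.mem_centralizer_iff]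
    intro y _
    exact Subtype.ext (hA y y.2 x x.2)
  have hx0c : (⟨x0, hx0A⟩ : A) ∉ commutator A := by
    rw [hcomm, Subgroup.mem_bot]
    intro h
    exact hx01 (congrArg Subtype.val h)
  obtain ⟨f, hf⟩ := Helper79.exists_hom_apply_ne_one hx0c
  have hf1 : (1 : A →* ℂˣ) ≠ f := by
    rintro rfl
    exact hf rfl
  have hfsum : ∑ x : A, conj ((f x : ℂˣ) : ℂ) = 0 := by
    have h := Helper80.hom_orthogonality (1 : A →* ℂˣ) f
    rw [if_neg hf1] at h
    simpa using h
  have hfchar : Cfsg.IsCharacter A (fun x : A => ((f x : ℂˣ) : ℂ)) :=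
    Helper79.isCharacter_of_irr (Helper79.isIrrCharacter_of_hom f)
  -- the two multiplicities
  obtain ⟨a, ha⟩ := Helper3.classInner_isCharacter_nat hψ
    (Helper79.isCharacter_one (G := A))
  obtain ⟨m, hm⟩ := Helper3.classInner_isCharacter_nat hψ hfchar
  unfold Cfsg.classInner at ha hm
  -- splitting sums at `1`
  have hsplit : ∀ F : A → ℂ, ∑ x : A, ρ.character (x : G) * F x
      = (Module.finrank ℂ V : ℂ) * F 1 + τ * (∑ x : A, F x - F 1) := by
    intro F
    rw [← Finset.add_sum_erase Finset.univ _ (Finset.mem_univ (1 : A)),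
      ← Finset.add_sum_erase Finset.univ F (Finset.mem_univ (1 : A))]
    have h1 : ∑ x ∈ Finset.univ.erase (1 : A), ρ.character (x : G) * F x
        = ∑ x ∈ Finset.univ.erase (1 : A), τ * F x := by
      refine Finset.sum_congr rfl fun x hx => ?_
      have hx1 : (x : G) ≠ 1 := by
        intro h
        exact (Finset.ne_of_mem_erase hx) (Subtype.ext h)
      rw [hτ x x.2 hx1]
    rw [h1, ← Finset.mul_sum]
    have h2 : ρ.character ((1 : A) : G) = (Module.finrank ℂ V : ℂ) := hd
    rw [h2]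
    ring
  have hcardsum : ∑ _x : A, (1 : ℂ) = (Nat.card A : ℂ) := by
    rw [Finset.sum_const, Finset.card_univ, nsmul_eq_mul, mul_one, Nat.card_eq_fintype_card]
  have ha' : (Nat.card A : ℂ) * (a : ℂ)
      = (Module.finrank ℂ V : ℂ) + τ * ((Nat.card A : ℂ) - 1) := by
    have h1 := hsplit (fun _ => conj (1 : ℂ))
    simp only [map_one, mul_one] at h1 ha
    rw [hcardsum] at h1
    rw [← h1, ← ha, ← mul_assoc, mul_inv_cancel₀ hcardne, one_mul]
  have hm' : (Nat.card A : ℂ) * (m : ℂ) = (Module.finrank ℂ V : ℂ) - τ := by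
    have h1 := hsplit (fun x => conj ((f x : ℂˣ) : ℂ))
    rw [hfsum] at h1
    simp only [map_one, Units.val_one, mul_one] at h1
    rw [← hm, ← mul_assoc, mul_inv_cancel₀ hcardne, one_mul, h1]
    ring
  have hτeq : τ = (a : ℂ) - (m : ℂ) := by
    apply mul_left_cancel₀ hcardne
    rw [mul_sub, ha', hm']
    ring
  refine ⟨a, m, ?_, ?_, hτeq⟩
  · -- `m ≥ 1`
    by_contra hm0
    have hm0' : m = 0 := by omega
    rw [hm0'] at hm'
    have hdτ : τ = (Module.finrank ℂ V : ℂ) := by
      have : (Module.finrank ℂ V : ℂ) - τ = 0 := by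
        rw [← hm']; simp
      linear_combination -this
    apply hx0
    apply Helper80.rep_eq_one_of_char_eq
    rw [hτ x0 hx0A hx01, hdτ]
  · rw [hτeq] at hm'
    linear_combination -hm'

end Cfsg.Agent.Helper67
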