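import Mathlib
import Cfsg.Agent.Helper90.MDSLDefs
import Cfsg.Agent.Helper60.SLFisher
import Cfsg.Agent.Helper20.MDMSCARD
import Cfsg.Agent.Helper20.MDMSCONJ
import Cfsg.Agent.Helper42.MDAR2
import Cfsg.Agent.Helper42.MDINT
import Cfsg.Agent.Helper67.MDS1
import Cfsg.Agent.Helper67.MDMSLIN
import Cfsg.Agent.Helper67.MDMSCLASS

/-!
# CALL S2332, PIECE ASM1 (helper67): `asm_common`
-/

set_option autoImplicit false
set_option linter.unusedSectionVars false

namespace Cfsg.Agent.Helper67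

open Module Cfsg.Agent.Helper90.MD Cfsg.Agent.Helper60.MinIdx

section
variable {F V0 : Type*} [Field F] [Finite F] [AddCommGroup V0] [Module F V0] [Module.Finite F V0]
variable {W : Type*} [AddCommGroup W] [Module ℂ W] [FiniteDimensional ℂ W]

theorem asm_common (hn : 3 ≤ finrank F V0) (ρ : Representation ℂ (SpecialLinearGroup F V0) W)
    (hirr : ρ.IsIrreducible) (hnt : ∃ g, ρ g ≠ 1) :
    (Nat.card F ^ finrank F V0 - Nat.card F) / (Nat.card F - 1) ≤ finrank ℂ W ∨
    ∃ a : ℕ, finrank ℂ W = a + Nat.card F ^ (finrank F V0 - 1) - 1 ∧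
      (∀ (f : Dual F V0) (c : V0), f c = 0 → f ≠ 0 → c ≠ 0 →
        ρ.character (tv f c) = (a : ℂ) - 1) ∧
      ((a + Nat.card F ^ (finrank F V0 - 1) - 1 : ℕ) : ℤ) ∣
        (((Nat.card F ^ finrank F V0 - 1) * (Nat.card F ^ (finrank F V0 - 1) - 1) /
          (Nat.card F - 1) : ℕ) : ℤ) * ((a : ℤ) - 1) := by
  classical
  have hV0 : Finite V0 := Module.finite_of_finite F
  obtain ⟨φ, ψ, b, hli, hφb, hψb, hb⟩ := exists_cov2 (F := F) (V0 := V0) hn
  have hφ : φ ≠ 0 := by
    have h0 := hli.ne_zero 0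
    simpa using h0
  have hq : 2 ≤ Nat.card F := Finite.one_lt_card
  have hQ : 1 ≤ Nat.card F ^ (finrank F V0 - 1) := Nat.one_le_pow _ _ (by omega)
  -- all nontrivial transvections have the same character value
  have hchar : ∀ (f : Dual F V0) (c : V0), f c = 0 → f ≠ 0 → c ≠ 0 →
      ρ.character (tv f c) = ρ.character (tv φ b) := by
    intro f c hfc hf hc
    obtain ⟨g, hg⟩ := Helper20.tv_conj_all hn hφb hfc hφ hb hf hc
    rw [← hg, Representation.char_conj]
  have hτA : ∀ x ∈ Qsub φ, x ≠ 1 → ρ.character x = ρ.character (tv φ b) := by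
    rintro x ⟨c, hc, rfl⟩ hx1
    have hc0 : c ≠ 0 := by
      rintro rfl
      exact hx1 (tv_zero_right φ)
    exact hchar φ c hc hφ hc0
  have hntA : ∃ x ∈ Qsub φ, ρ x ≠ 1 := by
    by_contra hcon
    push Not at hcon
    have hker : tv φ b ∈ (ρ : SpecialLinearGroup F V0 →* (W →ₗ[ℂ] W)).ker :=
      MonoidHom.mem_ker.mpr (hcon _ ⟨b, hφb, rfl⟩)
    have htop := Helper20.normal_tv_top hn _ hφb hφ hb hker
    obtain ⟨g, hg⟩ := hnt
    apply hg
    have hgk : g ∈ (ρ : SpecialLinearGroup F V0 →* (W →ₗ[ℂ] W)).ker := by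
      rw [htop]; exact Subgroup.mem_top g
    exact MonoidHom.mem_ker.mp hgk
  obtain ⟨a, m, hm1, hdeg, hτ⟩ :=
    step_one ρ (Qsub φ) (Helper20.qsub_comm φ) _ hτA hntA
  rw [Helper20.qsub_card hφ] at hdeg
  have hdegN : finrank ℂ W = a + m * (Nat.card F ^ (finrank F V0 - 1) - 1) := by
    have h1 : ((finrank ℂ W : ℕ) : ℂ)
        = ((a + m * (Nat.card F ^ (finrank F V0 - 1) - 1) : ℕ) : ℂ) := by
      rw [hdeg]
      push_cast [Nat.cast_sub hQ]
      ring
    exact_mod_cast h1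
  by_cases hm2 : 2 ≤ m
  · left
    have h1 := Helper42.arith_two (Nat.card F) (finrank F V0) hq (by omega)
    calc (Nat.card F ^ finrank F V0 - Nat.card F) / (Nat.card F - 1)
        ≤ 2 * (Nat.card F ^ (finrank F V0 - 1) - 1) := h1
      _ ≤ m * (Nat.card F ^ (finrank F V0 - 1) - 1) := Nat.mul_le_mul_right _ hm2
      _ ≤ finrank ℂ W := by rw [hdegN]; exact Nat.le_add_left _ _
  · right
    have hm : m = 1 := by omega
    subst hm
    have hd : finrank ℂ W = a + Nat.card F ^ (finrank F V0 - 1) - 1 := by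
      rw [hdegN]; omega
    have hτ' : ρ.character (tv φ b) = (a : ℂ) - 1 := by
      rw [hτ]; norm_num
    refine ⟨a, hd, fun f c hfc hf hc => (hchar f c hfc hf hc).trans hτ', ?_⟩
    have := hirr
    have hT := tv_class_card hn hφb hφ hb
    have h1 := Helper42.int_dvd ρ (tv φ b) _ hT ((a : ℤ) - 1) (by rw [hτ']; push_cast; ring)
    rw [hd] at h1
    exact h1

end

end Cfsg.Agent.Helper67
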