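import Cfsg.Agent.S0999
import Cfsg.Agent.Helper5.DkMin

/-!
# CALL S0983 part E, piece EA: a prime divisor `p` with `p ^ 3 > |G|`
-/

set_option autoImplicit false

namespace Cfsg.Agent.Helper67

variable {G : Type*} [Group G] [Finite G] [IsSimpleGroup G]

/-- piece EA (`Cfsg.Agent.S0999.result` and `Cfsg.Agent.Helper5.card_PSL2_mul_gcd`). -/
theorem eng_big_prime (hG : ¬ IsMulCommutative G) (p : ℕ) (hp : p.Prime)
    (hdvd : p ∣ Nat.card G) (hbig : Nat.card G < p ^ 3)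
    (h1 : 2 * Nat.card G ≠ p * (p ^ 2 - 1))
    (h2 : Nat.card G ≠ (p - 1) * ((p - 1) ^ 2 - 1)) : False := by
  have hcyc : ¬ IsCyclic G := fun hc => hG (@IsCyclic.isMulCommutative G _ hc)
  rcases Cfsg.Agent.S0999.result hcyc p hp hdvd hbig with
    ⟨F, iF, iF', hF, h3, ⟨e⟩⟩ | ⟨m, F, iF, iF', hF, hpm, h3, ⟨e⟩⟩
  · have hc := Cfsg.Agent.Helper5.card_PSL2_mul_gcd (F := F)
    rw [← Nat.card_congr e.toEquiv, hF] at hc
    have hodd : Odd p := by
      rcases hp.eq_two_or_odd' with h | h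
      · omega
      · exact h
    obtain ⟨k, hk⟩ := hodd
    have hg : Nat.gcd 2 (p - 1) = 2 := Nat.gcd_eq_left ⟨k, by omega⟩
    rw [hg] at hc
    apply h1
    rw [← hc, mul_comm]
  · have hc := Cfsg.Agent.Helper5.card_PSL2_mul_gcd (F := F)
    rw [← Nat.card_congr e.toEquiv, hF] at hc
    have hm : m ≠ 0 := by
      rintro rfl
      rw [pow_zero] at hpm
      omega
    obtain ⟨n, rfl⟩ : ∃ n, m = n + 1 := ⟨m - 1, by omega⟩
    have hodd : Odd (2 ^ (n + 1) - 1) := by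
      refine ⟨2 ^ n - 1, ?_⟩
      have : 0 < 2 ^ n := Nat.pow_pos (by norm_num)
      rw [pow_succ]
      omega
    have hg : Nat.gcd 2 (2 ^ (n + 1) - 1) = 1 := Nat.coprime_two_left.mpr hodd
    rw [hg, mul_one] at hc
    apply h2
    have hp1 : p - 1 = 2 ^ (n + 1) := by omega
    rw [hp1, hc]

end Cfsg.Agent.Helper67
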