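import Cfsg.Agent.Helper67.PiSep
import Cfsg.Agent.Helper3.Burnside2

set_option autoImplicit false

namespace Cfsg.Agent.Helper67

universe u

/-- every `p`-regular element has a centralizer of `p`-power index. -/
def PReg (p : ℕ) (G : Type*) [Group G] : Prop :=
  ∀ x : G, (orderOf x).Coprime p → ∃ k : ℕ, (Subgroup.centralizer ({x} : Set G)).index = p ^ k

/-- for `N` normal, `|N : N ∩ C|` divides `|G : C|`. -/
theorem relIndex_dvd_index_of_normal_right {G : Type*} [Group G] [Finite G] (C N : Subgroup G)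
    [N.Normal] : C.relIndex N ∣ C.index := by
  obtain ⟨k, hk⟩ := Subgroup.relIndex_dvd_index_of_normal (H := N) (K := C)
  have h1 : Nat.card (N ⊓ C : Subgroup G) * N.relIndex C = Nat.card C := by
    have := Subgroup.relIndex_mul_relIndex (H := ⊥) (K := N ⊓ C) (L := C) bot_le inf_le_right
    rwa [Subgroup.relIndex_bot_left, Subgroup.relIndex_bot_left, Subgroup.inf_relIndex_right]
      at this
  have h2 : Nat.card (C ⊓ N : Subgroup G) * C.relIndex N = Nat.card N := by
    have := Subgroup.relIndex_mul_relIndex (H := ⊥) (K := C ⊓ N) (L := N) bot_le inf_le_right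
    rwa [Subgroup.relIndex_bot_left, Subgroup.relIndex_bot_left, Subgroup.inf_relIndex_right]
      at this
  have h3 : N.index * Nat.card N = Nat.card G := N.index_mul_card
  have h4 : C.index * Nat.card C = Nat.card G := C.index_mul_card
  refine ⟨k, ?_⟩
  have hpos : 0 < Nat.card C := Nat.card_pos
  have e : C.index * Nat.card C = C.relIndex N * k * Nat.card C := by
    rw [h4, ← h3, hk, ← h2, ← h1, inf_comm]
    ring
  exact Nat.eq_of_mul_eq_mul_right hpos e

/-- a `p'`-element of a quotient lifts to a `p'`-element. -/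
theorem exists_lift_coprime {G H : Type*} [Group G] [Finite G] [Group H] (f : G →* H)
    (hf : Function.Surjective f) {p : ℕ} (hp : p.Prime) (y : H) (hy : (orderOf y).Coprime p) :
    ∃ x : G, (orderOf x).Coprime p ∧ f x = y := by
  obtain ⟨g₀, rfl⟩ := hf y
  obtain ⟨a, m, hm, ham⟩ := Nat.exists_eq_pow_mul_and_not_dvd (orderOf_pos g₀).ne' p hp.ne_one
  have hcop : (p ^ a).Coprime (orderOf (f g₀)) := (Nat.Coprime.pow_right a hy).symm
  obtain ⟨j, hj⟩ := exists_pow_eq_self_of_coprime hcop
  refine ⟨(g₀ ^ p ^ a) ^ j, ?_, ?_⟩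
  · have h1 : orderOf ((g₀ ^ p ^ a) ^ j) ∣ m := by
      apply orderOf_dvd_of_pow_eq_one
      have e : p ^ a * (j * m) = orderOf g₀ * j := by rw [ham]; ring
      rw [← pow_mul, ← pow_mul, e, pow_mul, pow_orderOf_eq_one, one_pow]
    exact Nat.Coprime.coprime_dvd_left h1 ((Nat.Prime.coprime_iff_not_dvd hp).mpr hm).symm
  · rw [map_pow, map_pow, hj]

/-- `PReg` passes to quotients. -/
theorem PReg.quotient {p : ℕ} (hp : p.Prime) {G : Type*} [Group G] [Finite G] (h : PReg p G)
    (N : Subgroup G) [N.Normal] : PReg p (G ⧸ N) := by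
  intro y hy
  obtain ⟨x, hx, rfl⟩ := exists_lift_coprime (QuotientGroup.mk' N) (QuotientGroup.mk'_surjective N)
    hp y hy
  obtain ⟨k, hk⟩ := h x hx
  have h1 : (Subgroup.centralizer ({x} : Set G)).map (QuotientGroup.mk' N) ≤
      Subgroup.centralizer ({QuotientGroup.mk' N x} : Set (G ⧸ N)) := by
    rintro _ ⟨c, hc, rfl⟩
    have hc' : c * x = x * c := Subgroup.mem_centralizer_singleton_iff.mp hc
    rw [Subgroup.mem_centralizer_singleton_iff, ← map_mul, ← map_mul, hc']
  have h2 : (Subgroup.centralizer ({QuotientGroup.mk' N x} : Set (G ⧸ N))).index ∣ p ^ k := by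
    rw [← hk]
    exact (Subgroup.index_dvd_of_le h1).trans
      (Subgroup.index_map_dvd _ (QuotientGroup.mk'_surjective N))
  obtain ⟨j, -, hj⟩ := (Nat.dvd_prime_pow hp).mp h2
  exact ⟨j, hj⟩

/-- `PReg` passes to normal subgroups. -/
theorem PReg.normal {p : ℕ} (hp : p.Prime) {G : Type*} [Group G] [Finite G] (h : PReg p G)
    (N : Subgroup G) [N.Normal] : PReg p N := by
  intro x hx
  rw [← Subgroup.orderOf_coe] at hx
  obtain ⟨k, hk⟩ := h x hx
  have h1 : Subgroup.centralizer ({x} : Set N) =
      (Subgroup.centralizer ({(x : G)} : Set G)).subgroupOf N := by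
    ext c
    rw [Subgroup.mem_subgroupOf, Subgroup.mem_centralizer_singleton_iff,
      Subgroup.mem_centralizer_singleton_iff]
    constructor
    · intro hc
      have := congrArg Subtype.val hc
      simpa using this
    · intro hc
      exact Subtype.ext (by simpa using hc)
  have h2 : (Subgroup.centralizer ({x} : Set N)).index ∣ p ^ k := by
    rw [h1, ← hk]
    exact relIndex_dvd_index_of_normal_right _ N
  obtain ⟨j, -, hj⟩ := (Nat.dvd_prime_pow hp).mp h2
  exact ⟨j, hj⟩

/-- under `PReg`, every `p'`-element centralizes every normal `p'`-subgroup. -/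
theorem PReg.centralizes {p : ℕ} (hp : p.Prime) {G : Type*} [Group G] [Finite G] (h : PReg p G)
    (F : Subgroup G) [F.Normal] (hF : ¬ p ∣ Nat.card F) (y : G) (hy : (orderOf y).Coprime p) :
    ∀ f ∈ F, y * f = f * y := by
  obtain ⟨k, hk⟩ := h y hy
  have h1 : (Subgroup.centralizer ({y} : Set G)).relIndex F ∣ p ^ k := by
    rw [← hk]; exact relIndex_dvd_index_of_normal_right _ F
  have h2 : (Subgroup.centralizer ({y} : Set G)).relIndex F ∣ Nat.card F :=
    Subgroup.relIndex_dvd_card _ _
  have hcop : (p ^ k).Coprime (Nat.card F) :=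
    Nat.Coprime.pow_left k ((Nat.Prime.coprime_iff_not_dvd hp).mpr hF)
  have h3 : (Subgroup.centralizer ({y} : Set G)).relIndex F = 1 :=
    Nat.eq_one_of_dvd_coprimes hcop h1 h2
  intro f hf
  have := Subgroup.relIndex_eq_one.mp h3 hf
  exact (Subgroup.mem_centralizer_singleton_iff.mp this).symm

/-- there is a largest normal subgroup whose order satisfies a property closed under divisors of
products. -/
theorem exists_largest_normal {G : Type*} [Group G] [Finite G] (Q : ℕ → Prop) (h1 : Q 1)
    (hQ : ∀ a b c : ℕ, Q a → Q b → c ∣ a * b → Q c) :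
    ∃ F : Subgroup G, F.Normal ∧ Q (Nat.card F) ∧
      ∀ M : Subgroup G, M.Normal → Q (Nat.card M) → M ≤ F := by
  have hne : Nonempty {F : Subgroup G // F.Normal ∧ Q (Nat.card F)} :=
    ⟨⟨⊥, Subgroup.normal_bot, by rw [Subgroup.card_bot]; exact h1⟩⟩
  obtain ⟨⟨F, hFn, hFQ⟩, hmax⟩ := Finite.exists_max
    (fun F : {F : Subgroup G // F.Normal ∧ Q (Nat.card F)} => Nat.card F.1)
  refine ⟨F, hFn, hFQ, fun M hMn hMQ => ?_⟩
  have hsupn : (F ⊔ M).Normal := Subgroup.sup_normal F M
  have hsupQ : Q (Nat.card (F ⊔ M : Subgroup G)) :=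
    hQ _ _ _ hFQ hMQ (card_sup_dvd_of_normal F M)
  have hle := hmax ⟨F ⊔ M, hsupn, hsupQ⟩
  have heq : F = F ⊔ M := Subgroup.eq_of_le_of_card_ge le_sup_left hle
  rw [heq]; exact le_sup_right

/-- the largest normal subgroup with a given property of the order is characteristic. -/
theorem largest_normal_char {G : Type*} [Group G] [Finite G] (Q : ℕ → Prop) (F : Subgroup G)
    (hFn : F.Normal) (hFQ : Q (Nat.card F))
    (hF : ∀ M : Subgroup G, M.Normal → Q (Nat.card M) → M ≤ F) (φ : G ≃* G) :
    ∀ x ∈ F, φ x ∈ F := by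
  intro x hx
  have hn : (F.map φ.toMonoidHom).Normal := Subgroup.Normal.map hFn φ.toMonoidHom φ.surjective
  have hc : Nat.card (F.map φ.toMonoidHom) = Nat.card F :=
    Subgroup.card_map_of_injective φ.injective
  exact hF _ hn (by rw [hc]; exact hFQ) ⟨x, hx, rfl⟩

theorem qpow_closed {p : ℕ} (hp : p.Prime) : ∀ a b c : ℕ, (∃ k : ℕ, a = p ^ k) →
    (∃ k : ℕ, b = p ^ k) → c ∣ a * b → ∃ k : ℕ, c = p ^ k := by
  rintro a b c ⟨i, rfl⟩ ⟨j, rfl⟩ hc
  rw [← pow_add] at hc
  obtain ⟨l, -, hl⟩ := (Nat.dvd_prime_pow hp).mp hc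
  exact ⟨l, hl⟩

theorem qcop_closed {p : ℕ} (hp : p.Prime) : ∀ a b c : ℕ, ¬ p ∣ a → ¬ p ∣ b → c ∣ a * b →
    ¬ p ∣ c := by
  intro a b c ha hb hc hpc
  rcases (hp.dvd_mul).mp (hpc.trans hc) with h | h
  · exact ha h
  · exact hb h

/-- a nontrivial finite group with `PReg` has a nontrivial normal `p`-subgroup or a nontrivial
normal `p'`-subgroup (uses Burnside's prime-power class lemma). -/
theorem PReg.exists_normal_aux {p : ℕ} (hp : p.Prime) (n : ℕ) :
    ∀ (G : Type u) [Group G] [Finite G], Nat.card G = n → Nontrivial G → PReg p G →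
      ∃ M : Subgroup G, M.Normal ∧ M ≠ ⊥ ∧
        ((∃ k : ℕ, Nat.card M = p ^ k) ∨ ¬ p ∣ Nat.card M) := by
  induction n using Nat.strong_induction_on with
  | _ n ih =>
    intro G _ _ hn hnt h
    by_cases hs : ∀ N : Subgroup G, N.Normal → N = ⊥ ∨ N = ⊤
    · have hsimple : IsSimpleGroup G :=
        { toNontrivial := hnt, eq_bot_or_eq_top_of_normal := hs }
      refine ⟨⊤, Subgroup.normal_top, top_ne_bot, ?_⟩
      rw [Subgroup.card_top]
      by_cases hpg : ∃ k : ℕ, Nat.card G = p ^ k
      · exact Or.inl hpg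
      · right
        have hr : ∃ r : ℕ, r.Prime ∧ r ∣ Nat.card G ∧ r ≠ p := by
          by_contra hcon
          push Not at hcon
          exact hpg ⟨_, Nat.eq_prime_pow_of_unique_prime_dvd Nat.card_pos.ne'
            (fun {d} hd hdn => hcon d hd hdn)⟩
        obtain ⟨r, hr, hrd, hrp⟩ := hr
        have : Fact r.Prime := ⟨hr⟩
        obtain ⟨x, hx⟩ := exists_prime_orderOf_dvd_card' r hrd
        have hx1 : x ≠ 1 := by
          intro h1; rw [h1, orderOf_one] at hx; exact hr.ne_one hx.symm
        have hcop : (orderOf x).Coprime p := by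
          rw [hx]; exact (Nat.coprime_primes hr hp).mpr hrp
        obtain ⟨k, hk⟩ := h x hcop
        have hprime := Helper3.prime_card_of_prime_pow_class p k hp x hx1 hk
        intro hpd
        have : p = Nat.card G := (Nat.prime_dvd_prime_iff_eq hp hprime).mp hpd
        exact hpg ⟨1, by rw [pow_one]; exact this.symm⟩
    · push Not at hs
      obtain ⟨N, hNn, hNbot, hNtop⟩ := hs
      have hNnt : Nontrivial N := (Subgroup.nontrivial_iff_ne_bot N).mpr hNbot
      have hlt : Nat.card N < n := by rw [← hn]; exact card_lt_of_ne_top N hNtop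
      obtain ⟨M₀, hM₀n, hM₀bot, hM₀Q⟩ := ih (Nat.card N) hlt N rfl hNnt (h.normal hp N)
      have key : ∀ Q : ℕ → Prop, Q 1 → (∀ a b c : ℕ, Q a → Q b → c ∣ a * b → Q c) →
          Q (Nat.card M₀) → ∃ M : Subgroup G, M.Normal ∧ M ≠ ⊥ ∧ Q (Nat.card M) := by
        intro Q hQ1 hQ hQM₀
        obtain ⟨M₁, hM₁n, hM₁Q, hM₁max⟩ := exists_largest_normal (G := N) Q hQ1 hQ
        have hle : M₀ ≤ M₁ := hM₁max M₀ hM₀n hQM₀
        refine ⟨M₁.map N.subtype, ?_, ?_, ?_⟩
        · refine ⟨fun x hx g => ?_⟩
          obtain ⟨m, hm, rfl⟩ := hx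
          have := largest_normal_char Q M₁ hM₁n hM₁Q hM₁max (MulAut.conjNormal g) m hm
          exact ⟨_, this, by simp [MulAut.conjNormal_apply]⟩
        · intro hbot
          rw [Subgroup.map_eq_bot_iff_of_injective _ (Subgroup.subtype_injective N)] at hbot
          rw [hbot] at hle
          exact hM₀bot (le_bot_iff.mp hle)
        · rw [Subgroup.card_map_of_injective (Subgroup.subtype_injective N)]; exact hM₁Q
      rcases hM₀Q with hQ1 | hQ2
      · obtain ⟨M, hMn, hMbot, hMQ⟩ := key (fun m => ∃ k : ℕ, m = p ^ k) ⟨0, rfl⟩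
          (qpow_closed hp) hQ1
        exact ⟨M, hMn, hMbot, Or.inl hMQ⟩
      · obtain ⟨M, hMn, hMbot, hMQ⟩ := key (fun m => ¬ p ∣ m) (Nat.Prime.not_dvd_one hp)
          (qcop_closed hp) hQ2
        exact ⟨M, hMn, hMbot, Or.inr hMQ⟩

/-- structure of groups with `PReg`: all `p'`-elements lie in a normal subgroup `K` having a
normal Sylow `p`-subgroup `L`. -/
theorem PReg.structure_aux {p : ℕ} (hp : p.Prime) (n : ℕ) :
    ∀ (G : Type u) [Group G] [Finite G], Nat.card G = n → PReg p G →
      ∃ L K : Subgroup G, L.Normal ∧ K.Normal ∧ L ≤ K ∧ IsPGroup p L ∧ ¬ p ∣ L.relIndex K ∧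
        ∀ x : G, (orderOf x).Coprime p → x ∈ K := by
  induction n using Nat.strong_induction_on with
  | _ n ih =>
    intro G _ _ hn h
    have : Fact p.Prime := ⟨hp⟩
    have pull : ∀ (O : Subgroup G) [O.Normal], O ≠ ⊥ →
        ∃ L' K' : Subgroup (G ⧸ O), L'.Normal ∧ K'.Normal ∧ L' ≤ K' ∧ IsPGroup p L' ∧
          ¬ p ∣ L'.relIndex K' ∧ ∀ x : G ⧸ O, (orderOf x).Coprime p → x ∈ K' := by
      intro O _ hO
      have hlt : Nat.card (G ⧸ O) < n := by
        rw [← hn, Subgroup.card_eq_card_quotient_mul_card_subgroup O]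
        have h1 : 1 < Nat.card O := by
          rcases Nat.lt_or_ge 1 (Nat.card O) with h | h
          · exact h
          · exact absurd (Subgroup.card_eq_one.mp (le_antisymm h Nat.card_pos)) hO
        have h2 : 0 < Nat.card (G ⧸ O) := Nat.card_pos
        nlinarith
      exact ih _ hlt (G ⧸ O) rfl (h.quotient hp O)
    obtain ⟨O, hOn, hOQ, hOmax⟩ := exists_largest_normal (G := G)
      (fun m => ∃ k : ℕ, m = p ^ k) ⟨0, rfl⟩ (qpow_closed hp)
    by_cases hO : O = ⊥
    swap
    · obtain ⟨L', K', hL'n, hK'n, hLK', hL'p, hrel', hK'⟩ := pull O hO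
      refine ⟨L'.comap (QuotientGroup.mk' O), K'.comap (QuotientGroup.mk' O), hL'n.comap _,
        hK'n.comap _, Subgroup.comap_mono hLK', ?_, ?_, ?_⟩
      · apply hL'p.comap_of_ker_isPGroup
        rw [QuotientGroup.ker_mk']
        exact IsPGroup.iff_card.mpr hOQ
      · rw [Subgroup.relIndex_comap,
          Subgroup.map_comap_eq_self_of_surjective (QuotientGroup.mk'_surjective O)]
        exact hrel'
      · intro x hx
        rw [Subgroup.mem_comap]
        apply hK'
        exact Nat.Coprime.coprime_dvd_left (orderOf_map_dvd _ x) hx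
    have hnop : ∀ M : Subgroup G, M.Normal → (∃ k : ℕ, Nat.card M = p ^ k) → M = ⊥ := by
      intro M hMn hMQ
      have := hOmax M hMn hMQ
      rw [hO] at this
      exact le_bot_iff.mp this
    obtain ⟨F, hFn, hFQ, hFmax⟩ := exists_largest_normal (G := G) (fun m => ¬ p ∣ m)
      (Nat.Prime.not_dvd_one hp) (qcop_closed hp)
    by_cases hF : F = ⊥
    · have hsub : Subsingleton G := by
        by_contra hns
        rw [not_subsingleton_iff_nontrivial] at hns
        obtain ⟨M, hMn, hMbot, hMQ⟩ := PReg.exists_normal_aux hp n G hn hns h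
        rcases hMQ with hQ | hQ
        · exact hMbot (hnop M hMn hQ)
        · have := hFmax M hMn hQ
          rw [hF] at this
          exact hMbot (le_bot_iff.mp this)
      refine ⟨⊥, ⊥, Subgroup.normal_bot, Subgroup.normal_bot, le_refl _, IsPGroup.of_bot, ?_, ?_⟩
      · rw [Subgroup.relIndex_self]; exact Nat.Prime.not_dvd_one hp
      · intro x _; rw [Subsingleton.elim x 1]; exact Subgroup.one_mem _
    · obtain ⟨L', K', hL'n, hK'n, hLK', hL'p, hrel', hK'⟩ := pull F hF
      set f := QuotientGroup.mk' F with hf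
      have hfs : Function.Surjective f := QuotientGroup.mk'_surjective F
      set L := L'.comap f with hL
      set K := K'.comap f with hK
      have hLn : L.Normal := hL'n.comap _
      have hKn : K.Normal := hK'n.comap _
      have hLK : L ≤ K := Subgroup.comap_mono hLK'
      have hFL : F ≤ L := by
        intro x hx
        rw [hL, Subgroup.mem_comap]
        have : f x = 1 := (QuotientGroup.eq_one_iff x).mpr hx
        rw [this]
        exact L'.one_mem
      have hrel : ¬ p ∣ L.relIndex K := by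
        rw [hL, Subgroup.relIndex_comap, hK, Subgroup.map_comap_eq_self_of_surjective hfs]
        exact hrel'
      have hFLrel : ∃ j : ℕ, F.relIndex L = p ^ j := by
        have h1 : F.relIndex L = Nat.card (L.map f) := by
          have := Subgroup.relIndex_ker f (K := L)
          rwa [hf, QuotientGroup.ker_mk'] at this
        rw [h1, hL, Subgroup.map_comap_eq_self_of_surjective hfs]
        exact IsPGroup.iff_card.mp hL'p
      set C := Subgroup.centralizer (F : Set G) with hC
      have hCn : C.Normal := Subgroup.normal_centralizer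
      have hyC : ∀ y : G, (orderOf y).Coprime p → y ∈ C := by
        intro y hy
        rw [hC, Subgroup.mem_centralizer_iff]
        intro f' hf'
        exact (h.centralizes hp F hFQ y hy f' hf').symm
      have hFC : F ≤ C := by
        intro x hx
        apply hyC
        have := orderOf_dvd_natCard (⟨x, hx⟩ : F)
        rw [Subgroup.orderOf_mk] at this
        exact Nat.Coprime.coprime_dvd_left this ((Nat.Prime.coprime_iff_not_dvd hp).mpr hFQ).symm
      -- the `p`-elements of `C ⊓ L` are trivial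
      have hpel : ∀ x ∈ C ⊓ L, PiElt ({p} : Set ℕ) x → x = 1 := by
        set X := C ⊓ L with hX
        have hFX : F ≤ X := le_inf hFC hFL
        have hXn : X.Normal := Subgroup.normal_inf_normal C L
        have hNn : (F.subgroupOf X).Normal := inferInstance
        have hN1 : ∀ r : ℕ, r.Prime → r ∣ Nat.card (F.subgroupOf X) → r ∉ ({p} : Set ℕ) := by
          intro r hr hrd hrp
          rw [Set.mem_singleton_iff] at hrp
          rw [card_subgroupOf_of_le hFX, hrp] at hrd
          exact hFQ hrd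
        have hN2 : ∀ r : ℕ, r.Prime → r ∣ (F.subgroupOf X).relIndex ⊤ → r ∈ ({p} : Set ℕ) := by
          intro r hr hrd
          rw [Subgroup.relIndex_top_right] at hrd
          have h1 : F.relIndex X ∣ F.relIndex L :=
            ⟨_, (Subgroup.relIndex_mul_relIndex F X L hFX inf_le_right).symm⟩
          obtain ⟨j, hj⟩ := hFLrel
          have h2 : r ∣ p ^ j := by rw [← hj]; exact hrd.trans h1
          exact (Nat.prime_dvd_prime_iff_eq hr hp).mp (hr.dvd_of_dvd_pow h2)
        have hN3 : ∀ x : X, PiElt ({p} : Set ℕ) x → ∀ n ∈ F.subgroupOf X, x * n = n * x := by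
          intro x _ n hn
          have hxC : (x : G) ∈ C := x.2.1
          have := Subgroup.mem_centralizer_iff.mp hxC (n : G) (Subgroup.mem_subgroupOf.mp hn)
          exact Subtype.ext (by simpa using this.symm)
        obtain ⟨B, hB⟩ := exists_piElt_subgroup ({p} : Set ℕ) (F.subgroupOf X) ⊤ le_top hN1 hN2 hN3
        have hB₁mem : ∀ x : G, x ∈ B.map X.subtype ↔ x ∈ X ∧ PiElt ({p} : Set ℕ) x := by
          intro x
          constructor
          · rintro ⟨b, hb, rfl⟩
            refine ⟨b.2, ?_⟩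
            have := ((hB b).mp hb).2
            intro r hr hrd
            rw [Subgroup.coe_subtype, Subgroup.orderOf_coe] at hrd
            exact this r hr hrd
          · rintro ⟨hxX, hxπ⟩
            refine ⟨⟨x, hxX⟩, (hB _).mpr ⟨Subgroup.mem_top _, ?_⟩, rfl⟩
            intro r hr hrd
            rw [Subgroup.orderOf_mk] at hrd
            exact hxπ r hr hrd
        have hB₁n : (B.map X.subtype).Normal := by
          refine ⟨fun x hx g => ?_⟩
          rw [hB₁mem] at hx ⊢
          exact ⟨hXn.conj_mem x hx.1 g, hx.2.conj g⟩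
        have hB₁p : IsPGroup p (B.map X.subtype) := by
          intro x
          have hπ := ((hB₁mem x.1).mp x.2).2
          have : orderOf (x : G) = p ^ (orderOf (x : G)).primeFactorsList.length :=
            Nat.eq_prime_pow_of_unique_prime_dvd (orderOf_pos (x : G)).ne'
              (fun {d} hd hdn => hπ d hd hdn)
          refine ⟨(orderOf (x : G)).primeFactorsList.length, Subtype.ext ?_⟩
          rw [Subgroup.coe_pow, ← this, pow_orderOf_eq_one]; rfl
        have hB₁bot : B.map X.subtype = ⊥ := hnop _ hB₁n (IsPGroup.iff_card.mp hB₁p)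
        intro x hx hxπ
        have : x ∈ B.map X.subtype := (hB₁mem x).mpr ⟨hx, hxπ⟩
        rw [hB₁bot] at this
        exact Subgroup.mem_bot.mp this
      have hCK : ¬ p ∣ Nat.card (C ⊓ K : Subgroup G) := by
        intro hpd
        obtain ⟨y, hy⟩ := exists_prime_orderOf_dvd_card' p hpd
        have hy1 : (y : G) ^ p ^ 1 = 1 := by
          rw [pow_one, ← hy, ← Subgroup.orderOf_coe, pow_orderOf_eq_one]
        have hyCK := Subgroup.mem_inf.mp y.2
        have hyL : (y : G) ∈ L := by
          apply mem_of_coprime_pow_mem L (y : G) (a := L.relIndex K) (b := p ^ 1)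
          · exact Nat.Coprime.pow_right 1 ((Nat.Prime.coprime_iff_not_dvd hp).mpr hrel).symm
          · exact Subgroup.pow_relIndex_mem L hyCK.2
          · rw [hy1]; exact L.one_mem
        have h1 := hpel (y : G) ⟨hyCK.1, hyL⟩ (piElt_of_prime_pow hp rfl hy1)
        rw [← Subgroup.orderOf_coe, h1, orderOf_one] at hy
        exact hp.ne_one hy.symm
      have hCKF : C ⊓ K ≤ F := hFmax _ (Subgroup.normal_inf_normal C K) hCK
      refine ⟨⊥, F, Subgroup.normal_bot, hFn, bot_le, IsPGroup.of_bot, ?_, ?_⟩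
      · rw [Subgroup.relIndex_bot_left]; exact hFQ
      · intro x hx
        apply hCKF
        have hxK : x ∈ K := by
          rw [hK, Subgroup.mem_comap]
          exact hK' _ (Nat.Coprime.coprime_dvd_left (orderOf_map_dvd _ x) hx)
        exact Subgroup.mem_inf.mpr ⟨hyC x hx, hxK⟩

/-- **Forward direction**: a finite group with `PReg` has an abelian `p`-complement. -/
theorem PReg.exists_abelian_compl {p : ℕ} (hp : p.Prime) {G : Type u} [Group G] [Finite G]
    (h : PReg p G) :
    ∃ H : Subgroup G, IsMulCommutative H ∧ ¬ p ∣ Nat.card H ∧ ∃ k : ℕ, H.index = p ^ k := by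
  have : Fact p.Prime := ⟨hp⟩
  obtain ⟨L, K, hLn, hKn, hLK, hLp, hrel, hK⟩ := PReg.structure_aux hp (Nat.card G) G rfl h
  set L' := L.subgroupOf K with hL'
  have hL'n : L'.Normal := inferInstance
  obtain ⟨a, ha⟩ := IsPGroup.iff_card.mp hLp
  have hcop : (Nat.card L').Coprime L'.index := by
    rw [hL', card_subgroupOf_of_le hLK, ha]
    exact Nat.Coprime.pow_left a ((Nat.Prime.coprime_iff_not_dvd hp).mpr hrel)
  obtain ⟨H', hH'⟩ := Subgroup.exists_right_complement'_of_coprime hcop
  set H := H'.map K.subtype with hH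
  have hHK : H ≤ K := Subgroup.map_subtype_le _
  have hHcard : Nat.card H = L.relIndex K := by
    rw [hH, Subgroup.card_map_of_injective (Subgroup.subtype_injective K),
      ← hH'.symm.index_eq_card]
    rfl
  have hHp : ¬ p ∣ Nat.card H := by rw [hHcard]; exact hrel
  refine ⟨H, ?_, hHp, ?_⟩
  · have hQ := h.quotient hp L
    have hFn : (K.map (QuotientGroup.mk' L)).Normal :=
      Subgroup.Normal.map hKn _ (QuotientGroup.mk'_surjective L)
    have hFcard : ¬ p ∣ Nat.card (K.map (QuotientGroup.mk' L)) := by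
      have := Subgroup.relIndex_ker (QuotientGroup.mk' L) (K := K)
      rw [QuotientGroup.ker_mk'] at this
      rw [← this]; exact hrel
    have hHL : H ⊓ L = ⊥ := (Subgroup.disjoint_of_coprime_natCard (by
      rw [ha]
      exact Nat.Coprime.pow_right a ((Nat.Prime.coprime_iff_not_dvd hp).mpr hHp).symm)).eq_bot
    refine ⟨⟨fun x y => ?_⟩⟩
    apply Subtype.ext
    have hxo : (orderOf (QuotientGroup.mk' L (x : G))).Coprime p := by
      have h1 : orderOf (QuotientGroup.mk' L (x : G)) ∣ Nat.card H := by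
        refine (orderOf_map_dvd _ _).trans ?_
        have := orderOf_dvd_natCard x
        rwa [← Subgroup.orderOf_coe] at this
      exact Nat.Coprime.coprime_dvd_left h1 ((Nat.Prime.coprime_iff_not_dvd hp).mpr hHp).symm
    have hcomm := hQ.centralizes hp _ hFcard _ hxo (QuotientGroup.mk' L (y : G))
      ⟨y, hHK y.2, rfl⟩
    have hmem : ((y : G) * (x : G))⁻¹ * ((x : G) * (y : G)) ∈ L := by
      rw [← QuotientGroup.eq_one_iff]
      have e : ((((y : G) * (x : G))⁻¹ * ((x : G) * (y : G)) : G) : G ⧸ L) =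
          (QuotientGroup.mk' L (y : G) * QuotientGroup.mk' L (x : G))⁻¹ *
            (QuotientGroup.mk' L (x : G) * QuotientGroup.mk' L (y : G)) := rfl
      rw [e, hcomm, inv_mul_cancel]
    have hmemH : ((y : G) * (x : G))⁻¹ * ((x : G) * (y : G)) ∈ H :=
      H.mul_mem (H.inv_mem (H.mul_mem y.2 x.2)) (H.mul_mem x.2 y.2)
    have h1 : ((y : G) * (x : G))⁻¹ * ((x : G) * (y : G)) = 1 := by
      have : ((y : G) * (x : G))⁻¹ * ((x : G) * (y : G)) ∈ H ⊓ L := ⟨hmemH, hmem⟩
      rw [hHL] at this; exact Subgroup.mem_bot.mp this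
    rw [Subgroup.coe_mul, Subgroup.coe_mul]
    exact (inv_mul_eq_one.mp h1).symm
  · have hGK : IsPGroup p (G ⧸ K) := by
      intro y
      obtain ⟨g, rfl⟩ := QuotientGroup.mk_surjective y
      obtain ⟨a', m, hm, ham⟩ :=
        Nat.exists_eq_pow_mul_and_not_dvd (orderOf_pos g).ne' p hp.ne_one
      refine ⟨a', ?_⟩
      rw [← QuotientGroup.mk_pow, QuotientGroup.eq_one_iff]
      apply hK
      have h1 : orderOf (g ^ p ^ a') ∣ m := by
        apply orderOf_dvd_of_pow_eq_one
        rw [← pow_mul, ← ham, pow_orderOf_eq_one]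
      exact Nat.Coprime.coprime_dvd_left h1 ((Nat.Prime.coprime_iff_not_dvd hp).mpr hm).symm
    obtain ⟨b, hb⟩ := IsPGroup.iff_card.mp hGK
    have hKidx : K.index = p ^ b := by rw [Subgroup.index_eq_card]; exact hb
    have hHrel : H.relIndex K = p ^ a := by
      have h1 : H.subgroupOf K = H' :=
        Subgroup.comap_map_eq_self_of_injective (Subgroup.subtype_injective K) H'
      unfold Subgroup.relIndex
      rw [h1, hH'.index_eq_card, ← ha]
      exact card_subgroupOf_of_le hLK
    refine ⟨a + b, ?_⟩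
    rw [← Subgroup.relIndex_mul_index hHK, hHrel, hKidx, pow_add]

/-- an `r`-element is conjugate into any subgroup of index prime to `r`. -/
theorem exists_conj_mem_of_prime_pow {G : Type*} [Group G] [Finite G] {r : ℕ} (hr : r.Prime)
    (H : Subgroup G) (hH : ¬ r ∣ H.index) (y : G) (e : ℕ) (hy : y ^ r ^ e = 1) :
    ∃ g : G, g⁻¹ * y * g ∈ H := by
  have : Fact r.Prime := ⟨hr⟩
  have hZ : IsPGroup r (Subgroup.zpowers y) := isPGroup_zpowers_of_pow_eq_one hr hy
  have hcard : ¬ r ∣ Nat.card (G ⧸ H) := by rwa [← Subgroup.index_eq_card]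
  obtain ⟨q, hq⟩ := hZ.nonempty_fixed_point_of_prime_not_dvd_card (G ⧸ H) hcard
  obtain ⟨g, rfl⟩ := QuotientGroup.mk_surjective q
  refine ⟨g, ?_⟩
  have h1 := hq ⟨y, Subgroup.mem_zpowers y⟩
  have h2 : ((y * g : G) : G ⧸ H) = (g : G ⧸ H) := h1
  have h3 := QuotientGroup.eq.mp h2
  have : g⁻¹ * y * g = ((y * g)⁻¹ * g)⁻¹ := by group
  rw [this]; exact H.inv_mem h3

/-- **Backward direction**, key lemma: if `H` is an abelian subgroup of `p`-power index, every
`p'`-element is conjugate into `H`. -/
theorem exists_conj_mem_of_abelian_compl_aux {p : ℕ} (hp : p.Prime) (n : ℕ) :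
    ∀ (G : Type u) [Group G] [Finite G], Nat.card G = n → ∀ H : Subgroup G,
      (∀ a ∈ H, ∀ b ∈ H, a * b = b * a) → (∃ k : ℕ, H.index = p ^ k) →
      ∀ x : G, (orderOf x).Coprime p → ∃ g : G, g⁻¹ * x * g ∈ H := by
  induction n using Nat.strong_induction_on with
  | _ n ih =>
    intro G _ _ hn H hab hidx x hx
    by_cases hx1 : x = 1
    · exact ⟨1, by rw [hx1]; simp⟩
    have hox : orderOf x ≠ 1 := by rwa [Ne, orderOf_eq_one_iff]
    obtain ⟨r, hr, hrd⟩ := Nat.exists_prime_and_dvd hox
    have hrp : r ≠ p := by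
      rintro rfl
      exact hr.ne_one (Nat.Coprime.eq_one_of_dvd hx.symm hrd)
    set y := x ^ (orderOf x / r) with hy
    have hyo : orderOf y = r := orderOf_pow_orderOf_div (orderOf_pos x).ne' hrd
    have hy1 : y ≠ 1 := by
      intro h; rw [h, orderOf_one] at hyo; exact hr.ne_one hyo.symm
    have hyr : y ^ r ^ 1 = 1 := by rw [pow_one, ← hyo, pow_orderOf_eq_one]
    obtain ⟨k, hk⟩ := hidx
    have hrH : ¬ r ∣ H.index := by
      rw [hk]; intro h
      exact hrp ((Nat.prime_dvd_prime_iff_eq hr hp).mp (hr.dvd_of_dvd_pow h))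
    obtain ⟨g₀, hg₀⟩ := exists_conj_mem_of_prime_pow hr H hrH y 1 hyr
    set x' := g₀⁻¹ * x * g₀ with hx'
    set y' := g₀⁻¹ * y * g₀ with hy'
    have hx'o : (orderOf x').Coprime p := by
      have h1 : SemiconjBy g₀⁻¹ x x' := by
        unfold SemiconjBy; rw [hx']; group
      rw [← h1.orderOf_eq]; exact hx
    have hxy : x * y = y * x := by
      rw [hy, ← pow_succ', ← pow_succ]
    have hxy' : x' * y' = y' * x' := by
      have e1 : x' * y' = g₀⁻¹ * (x * y) * g₀ := by rw [hx', hy']; group
      have e2 : y' * x' = g₀⁻¹ * (y * x) * g₀ := by rw [hx', hy']; group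
      rw [e1, e2, hxy]
    have hy'1 : y' ≠ 1 := by
      intro h
      apply hy1
      have : y = g₀ * y' * g₀⁻¹ := by rw [hy']; group
      rw [this, h]; group
    suffices hsuff : ∃ g, g⁻¹ * x' * g ∈ H by
      obtain ⟨g, hg⟩ := hsuff
      refine ⟨g₀ * g, ?_⟩
      have : (g₀ * g)⁻¹ * x * (g₀ * g) = g⁻¹ * x' * g := by rw [hx']; group
      rw [this]; exact hg
    set C := Subgroup.centralizer ({y'} : Set G) with hC
    have hHC : H ≤ C := fun a ha => Subgroup.mem_centralizer_singleton_iff.mpr (hab a ha y' hg₀)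
    have hx'C : x' ∈ C := Subgroup.mem_centralizer_singleton_iff.mpr hxy'
    by_cases hCtop : C = ⊤
    · set Y := Subgroup.zpowers y' with hY
      have hYn : Y.Normal := by
        refine ⟨fun z hz g => ?_⟩
        have hg : g ∈ C := by rw [hCtop]; trivial
        obtain ⟨i, rfl⟩ := Subgroup.mem_zpowers_iff.mp hz
        have hc : Commute g y' := Subgroup.mem_centralizer_singleton_iff.mp hg
        rw [(hc.zpow_right i).eq, mul_inv_cancel_right]
        exact Subgroup.zpow_mem_zpowers y' i
      have hYH : Y ≤ H := by rw [hY, Subgroup.zpowers_le]; exact hg₀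
      have hYbot : Y ≠ ⊥ := by
        intro h; apply hy'1
        have : y' ∈ Y := Subgroup.mem_zpowers y'
        rw [h] at this; exact Subgroup.mem_bot.mp this
      have hlt : Nat.card (G ⧸ Y) < n := by
        rw [← hn, Subgroup.card_eq_card_quotient_mul_card_subgroup Y]
        have h1 : 1 < Nat.card Y := by
          rcases Nat.lt_or_ge 1 (Nat.card Y) with h | h
          · exact h
          · exact absurd (Subgroup.card_eq_one.mp (le_antisymm h Nat.card_pos)) hYbot
        have h2 : 0 < Nat.card (G ⧸ Y) := Nat.card_pos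
        nlinarith
      have key := ih _ hlt (G ⧸ Y) rfl (H.map (QuotientGroup.mk' Y)) (by
          rintro _ ⟨a, ha, rfl⟩ _ ⟨b, hb, rfl⟩
          rw [← map_mul, ← map_mul, hab a ha b hb]) ⟨k, by
          rw [Subgroup.index_map_eq _ (QuotientGroup.mk'_surjective Y)
            (by rw [QuotientGroup.ker_mk']; exact hYH), hk]⟩ (QuotientGroup.mk' Y x')
          (Nat.Coprime.coprime_dvd_left (orderOf_map_dvd _ _) hx'o)
      obtain ⟨q, hq⟩ := key
      obtain ⟨g, rfl⟩ := QuotientGroup.mk'_surjective Y q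
      refine ⟨g, ?_⟩
      have : QuotientGroup.mk' Y (g⁻¹ * x' * g) ∈ H.map (QuotientGroup.mk' Y) := by
        simpa using hq
      exact (mk_mem_map_iff Y H hYH _).mp this
    · have hlt : Nat.card C < n := by rw [← hn]; exact card_lt_of_ne_top C hCtop
      have key := ih _ hlt C rfl (H.subgroupOf C) (by
          intro a ha b hb
          exact Subtype.ext (hab a (Subgroup.mem_subgroupOf.mp ha) b (Subgroup.mem_subgroupOf.mp hb)))
          (by
            have h1 : (H.subgroupOf C).index ∣ p ^ k := by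
              rw [← hk]; exact Subgroup.relIndex_dvd_index_of_le hHC
            obtain ⟨j, -, hj⟩ := (Nat.dvd_prime_pow hp).mp h1
            exact ⟨j, hj⟩) ⟨x', hx'C⟩ (by rw [Subgroup.orderOf_mk]; exact hx'o)
      obtain ⟨c, hc⟩ := key
      refine ⟨c, ?_⟩
      have := Subgroup.mem_subgroupOf.mp hc
      simpa using this

end Cfsg.Agent.Helper67
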