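import Mathlib
import Cfsg.Agent.Helper67.S2788ODAux
import Cfsg.Agent.Helper19.S2788D
import Cfsg.Agent.Helper53.S2788MC

/-!
# CALL S2788, PIECE OD (helper67): the odd characteristic assembly, final form
-/

set_option autoImplicit false

namespace Cfsg.Agent.Helper67

open Cfsg.Agent Cfsg.Agent.Helper87

/-- PIECE OD (assembly, `p` odd; uses D, X, MC). -/
theorem s2788_odd {F : Type*} [Field F] [Fintype F] {p : ℕ} [Fact p.Prime] [CharP F p]
    (hp2 : p ≠ 2) (n : ℕ) (hF : Fintype.card F = p ^ n)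
    {M : Type*} [AddCommGroup M] [Finite M]
    [DistribMulAction (Matrix.SpecialLinearGroup (Fin 2) F) M]
    (hp : ∀ m : M, p • m = 0)
    (hfaith : ∀ g : Matrix.SpecialLinearGroup (Fin 2) F, (∀ m : M, g • m = m) → g = 1)
    (s : F) (hs : s ≠ 0)
    (hquad : ∀ m : M, Helper5.uSL s • (Helper5.uSL s • m - m) = Helper5.uSL s • m - m) :
    p ^ n * Nat.card {m : M // Helper5.uSL s • m = m} ≤ Nat.card M :=
  s2788_odd_aux hp2 n hp hfaith s
    (Helper19.s2788_decomp p ((Fact.out : p.Prime).odd_of_ne_two hp2) hp s hs hquad)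
    (fun hn => Helper53.s2788_minus_card hp2 n hn hF hp hfaith)

end Cfsg.Agent.Helper67
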