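import Mathlib
import Cfsg.Agent.Helper16.S3Core
import Cfsg.Prelude.Def_Transfer

/-!
# PIECE SU1 of CALL S3805 (helper16): structure of `N = N_G(T)`

`s3_gens`: generators and relations for the normalizer of an elementary abelian Sylow
3-subgroup `T` of order 9 with `C_G(T) = T` and `N_G(T)/T` a Klein four-group.
-/

set_option autoImplicit false

open Cfsg Cfsg.Agent.Helper16 DihedralGroup
open scoped ComplexConjugate

namespace Cfsg.Agent.Helper67

theorem s3su1_sq_cube {G : Type*} [Group G] (u : G) (h2 : u * u = 1) (h3 : u ^ 3 = 1) :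
    u = 1 := by
  have : u ^ 3 = u := by rw [pow_succ, pow_two, h2, one_mul]
  rw [← this, h3]

theorem s3su1_aux {G : Type*} [Group G] (A B C D : G) (h : B * C = A * D) :
    A⁻¹ * B = D * C⁻¹ := by
  calc A⁻¹ * B = A⁻¹ * (B * C) * C⁻¹ := by group
    _ = A⁻¹ * (A * D) * C⁻¹ := by rw [h]
    _ = D * C⁻¹ := by group

theorem s3su1_key {G : Type*} [Group G] (T : Subgroup G)
    (hTc : ∀ x ∈ T, ∀ y ∈ T, x * y = y * x) (hT3 : ∀ x ∈ T, x ^ 3 = 1)
    (hcard : Nat.card T = 9)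
    (a b : G) (haN : a ∈ Subgroup.normalizer (T : Set G))
    (hbN : b ∈ Subgroup.normalizer (T : Set G))
    (ha2 : a ^ 2 = 1) (hb2 : b ^ 2 = 1) (hab : a * b = b * a)
    (hca : ¬ ∀ x ∈ T, a * x * a⁻¹ = x) (hcb : ¬ ∀ x ∈ T, b * x * b⁻¹ = x)
    (hcab : ¬ ∀ x ∈ T, (a * b) * x * (a * b)⁻¹ = x)
    (hia : ¬ ∀ x ∈ T, a * x * a⁻¹ = x⁻¹) (hib : ¬ ∀ x ∈ T, b * x * b⁻¹ = x⁻¹)
    (hfour : ∀ x ∈ Subgroup.normalizer (T : Set G),
      x ∈ T ∨ x * a ∈ T ∨ x * b ∈ T ∨ x * (a * b) ∈ T) :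
    ∃ t₁ t₂ : G, S3Gens T (Subgroup.normalizer (T : Set G)) t₁ t₂ a b := by
  classical
  have hp3 : Fact (Nat.Prime 3) := ⟨by norm_num⟩
  have haa : a * a = 1 := by rw [← sq, ha2]
  have hbb : b * b = 1 := by rw [← sq, hb2]
  have hainv : a⁻¹ = a := by rw [inv_eq_iff_mul_eq_one, haa]
  have hbinv : b⁻¹ = b := by rw [inv_eq_iff_mul_eq_one, hbb]
  obtain ⟨σ, hσ⟩ : ∃ σ : MulAut G, σ = MulAut.conj a := ⟨_, rfl⟩
  obtain ⟨τ, hτ⟩ : ∃ τ : MulAut G, τ = MulAut.conj b := ⟨_, rfl⟩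
  have hσa : ∀ z, σ z = a * z * a⁻¹ := fun z => by rw [hσ, MulAut.conj_apply]
  have hτb : ∀ z, τ z = b * z * b⁻¹ := fun z => by rw [hτ, MulAut.conj_apply]
  have hσσ : ∀ z, σ (σ z) = z := by
    intro z
    rw [hσa, hσa, hainv]
    calc a * (a * z * a) * a = (a * a) * z * (a * a) := by group
      _ = z := by rw [haa, one_mul, mul_one]
  have hστ : ∀ z, σ (τ z) = τ (σ z) := by
    intro z
    rw [hσa, hτb, hτb, hσa]
    calc a * (b * z * b⁻¹) * a⁻¹ = (a * b) * z * (a * b)⁻¹ := by group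
      _ = (b * a) * z * (b * a)⁻¹ := by rw [hab]
      _ = b * (a * z * a⁻¹) * b⁻¹ := by group
  have hσT : ∀ z ∈ T, σ z ∈ T := by
    intro z hz
    rw [hσa]
    exact (Subgroup.mem_normalizer_iff.mp haN z).mp hz
  have hτT : ∀ z ∈ T, τ z ∈ T := by
    intro z hz
    rw [hτb]
    exact (Subgroup.mem_normalizer_iff.mp hbN z).mp hz
  have hca' : ∃ x ∈ T, σ x ≠ x := by
    by_contra hcon
    apply hca
    intro x hx
    by_contra h2
    exact hcon ⟨x, hx, by rw [hσa]; exact h2⟩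
  have hia' : ∃ y ∈ T, σ y ≠ y⁻¹ := by
    by_contra hcon
    apply hia
    intro x hx
    by_contra h2
    exact hcon ⟨x, hx, by rw [hσa]; exact h2⟩
  obtain ⟨x, hxT, hx⟩ := hca'
  obtain ⟨y, hyT, hy⟩ := hia'
  obtain ⟨t₁, ht₁⟩ : ∃ t : G, t = x * (σ x)⁻¹ := ⟨_, rfl⟩
  obtain ⟨t₂, ht₂⟩ : ∃ t : G, t = y * σ y := ⟨_, rfl⟩
  have ht₁T : t₁ ∈ T := by
    rw [ht₁]
    exact T.mul_mem hxT (T.inv_mem (hσT x hxT))
  have ht₂T : t₂ ∈ T := by
    rw [ht₂]
    exact T.mul_mem hyT (hσT y hyT)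
  have ht₁ne : t₁ ≠ 1 := by
    intro h
    apply hx
    rw [ht₁] at h
    exact (mul_inv_eq_one.mp h).symm
  have ht₂ne : t₂ ≠ 1 := by
    intro h
    apply hy
    rw [ht₂] at h
    exact eq_inv_of_mul_eq_one_right h
  have hσt₁ : σ t₁ = t₁⁻¹ := by
    rw [ht₁, map_mul, map_inv, hσσ, mul_inv_rev, inv_inv]
  have hσt₂ : σ t₂ = t₂ := by
    rw [ht₂, map_mul, hσσ]
    exact hTc _ (hσT y hyT) _ hyT
  have ht₁3 : t₁ ^ 3 = 1 := hT3 t₁ ht₁T
  have ht₂3 : t₂ ^ 3 = 1 := hT3 t₂ ht₂T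
  have ho₁ : orderOf t₁ = 3 := orderOf_eq_prime ht₁3 ht₁ne
  have ho₂ : orderOf t₂ = 3 := orderOf_eq_prime ht₂3 ht₂ne
  have htt : t₁ * t₂ = t₂ * t₁ := hTc t₁ ht₁T t₂ ht₂T
  have hσp₁ : ∀ i : ℕ, σ (t₁ ^ i) = (t₁ ^ i)⁻¹ := fun i => by rw [map_pow, hσt₁, inv_pow]
  have hσp₂ : ∀ j : ℕ, σ (t₂ ^ j) = t₂ ^ j := fun j => by rw [map_pow, hσt₂]
  have hp₁T : ∀ i : ℕ, t₁ ^ i ∈ T := fun i => T.pow_mem ht₁T i
  have hp₂T : ∀ j : ℕ, t₂ ^ j ∈ T := fun j => T.pow_mem ht₂T j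
  -- the parametrisation of `T`
  have hTfin : Finite T := Nat.finite_of_card_ne_zero (by rw [hcard]; norm_num)
  have hTft : Fintype T := Fintype.ofFinite T
  obtain ⟨f, hf⟩ : ∃ f : Fin 3 × Fin 3 → T, ∀ ij, (f ij : G) = t₁ ^ (ij.1 : ℕ) * t₂ ^ (ij.2 : ℕ) :=
    ⟨fun ij => ⟨t₁ ^ (ij.1 : ℕ) * t₂ ^ (ij.2 : ℕ), T.mul_mem (hp₁T _) (hp₂T _)⟩, fun _ => rfl⟩
  have hfinj : Function.Injective f := by
    rintro ⟨i, j⟩ ⟨i', j'⟩ h
    have h0 : t₁ ^ (i : ℕ) * t₂ ^ (j : ℕ) = t₁ ^ (i' : ℕ) * t₂ ^ (j' : ℕ) := by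
      have := congrArg Subtype.val h
      rw [hf, hf] at this
      exact this
    have hw := s3su1_aux _ _ _ _ h0
    have hwT : (t₁ ^ (i' : ℕ))⁻¹ * t₁ ^ (i : ℕ) ∈ T := T.mul_mem (T.inv_mem (hp₁T _)) (hp₁T _)
    have h1 : σ ((t₁ ^ (i' : ℕ))⁻¹ * t₁ ^ (i : ℕ)) = ((t₁ ^ (i' : ℕ))⁻¹ * t₁ ^ (i : ℕ))⁻¹ := by
      rw [map_mul, map_inv, hσp₁, hσp₁, inv_inv, mul_inv_rev, inv_inv]
      exact hTc _ (hp₁T _) _ (T.inv_mem (hp₁T _))
    have h2 : σ ((t₁ ^ (i' : ℕ))⁻¹ * t₁ ^ (i : ℕ)) = (t₁ ^ (i' : ℕ))⁻¹ * t₁ ^ (i : ℕ) := by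
      rw [hw, map_mul, map_inv, hσp₂, hσp₂]
    have h3 : (t₁ ^ (i' : ℕ))⁻¹ * t₁ ^ (i : ℕ) = 1 := by
      apply s3su1_sq_cube _ _ (hT3 _ hwT)
      have : ((t₁ ^ (i' : ℕ))⁻¹ * t₁ ^ (i : ℕ))⁻¹ = (t₁ ^ (i' : ℕ))⁻¹ * t₁ ^ (i : ℕ) := by
        rw [← h1, h2]
      exact inv_eq_iff_mul_eq_one.mp this
    have h4 : t₁ ^ (i' : ℕ) = t₁ ^ (i : ℕ) := inv_mul_eq_one.mp h3
    have h5 : t₂ ^ (j' : ℕ) = t₂ ^ (j : ℕ) := by
      rw [hw] at h3
      exact mul_inv_eq_one.mp h3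
    have h6 : (i : ℕ) = i' := by
      have := pow_inj_mod.mp h4
      rw [ho₁] at this
      have hi := i.2
      have hi' := i'.2
      omega
    have h7 : (j : ℕ) = j' := by
      have := pow_inj_mod.mp h5
      rw [ho₂] at this
      have hj := j.2
      have hj' := j'.2
      omega
    exact Prod.ext (Fin.ext h6) (Fin.ext h7)
  have hfbij : Function.Bijective f := by
    rw [Fintype.bijective_iff_injective_and_card]
    refine ⟨hfinj, ?_⟩
    rw [Fintype.card_prod, Fintype.card_fin, ← Nat.card_eq_fintype_card, hcard]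
  have hTrep : ∀ z ∈ T, ∃ i j : Fin 3, z = t₁ ^ (i : ℕ) * t₂ ^ (j : ℕ) := by
    intro z hz
    obtain ⟨⟨i, j⟩, hij⟩ := hfbij.2 ⟨z, hz⟩
    refine ⟨i, j, ?_⟩
    have := congrArg Subtype.val hij
    rw [hf] at this
    exact this.symm
  have hpow3 : ∀ (t : G), t ^ 3 = 1 → ∀ i : Fin 3, t ^ (i : ℕ) = 1 ∨ t ^ (i : ℕ) = t ∨
      t ^ (i : ℕ) = t⁻¹ := by
    intro t ht i
    have hi := i.2
    have : (i : ℕ) = 0 ∨ (i : ℕ) = 1 ∨ (i : ℕ) = 2 := by omega
    rcases this with h | h | h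
    · left
      rw [h, pow_zero]
    · right; left
      rw [h, pow_one]
    · right; right
      rw [h]
      exact eq_inv_of_mul_eq_one_left (by rw [← pow_succ]; exact ht)
  have hInvT : ∀ z ∈ T, σ z = z⁻¹ → z = 1 ∨ z = t₁ ∨ z = t₁⁻¹ := by
    intro z hz hσz
    obtain ⟨i, j, rfl⟩ := hTrep z hz
    rw [map_mul, hσp₁, hσp₂, mul_inv_rev,
      hTc _ (T.inv_mem (hp₂T _)) _ (T.inv_mem (hp₁T _))] at hσz
    have h1 : t₂ ^ (j : ℕ) = (t₂ ^ (j : ℕ))⁻¹ := mul_left_cancel hσz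
    have h2 : t₂ ^ (j : ℕ) = 1 :=
      s3su1_sq_cube _ (by rw [mul_eq_one_iff_eq_inv]; exact h1) (hT3 _ (hp₂T _))
    rw [h2, mul_one]
    exact hpow3 t₁ ht₁3 i
  have hCenT : ∀ z ∈ T, σ z = z → z = 1 ∨ z = t₂ ∨ z = t₂⁻¹ := by
    intro z hz hσz
    obtain ⟨i, j, rfl⟩ := hTrep z hz
    rw [map_mul, hσp₁, hσp₂] at hσz
    have h1 : (t₁ ^ (i : ℕ))⁻¹ = t₁ ^ (i : ℕ) := mul_right_cancel hσz
    have h2 : t₁ ^ (i : ℕ) = 1 :=
      s3su1_sq_cube _ (by rw [mul_eq_one_iff_eq_inv]; exact h1.symm) (hT3 _ (hp₁T _))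
    rw [h2, one_mul]
    exact hpow3 t₂ ht₂3 j
  -- the action of `b`
  have h1 : σ (τ t₁) = (τ t₁)⁻¹ := by rw [hστ, hσt₁, map_inv]
  have h2 : σ (τ t₂) = τ t₂ := by rw [hστ, hσt₂]
  have hτ1ne : τ t₁ ≠ 1 := fun h => ht₁ne ((map_eq_one_iff τ τ.injective).mp h)
  have hτ2ne : τ t₂ ≠ 1 := fun h => ht₂ne ((map_eq_one_iff τ τ.injective).mp h)
  have hb1 : τ t₁ = t₁ ∨ τ t₁ = t₁⁻¹ := by
    rcases hInvT _ (hτT t₁ ht₁T) h1 with h | h | h
    · exact absurd h hτ1ne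
    · exact Or.inl h
    · exact Or.inr h
  have hb2' : τ t₂ = t₂ ∨ τ t₂ = t₂⁻¹ := by
    rcases hCenT _ (hτT t₂ ht₂T) h2 with h | h | h
    · exact absurd h hτ2ne
    · exact Or.inl h
    · exact Or.inr h
  have hgoal : τ t₁ = t₁ ∧ τ t₂ = t₂⁻¹ := by
    rcases hb1 with hb1 | hb1 <;> rcases hb2' with hb2' | hb2'
    · exfalso
      apply hcb
      intro z hz
      obtain ⟨i, j, rfl⟩ := hTrep z hz
      rw [← hτb, map_mul, map_pow, map_pow, hb1, hb2']
    · exact ⟨hb1, hb2'⟩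
    · exfalso
      apply hcab
      intro z hz
      obtain ⟨i, j, rfl⟩ := hTrep z hz
      have : (a * b) * (t₁ ^ (i : ℕ) * t₂ ^ (j : ℕ)) * (a * b)⁻¹
          = σ (τ (t₁ ^ (i : ℕ) * t₂ ^ (j : ℕ))) := by
        rw [hσa, hτb]
        group
      rw [this, map_mul, map_pow, map_pow, hb1, hb2', map_mul, map_pow, map_pow, map_inv, hσt₁,
        inv_inv, hσt₂]
    · exfalso
      apply hib
      intro z hz
      obtain ⟨i, j, rfl⟩ := hTrep z hz
      rw [← hτb, map_mul, map_pow, map_pow, hb1, hb2', inv_pow, inv_pow, mul_inv_rev]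
      exact hTc _ (T.inv_mem (hp₁T _)) _ (T.inv_mem (hp₂T _))
  obtain ⟨hbt₁, hbt₂⟩ := hgoal
  have habsq : (a * b) * (a * b) = 1 := by
    calc (a * b) * (a * b) = a * (b * a) * b := by group
      _ = a * (a * b) * b := by rw [hab]
      _ = (a * a) * (b * b) := by group
      _ = 1 := by rw [haa, hbb, one_mul]
  refine ⟨t₁, t₂, ⟨ht₁3, ht₂3, ha2, hb2, htt, hab, ?_, ?_, ?_, ?_, ?_, ?_⟩⟩
  · rw [← hσa]
    exact hσt₁
  · have := hσt₂
    rw [hσa] at this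
    exact mul_inv_eq_iff_eq_mul.mp this
  · have := hbt₁
    rw [hτb] at this
    exact mul_inv_eq_iff_eq_mul.mp this
  · rw [← hτb]
    exact hbt₂
  · intro z
    constructor
    · intro hz
      obtain ⟨i, j, h⟩ := hTrep z hz
      exact ⟨(i : ℕ), (j : ℕ), h⟩
    · rintro ⟨i, j, rfl⟩
      exact T.mul_mem (hp₁T _) (hp₂T _)
  · intro z
    constructor
    · intro hz
      rcases hfour z hz with h | h | h | h
      · obtain ⟨i, j, h'⟩ := hTrep z h
        refine ⟨(i : ℕ), (j : ℕ), 0, 0, ?_⟩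
        rw [pow_zero, pow_zero, mul_one, mul_one]
        exact h'
      · obtain ⟨i, j, h'⟩ := hTrep _ h
        refine ⟨(i : ℕ), (j : ℕ), 1, 0, ?_⟩
        rw [pow_one, pow_zero, mul_one, ← h', mul_assoc, haa, mul_one]
      · obtain ⟨i, j, h'⟩ := hTrep _ h
        refine ⟨(i : ℕ), (j : ℕ), 0, 1, ?_⟩
        rw [pow_zero, mul_one, pow_one, ← h', mul_assoc, hbb, mul_one]
      · obtain ⟨i, j, h'⟩ := hTrep _ h
        refine ⟨(i : ℕ), (j : ℕ), 1, 1, ?_⟩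
        rw [pow_one, pow_one, ← h']
        calc z = z * ((a * b) * (a * b)) := by rw [habsq, mul_one]
          _ = z * (a * b) * a * b := by group
    · rintro ⟨i, j, k, l, rfl⟩
      exact Subgroup.mul_mem _ (Subgroup.mul_mem _ (Subgroup.mul_mem _
        (Subgroup.pow_mem _ (Subgroup.le_normalizer ht₁T) _)
        (Subgroup.pow_mem _ (Subgroup.le_normalizer ht₂T) _))
        (Subgroup.pow_mem _ haN _)) (Subgroup.pow_mem _ hbN _)

theorem s3su1_invols {G : Type*} [Group G] [Finite G] (T : Subgroup G)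
    (hT3 : ∀ x ∈ T, x ^ 3 = 1)
    [hn : (T.subgroupOf (Subgroup.normalizer (T : Set G))).Normal]
    (hK : IsKleinFour (↥(Subgroup.normalizer (T : Set G)) ⧸
      T.subgroupOf (Subgroup.normalizer (T : Set G)))) :
    ∃ a b : G, a ∈ Subgroup.normalizer (T : Set G) ∧ b ∈ Subgroup.normalizer (T : Set G) ∧
      a ^ 2 = 1 ∧ b ^ 2 = 1 ∧ a * b = b * a ∧ a ∉ T ∧ b ∉ T ∧ a * b ∉ T ∧
      ∀ x ∈ Subgroup.normalizer (T : Set G),
        x ∈ T ∨ x * a ∈ T ∨ x * b ∈ T ∨ x * (a * b) ∈ T := by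
  classical
  have := hK
  have hfinQ : Fintype (↥(Subgroup.normalizer (T : Set G)) ⧸
      T.subgroupOf (Subgroup.normalizer (T : Set G))) := Fintype.ofFinite _
  have hQ4 : Fintype.card (↥(Subgroup.normalizer (T : Set G)) ⧸
      T.subgroupOf (Subgroup.normalizer (T : Set G))) = 4 := by
    rw [← Nat.card_eq_fintype_card]
    exact hK.card_four
  have hsq : ∀ q : ↥(Subgroup.normalizer (T : Set G)) ⧸
      T.subgroupOf (Subgroup.normalizer (T : Set G)), q * q = 1 := fun q => IsKleinFour.mul_self q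
  have hmemT : ∀ n : ↥(Subgroup.normalizer (T : Set G)),
      ((QuotientGroup.mk n : ↥(Subgroup.normalizer (T : Set G)) ⧸
        T.subgroupOf (Subgroup.normalizer (T : Set G))) = 1) ↔ (n : G) ∈ T := by
    intro n
    rw [QuotientGroup.eq_one_iff]
    exact Subgroup.mem_subgroupOf
  have h6 : ∀ n : ↥(Subgroup.normalizer (T : Set G)), n ^ 6 = 1 := by
    intro n
    have h1 : ((n ^ 2 : ↥(Subgroup.normalizer (T : Set G))) : G) ∈ T := by
      rw [← hmemT, QuotientGroup.mk_pow, pow_two]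
      exact hsq _
    have h2 := hT3 _ h1
    apply Subtype.ext
    rw [Subgroup.coe_pow] at h2 ⊢
    rw [← pow_mul] at h2
    exact h2
  obtain ⟨q1, q2, q3, h12, h13, h23⟩ := Fintype.two_lt_card_iff.mp
    (by rw [hQ4]; norm_num : 2 < Fintype.card (↥(Subgroup.normalizer (T : Set G)) ⧸
      T.subgroupOf (Subgroup.normalizer (T : Set G))))
  obtain ⟨u, v, hu, hv, huv⟩ : ∃ u v : ↥(Subgroup.normalizer (T : Set G)) ⧸
      T.subgroupOf (Subgroup.normalizer (T : Set G)), u ≠ 1 ∧ v ≠ 1 ∧ u ≠ v := by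
    by_cases e1 : q1 = 1
    · refine ⟨q2, q3, ?_, ?_, h23⟩
      · intro h
        exact h12 (e1.trans h.symm)
      · intro h
        exact h13 (e1.trans h.symm)
    · by_cases e2 : q2 = 1
      · refine ⟨q1, q3, e1, ?_, h13⟩
        intro h
        exact h23 (e2.trans h.symm)
      · exact ⟨q1, q2, e1, e2, h12⟩
  obtain ⟨n₁, hn₁⟩ := QuotientGroup.mk_surjective u
  obtain ⟨n₂, hn₂⟩ := QuotientGroup.mk_surjective v
  obtain ⟨α, hα⟩ : ∃ α : ↥(Subgroup.normalizer (T : Set G)), α = n₁ ^ 3 := ⟨_, rfl⟩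
  obtain ⟨β₀, hβ₀⟩ : ∃ β₀ : ↥(Subgroup.normalizer (T : Set G)), β₀ = n₂ ^ 3 := ⟨_, rfl⟩
  obtain ⟨β, hβ⟩ : ∃ β : ↥(Subgroup.normalizer (T : Set G)), β = (α * β₀) ^ 3 := ⟨_, rfl⟩
  have hα2 : α ^ 2 = 1 := by
    rw [hα, ← pow_mul]
    exact h6 n₁
  have hβ₀2 : β₀ ^ 2 = 1 := by
    rw [hβ₀, ← pow_mul]
    exact h6 n₂
  have hβ2 : β ^ 2 = 1 := by
    rw [hβ, ← pow_mul]
    exact h6 _
  have hαinv : α⁻¹ = α := by rw [inv_eq_iff_mul_eq_one, ← sq, hα2]
  have hβ₀inv : β₀⁻¹ = β₀ := by rw [inv_eq_iff_mul_eq_one, ← sq, hβ₀2]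
  have hβinv : β⁻¹ = β := by rw [inv_eq_iff_mul_eq_one, ← sq, hβ2]
  have hcomm : α * β = β * α := by
    have h0 : α * (α * β₀) * α⁻¹ = β₀ * α := by
      calc α * (α * β₀) * α⁻¹ = (α * α) * (β₀ * α⁻¹) := by group
        _ = β₀ * α := by rw [← sq, hα2, one_mul, hαinv]
    have h1 : α * β * α⁻¹ = (β₀ * α) ^ 3 := by
      rw [hβ, ← conj_pow, h0]
    have h2 : β⁻¹ = (β₀ * α) ^ 3 := by
      rw [hβ, ← inv_pow, mul_inv_rev, hαinv, hβ₀inv]
    rw [← h2, hβinv] at h1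
    exact mul_inv_eq_iff_eq_mul.mp h1
  have hπα : (QuotientGroup.mk α : ↥(Subgroup.normalizer (T : Set G)) ⧸
      T.subgroupOf (Subgroup.normalizer (T : Set G))) = u := by
    rw [hα, QuotientGroup.mk_pow, hn₁, pow_succ, pow_two, hsq, one_mul]
  have hπβ₀ : (QuotientGroup.mk β₀ : ↥(Subgroup.normalizer (T : Set G)) ⧸
      T.subgroupOf (Subgroup.normalizer (T : Set G))) = v := by
    rw [hβ₀, QuotientGroup.mk_pow, hn₂, pow_succ, pow_two, hsq, one_mul]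
  have hπβ : (QuotientGroup.mk β : ↥(Subgroup.normalizer (T : Set G)) ⧸
      T.subgroupOf (Subgroup.normalizer (T : Set G))) = u * v := by
    rw [hβ, QuotientGroup.mk_pow, QuotientGroup.mk_mul, hπα, hπβ₀, pow_succ, pow_two, hsq,
      one_mul]
  have huv1 : u * v ≠ 1 := by
    intro h
    apply huv
    have : u = v⁻¹ := mul_eq_one_iff_eq_inv.mp h
    rw [this, IsKleinFour.inv_eq_self]
  refine ⟨(α : G), (β : G), α.2, β.2, ?_, ?_, ?_, ?_, ?_, ?_, ?_⟩
  · have := congrArg Subtype.val hα2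
    rw [Subgroup.coe_pow] at this
    exact this
  · have := congrArg Subtype.val hβ2
    rw [Subgroup.coe_pow] at this
    exact this
  · exact congrArg Subtype.val hcomm
  · rw [← hmemT, hπα]
    exact hu
  · rw [← hmemT, hπβ]
    exact huv1
  · intro h
    have h' := (hmemT (α * β)).mpr h
    rw [QuotientGroup.mk_mul, hπα, hπβ, ← mul_assoc, hsq, one_mul] at h'
    exact hv h'
  · intro x hx
    have hmem : (QuotientGroup.mk (⟨x, hx⟩ : ↥(Subgroup.normalizer (T : Set G))) :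
        ↥(Subgroup.normalizer (T : Set G)) ⧸ T.subgroupOf (Subgroup.normalizer (T : Set G)))
        ∈ (Finset.univ : Finset _) := Finset.mem_univ _
    rw [← IsKleinFour.eq_finset_univ hu hv huv] at hmem
    simp only [Finset.mem_insert, Finset.mem_singleton] at hmem
    rcases hmem with h | h | h | h
    · right; right; left
      have : (((⟨x, hx⟩ : ↥(Subgroup.normalizer (T : Set G))) * β :
          ↥(Subgroup.normalizer (T : Set G))) : G) ∈ T := by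
        rw [← hmemT, QuotientGroup.mk_mul, h, hπβ]
        exact hsq _
      exact this
    · right; left
      have : (((⟨x, hx⟩ : ↥(Subgroup.normalizer (T : Set G))) * α :
          ↥(Subgroup.normalizer (T : Set G))) : G) ∈ T := by
        rw [← hmemT, QuotientGroup.mk_mul, h, hπα]
        exact hsq _
      exact this
    · right; right; right
      have : (((⟨x, hx⟩ : ↥(Subgroup.normalizer (T : Set G))) * (α * β) :
          ↥(Subgroup.normalizer (T : Set G))) : G) ∈ T := by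
        rw [← hmemT, QuotientGroup.mk_mul, QuotientGroup.mk_mul, h, hπα, hπβ, ← mul_assoc u, hsq,
          one_mul]
        exact hsq _
      exact this
    · left
      exact (hmemT ⟨x, hx⟩).mp h

theorem s3_gens {G : Type*} [Group G] [Finite G] (T : Sylow 3 G) (hT : Cfsg.IsElementaryAbelian 3 (T : Subgroup G)) (hcard : Nat.card T = 9)
    (hC : Subgroup.centralizer ((T : Subgroup G) : Set G) = T)
    [hn : ((T : Subgroup G).subgroupOf (Subgroup.normalizer ((T : Subgroup G) : Set G))).Normal]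
    (hK : IsKleinFour (↥(Subgroup.normalizer ((T : Subgroup G) : Set G)) ⧸ (T : Subgroup G).subgroupOf (Subgroup.normalizer ((T : Subgroup G) : Set G)))) :
    ∃ t₁ t₂ a b : G, S3Gens (T : Subgroup G) (Subgroup.normalizer ((T : Subgroup G) : Set G)) t₁ t₂ a b := by
  classical
  have hTc : ∀ x ∈ (T : Subgroup G), ∀ y ∈ (T : Subgroup G), x * y = y * x := by
    intro x hx y hy
    have h := hT.1.is_comm.comm (⟨x, hx⟩ : (T : Subgroup G)) ⟨y, hy⟩
    exact congrArg Subtype.val h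
  have hT3 : ∀ x ∈ (T : Subgroup G), x ^ 3 = 1 := hT.2
  have hcard' : Nat.card (T : Subgroup G) = 9 := hcard
  obtain ⟨a, b, haN, hbN, ha2, hb2, hab, haT, hbT, habT, hfour⟩ :=
    s3su1_invols (T : Subgroup G) hT3 hK
  have hB : ∀ s : G, s ∉ (T : Subgroup G) → ¬ ∀ x ∈ (T : Subgroup G), s * x * s⁻¹ = x := by
    intro s hs hcen
    apply hs
    have h1 : s ∈ Subgroup.centralizer ((T : Subgroup G) : Set G) := by
      rw [Subgroup.mem_centralizer_iff]
      intro h hh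
      have := hcen h hh
      rw [mul_inv_eq_iff_eq_mul] at this
      exact this.symm
    rw [hC] at h1
    exact h1
  have hL : ∀ s s' : G, (∀ x ∈ (T : Subgroup G), s * x * s⁻¹ = x⁻¹) →
      (∀ x ∈ (T : Subgroup G), s' * x * s'⁻¹ = x⁻¹) →
      ∀ x ∈ (T : Subgroup G), (s * s') * x * (s * s')⁻¹ = x := by
    intro s s' h1 h2 x hx
    have : (s * s') * x * (s * s')⁻¹ = s * (s' * x * s'⁻¹) * s⁻¹ := by group
    rw [this, h2 x hx, h1 _ ((T : Subgroup G).inv_mem hx), inv_inv]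
  have haa : a * a = 1 := by rw [← sq, ha2]
  have hbb : b * b = 1 := by rw [← sq, hb2]
  have e1 : a * (a * b) = b := by rw [← mul_assoc, haa, one_mul]
  have e2 : b * (a * b) = a := by rw [hab, ← mul_assoc, hbb, one_mul]
  have habsq : (a * b) ^ 2 = 1 := by rw [sq, mul_assoc, e2, haa]
  by_cases hia : ∀ x ∈ (T : Subgroup G), a * x * a⁻¹ = x⁻¹
  · have hib : ¬ ∀ x ∈ (T : Subgroup G), b * x * b⁻¹ = x⁻¹ :=
      fun h => hB (a * b) habT (hL a b hia h)
    have hiab : ¬ ∀ x ∈ (T : Subgroup G), (a * b) * x * (a * b)⁻¹ = x⁻¹ := by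
      intro h
      have := hL a (a * b) hia h
      rw [e1] at this
      exact hB b hbT this
    obtain ⟨t₁, t₂, hg⟩ := s3su1_key (T : Subgroup G) hTc hT3 hcard' b (a * b) hbN
      (Subgroup.mul_mem _ haN hbN) hb2 habsq
      (by rw [e2, mul_assoc, hbb, mul_one])
      (hB b hbT) (hB (a * b) habT) (by rw [e2]; exact hB a haT) hib hiab
      (by
        intro x hx
        rcases hfour x hx with h | h | h | h
        · exact Or.inl h
        · right; right; right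
          rw [e2]
          exact h
        · right; left
          exact h
        · right; right; left
          exact h)
    exact ⟨t₁, t₂, b, a * b, hg⟩
  · by_cases hib : ∀ x ∈ (T : Subgroup G), b * x * b⁻¹ = x⁻¹
    · have hiab : ¬ ∀ x ∈ (T : Subgroup G), (a * b) * x * (a * b)⁻¹ = x⁻¹ := by
        intro h
        have := hL b (a * b) hib h
        rw [e2] at this
        exact hB a haT this
      obtain ⟨t₁, t₂, hg⟩ := s3su1_key (T : Subgroup G) hTc hT3 hcard' a (a * b) haN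
        (Subgroup.mul_mem _ haN hbN) ha2 habsq
        (by rw [e1, hab, mul_assoc, haa, mul_one])
        (hB a haT) (hB (a * b) habT) (by rw [e1]; exact hB b hbT) hia hiab
        (by
          intro x hx
          rcases hfour x hx with h | h | h | h
          · exact Or.inl h
          · right; left
            exact h
          · right; right; right
            rw [e1]
            exact h
          · right; right; left
            exact h)
      exact ⟨t₁, t₂, a, a * b, hg⟩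
    · obtain ⟨t₁, t₂, hg⟩ := s3su1_key (T : Subgroup G) hTc hT3 hcard' a b haN hbN ha2 hb2 hab
        (hB a haT) (hB b hbT) (hB (a * b) habT) hia hib hfour
      exact ⟨t₁, t₂, a, b, hg⟩

end Cfsg.Agent.Helper67
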