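import Mathlib
import Cfsg.Agent.Helper68.Subn
import Cfsg.Agent.Helper20.Basic

/-!
# Subnormalizers of `p`-subgroups (helper67)

`subnSet p H` is the set of `g` normalizing some `p`-subgroup containing `H`; for a `p`-subgroup
`H` of a finite group it is the set of `g` with `H` subnormal in `⟨H, g⟩` (`subn_iff`).
Reduction lemmas modulo a normal `p`-subgroup (`subn_card_of_normal_pgroup`) and modulo a
normal `p'`-subgroup (`subn_card_of_normal_p'group`).
-/

set_option autoImplicit false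

namespace Cfsg.Agent.Helper67

open Subgroup

/-- Fibre counting: if `f` maps `S` into `T` and every fibre of `S` over a point of `T` has
`c` elements, then `|S| = c * |T|`. -/
theorem subn_card_eq_mul_of_fibers {α β : Type*} [Finite α] [Finite β] (f : α → β) (S : Set α)
    (T : Set β) (c : ℕ) (hST : ∀ a ∈ S, f a ∈ T)
    (hfib : ∀ b ∈ T, Nat.card {a : α // a ∈ S ∧ f a = b} = c) :
    Nat.card S = c * Nat.card T := by
  classical
  let F : S → T := fun a => ⟨f a.1, hST a.1 a.2⟩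
  have e : S ≃ Σ b : T, {a : S // F a = b} := (Equiv.sigmaFiberEquiv F).symm
  have hfin : Fintype T := Fintype.ofFinite T
  rw [Nat.card_congr e, Nat.card_sigma]
  have h1 : ∀ b : T, Nat.card {a : S // F a = b} = c := by
    intro b
    rw [← hfib b.1 b.2]
    apply Nat.card_congr
    exact { toFun := fun a => ⟨a.1.1, a.1.2, congrArg Subtype.val a.2⟩
            invFun := fun a => ⟨⟨a.1, a.2.1⟩, Subtype.ext a.2.2⟩
            left_inv := fun a => rfl
            right_inv := fun a => rfl }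
  simp only [h1, Finset.sum_const, Finset.card_univ, smul_eq_mul, Nat.card_eq_fintype_card]
  rw [mul_comm]

variable {G : Type*} [Group G]

/-- The subnormalizer set of `H` (for `p`-subgroups): elements normalizing some `p`-subgroup
containing `H`. -/
def subnSet (p : ℕ) (H : Subgroup G) : Set G :=
  {g | ∃ R : Subgroup G, IsPGroup p R ∧ H ≤ R ∧ g ∈ normalizer (R : Set G)}

theorem subn_iff [Finite G] {p : ℕ} [Fact p.Prime] (H : Subgroup G) (hH : IsPGroup p H) (g : G) :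
    (H.subgroupOf (H ⊔ zpowers g)).IsSubnormal ↔ g ∈ subnSet p H := by
  constructor
  · intro h
    obtain ⟨R, hHR, hR, hg⟩ := Cfsg.Agent.Helper68.exists_radical hH h
    exact ⟨R, by rw [← hR]; exact Cfsg.Agent.Helper68.Op_isPGroup p _, hHR, hg⟩
  · rintro ⟨R, hR, hHR, hg⟩
    exact Cfsg.Agent.Helper68.subnormal_of_le_radical hHR hR hg

theorem subn_mem_map {p : ℕ} (N : Subgroup G) [N.Normal] (H : Subgroup G) (g : G)
    (hg : g ∈ subnSet p H) :
    (QuotientGroup.mk' N g) ∈ subnSet p (H.map (QuotientGroup.mk' N)) := by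
  obtain ⟨R, hR, hHR, hg⟩ := hg
  refine ⟨R.map (QuotientGroup.mk' N), hR.map _, Subgroup.map_mono hHR, ?_⟩
  exact le_normalizer_map (QuotientGroup.mk' N) ⟨g, hg, rfl⟩

/-- The fibre of `mk' N` over a point is in bijection with `N`. -/
theorem subn_card_fiber (N : Subgroup G) [N.Normal] (g0 : G) (S : Set G)
    (hall : ∀ g, QuotientGroup.mk' N g = QuotientGroup.mk' N g0 → g ∈ S) :
    Nat.card {a : G // a ∈ S ∧ QuotientGroup.mk' N a = QuotientGroup.mk' N g0} = Nat.card N := by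
  apply Nat.card_congr
  refine { toFun := fun a => ⟨g0⁻¹ * a.1, ?_⟩
           invFun := fun n => ⟨g0 * n.1, ?_, ?_⟩
           left_inv := fun a => ?_
           right_inv := fun n => ?_ }
  · have h : (QuotientGroup.mk' N) a.1 = (QuotientGroup.mk' N) g0 := a.2.2
    exact QuotientGroup.eq.mp h.symm
  · apply hall
    exact (QuotientGroup.eq.mpr (by simp)).symm
  · exact (QuotientGroup.eq.mpr (by simp)).symm
  · apply Subtype.ext; simp
  · apply Subtype.ext; simp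

/-- Reduction modulo a normal `p`-subgroup. -/
theorem subn_card_of_normal_pgroup [Finite G] {p : ℕ} [Fact p.Prime] (N : Subgroup G) [N.Normal]
    (hN : IsPGroup p N) (H : Subgroup G) :
    Nat.card (subnSet p H) = Nat.card N * Nat.card (subnSet p (H.map (QuotientGroup.mk' N))) := by
  apply subn_card_eq_mul_of_fibers (QuotientGroup.mk' N) _ _ _ (fun g hg => subn_mem_map N H g hg)
  intro b hb
  obtain ⟨g0, rfl⟩ := QuotientGroup.mk'_surjective N b
  apply subn_card_fiber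
  intro g hgb
  obtain ⟨R, hR, hHR, hg⟩ := hb
  refine ⟨R.comap (QuotientGroup.mk' N), ?_, ?_, ?_⟩
  · exact hR.comap_of_ker_isPGroup _ (by rw [QuotientGroup.ker_mk']; exact hN)
  · exact Subgroup.map_le_iff_le_comap.mp hHR
  · apply le_normalizer_comap (QuotientGroup.mk' N)
    rw [Subgroup.mem_comap, hgb]
    exact hg

theorem subn_mem_of_map_mem {N A : Subgroup G} [N.Normal] (h : N ≤ A) {g : G}
    (hg : QuotientGroup.mk' N g ∈ A.map (QuotientGroup.mk' N)) : g ∈ A := by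
  have h1 : (A.map (QuotientGroup.mk' N)).comap (QuotientGroup.mk' N) = A :=
    Subgroup.comap_map_eq_self (by rw [QuotientGroup.ker_mk']; exact h)
  rw [← h1]
  exact hg

theorem subn_card_eq_card_mul_card_map [Finite G] (N A : Subgroup G) [N.Normal] (h : N ≤ A) :
    Nat.card A = Nat.card N * Nat.card (A.map (QuotientGroup.mk' N)) := by
  have h1 := subn_card_eq_mul_of_fibers (QuotientGroup.mk' N) (A : Set G)
    ((A.map (QuotientGroup.mk' N) : Subgroup (G ⧸ N)) : Set (G ⧸ N)) (Nat.card N)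
    (fun a ha => Subgroup.mem_map_of_mem _ ha) (by
      intro c hc
      obtain ⟨g1, rfl⟩ := QuotientGroup.mk'_surjective N c
      apply subn_card_fiber
      intro g hg
      apply subn_mem_of_map_mem h
      rw [hg]; exact hc)
  exact h1

section pprime

variable [Finite G] {p : ℕ} [Fact p.Prime]

theorem subn_inf_eq_bot {N T : Subgroup G} (hN : (Nat.card N).Coprime p) (hT : IsPGroup p T) :
    T ⊓ N = ⊥ := by
  obtain ⟨a, ha⟩ := IsPGroup.iff_card.mp hT
  apply Disjoint.eq_bot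
  apply Subgroup.disjoint_of_coprime_natCard
  rw [ha]
  exact Nat.Coprime.pow_left a hN.symm

theorem subn_card_map_mk' {N T : Subgroup G} [N.Normal] (hN : (Nat.card N).Coprime p)
    (hT : IsPGroup p T) : Nat.card (T.map (QuotientGroup.mk' N)) = Nat.card T := by
  symm
  apply Nat.card_congr
  refine Equiv.ofBijective (fun t : T =>
    (⟨QuotientGroup.mk' N t.1, Subgroup.mem_map_of_mem _ t.2⟩ : T.map (QuotientGroup.mk' N)))
    ⟨?_, ?_⟩
  · intro x y hxy
    have h1 : QuotientGroup.mk' N x.1 = QuotientGroup.mk' N y.1 := congrArg Subtype.val hxy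
    have h2 : x.1⁻¹ * y.1 ∈ N := QuotientGroup.eq.mp h1
    have h3 : x.1⁻¹ * y.1 ∈ T ⊓ N := ⟨T.mul_mem (T.inv_mem x.2) y.2, h2⟩
    rw [subn_inf_eq_bot hN hT, Subgroup.mem_bot] at h3
    exact Subtype.ext (inv_mul_eq_one.mp h3)
  · rintro ⟨y, t, ht, rfl⟩
    exact ⟨⟨t, ht⟩, rfl⟩

/-- Two `p`-subgroups of `W` of the same order, one of which has index in `W` prime to `p`,
are conjugate in `W`. -/
theorem subn_conj_in (W T₁ T₂ : Subgroup G) (h1 : T₁ ≤ W) (h2 : T₂ ≤ W)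
    (hp1 : IsPGroup p T₁) (hp2 : IsPGroup p T₂) (hcard : Nat.card T₁ = Nat.card T₂)
    (hidx : ¬ p ∣ (T₁.subgroupOf W).index) :
    ∃ w ∈ W, ∀ x, x ∈ T₂ ↔ w⁻¹ * x * w ∈ T₁ := by
  have hp1' : IsPGroup p (T₁.subgroupOf W) := hp1.comap_subtype
  have hp2' : IsPGroup p (T₂.subgroupOf W) := hp2.comap_subtype
  let Q₁ : Sylow p W := hp1'.toSylow hidx
  have hQ₁ : ∀ y : W, y ∈ Q₁ ↔ y ∈ T₁.subgroupOf W := fun y => IsPGroup.mem_toSylow hp1' hidx
  obtain ⟨Q₂, hQ₂⟩ := hp2'.exists_le_sylow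
  obtain ⟨w, hw⟩ := Cfsg.Agent.Helper20.sylow_conj_mem Q₁ Q₂
  have hc1 : Nat.card (T₁.subgroupOf W) = Nat.card T₁ :=
    Nat.card_congr (Subgroup.subgroupOfEquivOfLe h1).toEquiv
  have hc2 : Nat.card (T₂.subgroupOf W) = Nat.card T₂ :=
    Nat.card_congr (Subgroup.subgroupOfEquivOfLe h2).toEquiv
  have hcQ : Nat.card (Q₂ : Subgroup W) = Nat.card (Q₁ : Subgroup W) := by
    rw [Sylow.card_eq_multiplicity, Sylow.card_eq_multiplicity]
  have hQ₁c : Nat.card (Q₁ : Subgroup W) = Nat.card (T₁.subgroupOf W) := by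
    rw [IsPGroup.toSylow_coe]
  have heq : T₂.subgroupOf W = (Q₂ : Subgroup W) :=
    Subgroup.eq_of_le_of_card_ge hQ₂ (by rw [hcQ, hQ₁c, hc1, hc2, hcard])
  refine ⟨w, w.2, fun x => ?_⟩
  constructor
  · intro hx
    have hxW : x ∈ W := h2 hx
    have h3 : (⟨x, hxW⟩ : W) ∈ (Q₂ : Subgroup W) := by
      rw [← heq]; exact Subgroup.mem_subgroupOf.mpr hx
    have h4 := (hQ₁ _).mp ((hw _).mp h3)
    exact Subgroup.mem_subgroupOf.mp h4
  · intro hx
    have hxW : x ∈ W := by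
      have h5 : (w : G)⁻¹ * x * (w : G) ∈ W := h1 hx
      have h6 := W.mul_mem (W.mul_mem w.2 h5) (W.inv_mem w.2)
      have h7 : (w : G) * ((w : G)⁻¹ * x * w) * (w : G)⁻¹ = x := by group
      rwa [h7] at h6
    have h3 : w⁻¹ * (⟨x, hxW⟩ : W) * w ∈ Q₁ := (hQ₁ _).mpr (Subgroup.mem_subgroupOf.mpr hx)
    have h4 : (⟨x, hxW⟩ : W) ∈ (Q₂ : Subgroup W) := (hw _).mpr h3
    rw [← heq] at h4
    exact Subgroup.mem_subgroupOf.mp h4

/-- Fibre of the subnormalizer set over a point of the subnormalizer set of the quotient by a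
normal `p'`-subgroup `N`: it has `|C_N(H)|` elements. -/
theorem subn_fiber_p' (N : Subgroup G) [hNn : N.Normal] (hN : (Nat.card N).Coprime p)
    (H : Subgroup G) (hH : IsPGroup p H) (b : G ⧸ N)
    (hb : b ∈ subnSet p (H.map (QuotientGroup.mk' N))) :
    Nat.card {a : G // a ∈ subnSet p H ∧ QuotientGroup.mk' N a = b} =
      Nat.card ↥(N ⊓ centralizer (H : Set G)) := by
  classical
  have hpp : p.Prime := Fact.out
  set π := QuotientGroup.mk' N with hπ
  have hπN : ∀ x, π x = 1 ↔ x ∈ N := fun x => QuotientGroup.eq_one_iff x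
  -- Step 1: the minimal invariant p-subgroup of the quotient
  let 𝒮 : Set (Subgroup (G ⧸ N)) :=
    {R | IsPGroup p R ∧ H.map π ≤ R ∧ b ∈ normalizer (R : Set (G ⧸ N))}
  obtain ⟨R₁, hR₁⟩ : ∃ R, R ∈ 𝒮 := hb
  let Tb : Subgroup (G ⧸ N) := sInf 𝒮
  have hTbp : IsPGroup p Tb := hR₁.1.to_le (sInf_le hR₁)
  have hTbH : H.map π ≤ Tb := le_sInf (fun R hR => hR.2.1)
  have hTbn : b ∈ normalizer (Tb : Set (G ⧸ N)) := by
    rw [mem_normalizer_iff]
    intro x
    simp only [Tb, Subgroup.mem_sInf]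
    constructor
    · intro hx R hR
      exact (mem_normalizer_iff.mp hR.2.2 x).mp (hx R hR)
    · intro hx R hR
      exact (mem_normalizer_iff.mp hR.2.2 x).mpr (hx R hR)
  have hTbmin : ∀ R : Subgroup (G ⧸ N), IsPGroup p R → H.map π ≤ R →
      b ∈ normalizer (R : Set (G ⧸ N)) → Tb ≤ R :=
    fun R h1 h2 h3 => sInf_le ⟨h1, h2, h3⟩
  set k := Nat.card Tb with hk
  have hkpos : 0 < k := Nat.card_pos
  -- Step 2: the preimage W
  let W : Subgroup G := Tb.comap π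
  have hWmem : ∀ x, x ∈ W ↔ π x ∈ Tb := fun x => Iff.rfl
  have hNW : N ≤ W := by
    intro x hx
    rw [hWmem, (hπN x).mpr hx]; exact Tb.one_mem
  have hHW : H ≤ W := fun x hx => hTbH (Subgroup.mem_map_of_mem π hx)
  have hWcard : Nat.card W = Nat.card N * k := by
    have h1 := subn_card_eq_mul_of_fibers π (W : Set G) (Tb : Set (G ⧸ N)) (Nat.card N)
      (fun a ha => ha) (by
        intro c hc
        obtain ⟨g1, rfl⟩ := QuotientGroup.mk'_surjective N c
        apply subn_card_fiber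
        intro g hg
        show π g ∈ Tb
        rw [hg]; exact hc)
    exact h1
  have hmapcard : ∀ T : Subgroup G, IsPGroup p T → Nat.card (T.map π) = Nat.card T :=
    fun T hT => subn_card_map_mk' hN hT
  have hF3 : ∀ T : Subgroup G, IsPGroup p T → T ≤ W → Nat.card T = k → T.map π = Tb := by
    intro T hT hTW hTk
    apply Subgroup.eq_of_le_of_card_ge
    · exact Subgroup.map_le_iff_le_comap.mpr hTW
    · rw [hmapcard T hT, hTk]
  have hdecomp : ∀ T : Subgroup G, IsPGroup p T → T ≤ W → Nat.card T = k →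
      ∀ x ∈ W, ∃ t ∈ T, t⁻¹ * x ∈ N := by
    intro T hT hTW hTk x hx
    have h1 : π x ∈ T.map π := by rw [hF3 T hT hTW hTk]; exact hx
    obtain ⟨t, ht, hte⟩ := h1
    exact ⟨t, ht, QuotientGroup.eq.mp hte⟩
  have hidx : ∀ T : Subgroup G, T ≤ W → Nat.card T = k → ¬ p ∣ (T.subgroupOf W).index := by
    intro T hTW hTk hdvd
    have h1 := Subgroup.card_mul_index (T.subgroupOf W)
    rw [Nat.card_congr (Subgroup.subgroupOfEquivOfLe hTW).toEquiv, hTk, hWcard] at h1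
    have h2 : (T.subgroupOf W).index = Nat.card N := by
      have h3 : k * (T.subgroupOf W).index = k * Nat.card N := by rw [h1, mul_comm]
      exact Nat.eq_of_mul_eq_mul_left hkpos h3
    rw [h2] at hdvd
    exact (Nat.Prime.coprime_iff_not_dvd hpp).mp hN.symm hdvd
  -- Step 3: a Sylow p-subgroup T₀ of W containing H
  obtain ⟨T₀, hT₀p, hHT₀, hT₀W, hT₀k⟩ :
      ∃ T₀ : Subgroup G, IsPGroup p T₀ ∧ H ≤ T₀ ∧ T₀ ≤ W ∧ Nat.card T₀ = k := by
    have hH' : IsPGroup p (H.subgroupOf W) := hH.comap_subtype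
    obtain ⟨Q, hQ⟩ := hH'.exists_le_sylow
    refine ⟨(Q : Subgroup W).map W.subtype, Q.2.map _, ?_, ?_, ?_⟩
    · intro x hx
      exact ⟨⟨x, hHW hx⟩, hQ (Subgroup.mem_subgroupOf.mpr hx), rfl⟩
    · rintro x ⟨y, -, rfl⟩; exact y.2
    · rw [Subgroup.card_map_of_injective W.subtype_injective]
      obtain ⟨a, ha⟩ := IsPGroup.iff_card.mp Q.2
      obtain ⟨c, hc⟩ := IsPGroup.iff_card.mp hTbp
      have h1 := Subgroup.card_mul_index (Q : Subgroup W)
      rw [hWcard, ha, hk, hc] at h1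
      have hnd : ¬ p ∣ (Q : Subgroup W).index := Q.not_dvd_index
      have hcop1 : Nat.Coprime (p ^ a) (Nat.card N) := Nat.Coprime.pow_left a hN.symm
      have hcop2 : Nat.Coprime (p ^ c) (Q : Subgroup W).index :=
        Nat.Coprime.pow_left c ((Nat.Prime.coprime_iff_not_dvd hpp).mpr hnd)
      have hd1 : p ^ a ∣ p ^ c := by
        apply Nat.Coprime.dvd_of_dvd_mul_left hcop1
        exact Dvd.intro _ h1
      have hd2 : p ^ c ∣ p ^ a := by
        apply Nat.Coprime.dvd_of_dvd_mul_right hcop2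
        exact Dvd.intro_left _ h1.symm
      rw [ha, hk, hc]
      exact Nat.dvd_antisymm hd1 hd2
  let 𝒯 : Subgroup G → Prop := fun T => IsPGroup p T ∧ H ≤ T ∧ T ≤ W ∧ Nat.card T = k
  -- Step 4: every element of the fibre in the subnormalizer normalizes a unique member of 𝒯
  have hnormW : ∀ g, π g = b → g ∈ normalizer (W : Set G) := by
    intro g hgb
    apply le_normalizer_comap π
    rw [Subgroup.mem_comap, hgb]; exact hTbn
  have hA : ∀ g, π g = b → g ∈ subnSet p H → ∃ T, 𝒯 T ∧ g ∈ normalizer (T : Set G) := by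
    rintro g hgb ⟨R, hR, hHR, hgR⟩
    have hgW := hnormW g hgb
    have hbR : b ∈ normalizer ((R.map π : Subgroup (G ⧸ N)) : Set (G ⧸ N)) := by
      rw [← hgb]; exact le_normalizer_map π ⟨g, hgR, rfl⟩
    have hTbR : Tb ≤ R.map π := hTbmin _ (hR.map π) (Subgroup.map_mono hHR) hbR
    refine ⟨R ⊓ W, ⟨hR.to_le inf_le_left, le_inf hHR hHW, inf_le_right, ?_⟩, ?_⟩
    · have hmap : (R ⊓ W).map π = Tb := by
        apply le_antisymm
        · exact Subgroup.map_le_iff_le_comap.mpr inf_le_right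
        · intro y hy
          obtain ⟨r, hr, rfl⟩ := hTbR hy
          exact ⟨r, ⟨hr, hy⟩, rfl⟩
      rw [← hmapcard _ (hR.to_le inf_le_left), hmap]
    · exact inf_normalizer_le_normalizer_inf ⟨hgR, hgW⟩
  have hU : ∀ g, π g = b → ∀ T₁ T₂ : Subgroup G, 𝒯 T₁ → 𝒯 T₂ → g ∈ normalizer (T₁ : Set G) →
      g ∈ normalizer (T₂ : Set G) → T₁ = T₂ := by
    intro g hgb T₁ T₂ h1 h2 hg1 hg2
    have hp12 : IsPGroup p (T₁ ⊓ T₂ : Subgroup G) := h1.1.to_le inf_le_left
    have hb12 : b ∈ normalizer (((T₁ ⊓ T₂).map π : Subgroup (G ⧸ N)) : Set (G ⧸ N)) := by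
      rw [← hgb]
      exact le_normalizer_map π ⟨g, inf_normalizer_le_normalizer_inf ⟨hg1, hg2⟩, rfl⟩
    have hTb12 : Tb ≤ (T₁ ⊓ T₂).map π :=
      hTbmin _ (hp12.map π) (Subgroup.map_mono (le_inf h1.2.1 h2.2.1)) hb12
    have hc : k ≤ Nat.card (T₁ ⊓ T₂ : Subgroup G) := by
      rw [← hmapcard _ hp12]
      exact Subgroup.card_le_of_le hTb12
    have e1 : T₁ ⊓ T₂ = T₁ := Subgroup.eq_of_le_of_card_ge inf_le_left (by rw [h1.2.2.2]; exact hc)
    have e2 : T₁ ⊓ T₂ = T₂ := Subgroup.eq_of_le_of_card_ge inf_le_right (by rw [h2.2.2.2]; exact hc)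
    exact e1.symm.trans e2
  -- Step 5: elements of N "normalizing" T₀ centralize it
  have hcent : ∀ n ∈ N, ∀ h ∈ T₀, n⁻¹ * h * n ∈ T₀ → h * n = n * h := by
    intro n hnN h hh h1
    have h2 : h⁻¹ * (n⁻¹ * h * n) ∈ T₀ := T₀.mul_mem (T₀.inv_mem hh) h1
    have h3 : h⁻¹ * (n⁻¹ * h * n) ∈ N := by
      have h5 : h⁻¹ * n⁻¹ * h⁻¹⁻¹ ∈ N := hNn.conj_mem n⁻¹ (N.inv_mem hnN) h⁻¹
      have h6 := N.mul_mem h5 hnN
      have h7 : h⁻¹ * n⁻¹ * h⁻¹⁻¹ * n = h⁻¹ * (n⁻¹ * h * n) := by group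
      rwa [h7] at h6
    have h4 : h⁻¹ * (n⁻¹ * h * n) ∈ T₀ ⊓ N := ⟨h2, h3⟩
    rw [subn_inf_eq_bot hN hT₀p, Subgroup.mem_bot] at h4
    have h8 : n⁻¹ * h * n = h := by
      have h9 : h * (h⁻¹ * (n⁻¹ * h * n)) = h * 1 := by rw [h4]
      rw [mul_one, mul_inv_cancel_left] at h9
      exact h9
    calc h * n = n * (n⁻¹ * h * n) := by group
      _ = n * h := by rw [h8]
  -- conjugates of T₀
  have hB1 : ∀ T : Subgroup G, 𝒯 T → ∃ n ∈ N ⊓ centralizer (H : Set G),
      ∀ x, x ∈ T ↔ n⁻¹ * x * n ∈ T₀ := by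
    intro T hT
    obtain ⟨w, hwW, hw⟩ := subn_conj_in W T₀ T hT₀W hT.2.2.1 hT₀p hT.1
      (hT₀k.trans hT.2.2.2.symm) (hidx T₀ hT₀W hT₀k)
    obtain ⟨t, ht, htn⟩ := hdecomp T₀ hT₀p hT₀W hT₀k w⁻¹ (W.inv_mem hwW)
    have hnN : w * t ∈ N := by
      have h1 := N.inv_mem htn
      have h2 : (t⁻¹ * w⁻¹)⁻¹ = w * t := by group
      rwa [h2] at h1
    have hconj : ∀ x, x ∈ T ↔ (w * t)⁻¹ * x * (w * t) ∈ T₀ := by
      intro x
      rw [hw x]
      have h1 : (w * t)⁻¹ * x * (w * t) = t⁻¹ * (w⁻¹ * x * w) * t := by group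
      rw [h1]
      constructor
      · intro h; exact T₀.mul_mem (T₀.mul_mem (T₀.inv_mem ht) h) ht
      · intro h
        have h2 := T₀.mul_mem (T₀.mul_mem ht h) (T₀.inv_mem ht)
        have h3 : t * (t⁻¹ * (w⁻¹ * x * w) * t) * t⁻¹ = w⁻¹ * x * w := by group
        rwa [h3] at h2
    refine ⟨w * t, Subgroup.mem_inf.mpr ⟨hnN, ?_⟩, hconj⟩
    refine Subgroup.mem_centralizer_iff.mpr ?_
    intro h hh
    exact hcent (w * t) hnN h (hHT₀ hh) ((hconj h).mp (hT.2.1 hh))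
  -- Step 6: an element of the fibre normalizing T₀
  obtain ⟨g₀, hg₀b, hg₀T⟩ : ∃ g₀, π g₀ = b ∧ g₀ ∈ normalizer (T₀ : Set G) := by
    obtain ⟨g1, hg1⟩ := QuotientGroup.mk'_surjective N b
    have hg1W := hnormW g1 hg1
    let T' : Subgroup G := T₀.map (MulAut.conj g1).toMonoidHom
    have hT'mem : ∀ x, x ∈ T' ↔ g1⁻¹ * x * g1 ∈ T₀ := fun x =>
      Cfsg.Agent.Helper20.mem_map_conj T₀ g1 x
    have hT'W : T' ≤ W := by
      intro x hx
      have h1 : g1⁻¹ * x * g1 ∈ W := hT₀W ((hT'mem x).mp hx)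
      exact (mem_normalizer_iff''.mp hg1W x).mpr h1
    have hT'p : IsPGroup p T' := hT₀p.map _
    have hT'k : Nat.card T' = Nat.card T₀ :=
      Subgroup.card_map_of_injective (MulAut.conj g1).injective
    obtain ⟨w, hwW, hw⟩ := subn_conj_in W T₀ T' hT₀W hT'W hT₀p hT'p hT'k.symm
      (hidx T₀ hT₀W hT₀k)
    obtain ⟨t, ht, htn⟩ := hdecomp T₀ hT₀p hT₀W hT₀k w⁻¹ (W.inv_mem hwW)
    refine ⟨t⁻¹ * w⁻¹ * g1, ?_, ?_⟩
    · rw [map_mul, (hπN _).mpr htn, one_mul, hg1]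
    · rw [mem_normalizer_iff'']
      intro h
      have h1 : (t⁻¹ * w⁻¹ * g1)⁻¹ * h * (t⁻¹ * w⁻¹ * g1) =
          g1⁻¹ * (w * (t * h * t⁻¹) * w⁻¹) * g1 := by group
      rw [h1, ← hT'mem, hw]
      have h2 : w⁻¹ * (w * (t * h * t⁻¹) * w⁻¹) * w = t * h * t⁻¹ := by group
      rw [h2]
      constructor
      · intro hh; exact T₀.mul_mem (T₀.mul_mem ht hh) (T₀.inv_mem ht)
      · intro hh
        have h3 := T₀.mul_mem (T₀.mul_mem (T₀.inv_mem ht) hh) ht
        have h4 : t⁻¹ * (t * h * t⁻¹) * t = h := by group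
        rwa [h4] at h3
  -- Step 7: the counting
  let C : Subgroup G := N ⊓ centralizer (H : Set G)
  let C₀ : Subgroup G := N ⊓ normalizer (T₀ : Set G)
  have hC₀C : C₀ ≤ C := by
    intro n hn
    have hn' := Subgroup.mem_inf.mp hn
    refine Subgroup.mem_inf.mpr ⟨hn'.1, ?_⟩
    refine Subgroup.mem_centralizer_iff.mpr ?_
    intro h hh
    exact hcent n hn'.1 h (hHT₀ hh) ((mem_normalizer_iff''.mp hn'.2 h).mp (hHT₀ hh))
  -- conjugate of T₀ by an element of C lies in 𝒯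
  have hB2 : ∀ n ∈ C, 𝒯 (T₀.map (MulAut.conj n).toMonoidHom) := by
    intro n hn
    refine ⟨hT₀p.map _, ?_, ?_, ?_⟩
    · intro h hh
      rw [Cfsg.Agent.Helper20.mem_map_conj]
      have h1 : h * n = n * h := (Subgroup.mem_centralizer_iff.mp hn.2) h hh
      have h2 : n⁻¹ * h * n = h := by
        rw [mul_assoc, h1, inv_mul_cancel_left]
      rw [h2]; exact hHT₀ hh
    · intro x hx
      rw [Cfsg.Agent.Helper20.mem_map_conj] at hx
      have h1 := W.mul_mem (W.mul_mem (hNW hn.1) (hT₀W hx)) (W.inv_mem (hNW hn.1))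
      have h2 : n * (n⁻¹ * x * n) * n⁻¹ = x := by group
      rwa [h2] at h1
    · rw [Subgroup.card_map_of_injective (MulAut.conj n).injective]; exact hT₀k
  have hnormconj : ∀ (n ν : G), ν ∈ normalizer (T₀ : Set G) →
      n * ν * n⁻¹ ∈ normalizer ((T₀.map (MulAut.conj n).toMonoidHom : Subgroup G) : Set G) := by
    intro n ν hν
    rw [mem_normalizer_iff'']
    intro x
    rw [Cfsg.Agent.Helper20.mem_map_conj, Cfsg.Agent.Helper20.mem_map_conj]
    have h1 : n⁻¹ * ((n * ν * n⁻¹)⁻¹ * x * (n * ν * n⁻¹)) * n = ν⁻¹ * (n⁻¹ * x * n) * ν := by group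
    rw [h1]
    exact mem_normalizer_iff''.mp hν (n⁻¹ * x * n)
  let F : Set G := {g | g ∈ subnSet p H ∧ π g = b}
  let Ψ : C × C₀ → G := fun a => (a.1 : G) * g₀ * (a.2 : G) * (a.1 : G)⁻¹
  have hΨF : ∀ a : C × C₀, Ψ a ∈ F := by
    rintro ⟨⟨n, hn⟩, ⟨c, hc⟩⟩
    constructor
    · refine ⟨T₀.map (MulAut.conj n).toMonoidHom, (hB2 n hn).1, (hB2 n hn).2.1, ?_⟩
      have h1 : g₀ * c ∈ normalizer (T₀ : Set G) := (normalizer (T₀ : Set G)).mul_mem hg₀T hc.2
      have h2 := hnormconj n (g₀ * c) h1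
      have h3 : n * (g₀ * c) * n⁻¹ = n * g₀ * c * n⁻¹ := by group
      rw [h3] at h2
      exact h2
    · show π (n * g₀ * c * n⁻¹) = b
      rw [map_mul, map_mul, map_mul, map_inv, (hπN n).mpr hn.1, (hπN c).mpr hc.1, hg₀b]
      group
  have hfib : ∀ g ∈ F, Nat.card {a : C × C₀ // a ∈ (Set.univ : Set (C × C₀)) ∧ Ψ a = g} =
      Nat.card C₀ := by
    rintro g ⟨hgS, hgb⟩
    obtain ⟨Tg, hTg, hgTg⟩ := hA g hgb hgS
    obtain ⟨ng, hng, hngconj⟩ := hB1 Tg hTg
    have hTgeq : Tg = T₀.map (MulAut.conj ng).toMonoidHom := by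
      ext x
      rw [Cfsg.Agent.Helper20.mem_map_conj]; exact hngconj x
    -- ng⁻¹ g ng normalizes T₀
    have hν : ng⁻¹ * g * ng ∈ normalizer (T₀ : Set G) := by
      rw [mem_normalizer_iff'']
      intro x
      have h1 := mem_normalizer_iff''.mp hgTg (ng * x * ng⁻¹)
      rw [hngconj, hngconj] at h1
      have h2 : ng⁻¹ * (ng * x * ng⁻¹) * ng = x := by group
      have h3 : ng⁻¹ * (g⁻¹ * (ng * x * ng⁻¹) * g) * ng = (ng⁻¹ * g * ng)⁻¹ * x * (ng⁻¹ * g * ng) := by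
        group
      rw [h2, h3] at h1
      exact h1
    have hngN : ng ∈ N := (Subgroup.mem_inf.mp hng).1
    have hcg : g₀⁻¹ * (ng⁻¹ * g * ng) ∈ C₀ := by
      refine Subgroup.mem_inf.mpr ⟨(hπN _).mp ?_,
        (normalizer (T₀ : Set G)).mul_mem ((normalizer (T₀ : Set G)).inv_mem hg₀T) hν⟩
      rw [map_mul, map_mul, map_mul, map_inv, map_inv, (hπN ng).mpr hngN, hgb, hg₀b]
      group
    have hg₀N : ∀ d ∈ C₀, g₀⁻¹ * d⁻¹ * g₀ ∈ C₀ := by
      intro d hd
      have hd' := Subgroup.mem_inf.mp hd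
      refine Subgroup.mem_inf.mpr ⟨?_, ?_⟩
      · have h1 := hNn.conj_mem d⁻¹ (N.inv_mem hd'.1) g₀⁻¹
        rwa [inv_inv] at h1
      · exact (normalizer (T₀ : Set G)).mul_mem ((normalizer (T₀ : Set G)).mul_mem
          ((normalizer (T₀ : Set G)).inv_mem hg₀T) ((normalizer (T₀ : Set G)).inv_mem hd'.2)) hg₀T
    symm
    apply Nat.card_congr
    refine Equiv.ofBijective (fun d : C₀ =>
      (⟨(⟨ng * d.1, C.mul_mem hng (hC₀C d.2)⟩,
        ⟨g₀⁻¹ * d.1⁻¹ * g₀ * (g₀⁻¹ * (ng⁻¹ * g * ng)) * d.1,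
          C₀.mul_mem (C₀.mul_mem (hg₀N d.1 d.2) hcg) d.2⟩), Set.mem_univ _, by
          show ng * d.1 * g₀ * (g₀⁻¹ * d.1⁻¹ * g₀ * (g₀⁻¹ * (ng⁻¹ * g * ng)) * d.1) * (ng * d.1)⁻¹ = g
          group⟩ : {a : C × C₀ // a ∈ (Set.univ : Set (C × C₀)) ∧ Ψ a = g})) ⟨?_, ?_⟩
    · intro d d' hdd
      have h1 := congrArg (fun a : {a : C × C₀ // a ∈ (Set.univ : Set (C × C₀)) ∧ Ψ a = g} =>
        ((a.1.1 : C) : G)) hdd
      simp only at h1
      exact Subtype.ext (mul_left_cancel h1)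
    · rintro ⟨⟨⟨n', hn'⟩, ⟨c', hc'⟩⟩, -, hΨ⟩
      have hΨ' : n' * g₀ * c' * n'⁻¹ = g := hΨ
      -- g normalizes the conjugate of T₀ by n'
      have h1 : g ∈ normalizer ((T₀.map (MulAut.conj n').toMonoidHom : Subgroup G) : Set G) := by
        have h2 : g₀ * c' ∈ normalizer (T₀ : Set G) := (normalizer (T₀ : Set G)).mul_mem hg₀T hc'.2
        have h3 := hnormconj n' (g₀ * c') h2
        have h4 : n' * (g₀ * c') * n'⁻¹ = g := by rw [← hΨ']; group
        rwa [h4] at h3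
      have h5 : T₀.map (MulAut.conj n').toMonoidHom = Tg := hU g hgb _ _ (hB2 n' hn') hTg h1 hgTg
      -- d := ng⁻¹ n' ∈ C₀
      have hd : ng⁻¹ * n' ∈ C₀ := by
        refine Subgroup.mem_inf.mpr ⟨N.mul_mem (N.inv_mem hngN) (Subgroup.mem_inf.mp hn').1, ?_⟩
        refine mem_normalizer_iff''.mpr ?_
        intro x
        have h6 : ∀ y, n'⁻¹ * y * n' ∈ T₀ ↔ ng⁻¹ * y * ng ∈ T₀ := by
          intro y
          rw [← Cfsg.Agent.Helper20.mem_map_conj, h5, hngconj]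
        have h7 := h6 (ng * x * ng⁻¹)
        have h8 : ng⁻¹ * (ng * x * ng⁻¹) * ng = x := by group
        have h9 : n'⁻¹ * (ng * x * ng⁻¹) * n' = (ng⁻¹ * n')⁻¹ * x * (ng⁻¹ * n') := by group
        rw [h8, h9] at h7
        exact h7.symm
      refine ⟨⟨ng⁻¹ * n', hd⟩, ?_⟩
      apply Subtype.ext
      apply Prod.ext
      · apply Subtype.ext
        show ng * (ng⁻¹ * n') = n'
        group
      · apply Subtype.ext
        show g₀⁻¹ * (ng⁻¹ * n')⁻¹ * g₀ * (g₀⁻¹ * (ng⁻¹ * g * ng)) * (ng⁻¹ * n') = c'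
        rw [← hΨ']
        group
  have hcount := subn_card_eq_mul_of_fibers Ψ (Set.univ : Set (C × C₀)) F (Nat.card C₀)
    (fun a _ => hΨF a) hfib
  have huniv : Nat.card (Set.univ : Set (C × C₀)) = Nat.card C * Nat.card C₀ := by
    rw [Nat.card_congr (Equiv.Set.univ (C × C₀)), Nat.card_prod]
  rw [huniv] at hcount
  have hC₀pos : 0 < Nat.card C₀ := Nat.card_pos
  have hfinal : Nat.card F = Nat.card C := by
    have h1 : Nat.card C₀ * Nat.card F = Nat.card C₀ * Nat.card C := by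
      rw [← hcount, mul_comm]
    exact Nat.eq_of_mul_eq_mul_left hC₀pos h1
  exact hfinal

/-- Reduction modulo a normal `p'`-subgroup. -/
theorem subn_card_of_normal_p'group (N : Subgroup G) [N.Normal]
    (hN : (Nat.card N).Coprime p) (H : Subgroup G) (hH : IsPGroup p H) :
    Nat.card (subnSet p H) =
      Nat.card ↥(N ⊓ centralizer (H : Set G)) *
        Nat.card (subnSet p (H.map (QuotientGroup.mk' N))) := by
  apply subn_card_eq_mul_of_fibers (QuotientGroup.mk' N) _ _ _ (fun g hg => subn_mem_map N H g hg)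
  intro b hb
  exact subn_fiber_p' N hN H hH b hb

end pprime

end Cfsg.Agent.Helper67
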