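import Mathlib

set_option autoImplicit false

namespace Cfsg.Agent.Helper67

open scoped Pointwise

/-- A `p`-group acting linearly on a nonzero `𝔽_p`-module fixes a nonzero vector in the span of
any orbit of a nonzero vector. -/
theorem tiv_exists_fixed {P : Type*} [Group P] [Finite P] (p : ℕ) [Fact p.Prime]
    (hP : IsPGroup p P) {E : Type*} [AddCommGroup E] [Module (ZMod p) E]
    (τ : P →* (E →ₗ[ZMod p] E)) (e₀ : E) (he₀ : e₀ ≠ 0) :
    ∃ e ∈ Submodule.span (ZMod p) (Set.range (fun x : P => τ x e₀)),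
      e ≠ 0 ∧ ∀ x : P, τ x e = e := by
  classical
  set S : Submodule (ZMod p) E := Submodule.span (ZMod p) (Set.range (fun x : P => τ x e₀))
    with hS
  have hfin : (Set.range (fun x : P => τ x e₀)).Finite := Set.finite_range _
  have hmf : Module.Finite (ZMod p) S := Module.Finite.span_of_finite (ZMod p) hfin
  have hSfin : Finite S := Module.finite_of_finite (ZMod p)
  have hstab : ∀ x : P, ∀ s ∈ S, τ x s ∈ S := by
    intro x s hs
    induction hs using Submodule.span_induction with
    | mem s hs =>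
      obtain ⟨y, rfl⟩ := hs
      apply Submodule.subset_span
      refine ⟨x * y, ?_⟩
      simp [map_mul]
    | zero => simp
    | add a b _ _ ha hb => rw [map_add]; exact S.add_mem ha hb
    | smul c a _ ha => rw [map_smul]; exact S.smul_mem c ha
  let act : MulAction P S :=
    { smul := fun x s => ⟨τ x s.1, hstab x s.1 s.2⟩
      one_smul := fun s => Subtype.ext (by
        change τ 1 s.1 = s.1
        rw [map_one]; rfl)
      mul_smul := fun x y s => Subtype.ext (by
        change τ (x * y) s.1 = τ x (τ y s.1)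
        rw [map_mul]; rfl) }
  have he₀S : e₀ ∈ S := by
    apply Submodule.subset_span
    exact ⟨1, by simp⟩
  have hdvd : p ∣ Nat.card S := by
    have h1 : addOrderOf (⟨e₀, he₀S⟩ : S) = p := by
      apply addOrderOf_eq_prime
      · apply Subtype.ext
        change p • e₀ = 0
        rw [← Nat.cast_smul_eq_nsmul (ZMod p)]
        simp
      · intro h
        exact he₀ (congrArg Subtype.val h)
    have h2 := addOrderOf_dvd_natCard (⟨e₀, he₀S⟩ : S)
    rwa [h1] at h2
  have h0 : (0 : S) ∈ MulAction.fixedPoints P S := by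
    intro x
    apply Subtype.ext
    change τ x 0 = 0
    simp
  obtain ⟨b, hb, hb0⟩ := hP.exists_fixed_point_of_prime_dvd_card_of_fixed_point S hdvd h0
  refine ⟨b.1, b.2, ?_, ?_⟩
  · intro h
    exact hb0 (Subtype.ext h.symm)
  · intro x
    exact congrArg Subtype.val (hb x)

/-- There is a valuation subring of `ℂ` in which `p` is a non-unit. -/
theorem tiv_exists_valuationSubring (p : ℕ) [Fact p.Prime] :
    ∃ B : ValuationSubring ℂ, B.valuation (p : ℂ) < 1 := by
  let A : Subring ℂ := (Int.castRingHom ℂ).range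
  have hpA : (p : ℂ) ∈ A := ⟨(p : ℤ), by simp⟩
  let I : Ideal A := Ideal.span {(⟨(p : ℂ), hpA⟩ : A)}
  have hI : I ≠ ⊤ := by
    intro h
    have h1 : (1 : A) ∈ I := by rw [h]; trivial
    rw [Ideal.mem_span_singleton'] at h1
    obtain ⟨⟨a, m, rfl⟩, ha⟩ := h1
    have h2 : ((m : ℤ) : ℂ) * (p : ℂ) = 1 := congrArg Subtype.val ha
    have h3 : m * (p : ℤ) = 1 := by exact_mod_cast h2
    have h4 : (p : ℤ) ∣ 1 := Dvd.intro_left m h3
    have h5 : p ∣ 1 := by exact_mod_cast h4
    exact (Fact.out : p.Prime).one_lt.ne' (Nat.dvd_one.mp h5)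
  obtain ⟨B, _, hIB⟩ := Ideal.image_subset_nonunits_valuationSubring I hI
  refine ⟨B, ?_⟩
  have h1 : (p : ℂ) ∈ B.nonunits :=
    hIB ⟨⟨(p : ℂ), hpA⟩, Ideal.subset_span rfl, rfl⟩
  exact h1

/-- A finite set stable under a free action of a finite group is a disjoint union of regular
orbits; sums over it decompose accordingly. -/
theorem tiv_free_sum {P : Type*} [Group P] [Fintype P] {Ω : Type*} [DecidableEq Ω]
    [MulAction P Ω] {M : Type*} [AddCommMonoid M] (F : Ω → M) :
    ∀ (S : Finset Ω), (∀ x : P, ∀ q ∈ S, x • q ∈ S) → (∀ x : P, ∀ q ∈ S, x • q = q → x = 1) →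
    ∃ T : Finset Ω, T ⊆ S ∧ ∑ q ∈ S, F q = ∑ t ∈ T, ∑ x : P, F (x • t) := by
  intro S
  induction S using Finset.strongInduction with
  | H S ih =>
    intro hstab hfree
    rcases S.eq_empty_or_nonempty with rfl | ⟨b, hb⟩
    · exact ⟨∅, subset_rfl, by simp⟩
    set O : Finset Ω := Finset.univ.image (fun x : P => x • b) with hO
    have hOS : O ⊆ S := by
      intro q hq
      rw [hO, Finset.mem_image] at hq
      obtain ⟨x, _, rfl⟩ := hq
      exact hstab x b hb
    have hbO : b ∈ O := by
      rw [hO, Finset.mem_image]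
      exact ⟨1, Finset.mem_univ _, one_smul _ _⟩
    have hlt : S \ O ⊂ S := by
      refine ⟨Finset.sdiff_subset, fun h => ?_⟩
      have := h hb
      rw [Finset.mem_sdiff] at this
      exact this.2 hbO
    obtain ⟨T', hT', hsum⟩ := ih (S \ O) hlt
      (by
        intro x q hq
        rw [Finset.mem_sdiff] at hq ⊢
        refine ⟨hstab x q hq.1, fun h => hq.2 ?_⟩
        rw [hO, Finset.mem_image] at h ⊢
        obtain ⟨y, _, hy⟩ := h
        refine ⟨x⁻¹ * y, Finset.mem_univ _, ?_⟩
        rw [mul_smul, hy, inv_smul_smul])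
      (fun x q hq => hfree x q (Finset.mem_sdiff.mp hq).1)
    have hbT' : b ∉ T' := fun h => (Finset.mem_sdiff.mp (hT' h)).2 hbO
    refine ⟨insert b T', ?_, ?_⟩
    · intro q hq
      rw [Finset.mem_insert] at hq
      rcases hq with rfl | hq
      · exact hb
      · exact (Finset.mem_sdiff.mp (hT' hq)).1
    · rw [Finset.sum_insert hbT', ← hsum, ← Finset.sum_sdiff hOS, add_comm]
      congr 1
      rw [hO, Finset.sum_image]
      intro x _ y _ hxy
      have h1 : (y⁻¹ * x) • b = b := by
        rw [mul_smul]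
        change x • b = y • b at hxy
        rw [hxy, inv_smul_smul]
      have h2 := hfree _ b hb h1
      exact (inv_mul_eq_one.mp h2).symm

section norms

variable {M : Type*} [AddCommGroup M] [Module ℂ M] (B : ValuationSubring ℂ)
  (N : M → B.ValueGroup)

theorem tiv_norm_zero (hsmul : ∀ (c : ℂ) a, N (c • a) = B.valuation c * N a) : N 0 = 0 := by
  have h := hsmul 0 0
  simpa using h

theorem tiv_sum_le {ι : Type*} (hadd : ∀ a b, N (a + b) ≤ max (N a) (N b))
    (hsmul : ∀ (c : ℂ) a, N (c • a) = B.valuation c * N a) (s : Finset ι) (f : ι → M)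
    (r : B.ValueGroup) (h : ∀ i ∈ s, N (f i) ≤ r) : N (∑ i ∈ s, f i) ≤ r := by
  classical
  induction s using Finset.induction_on with
  | empty => simp [tiv_norm_zero B N hsmul]
  | insert a s ha ih =>
    rw [Finset.sum_insert ha]
    exact (hadd _ _).trans (max_le (h a (Finset.mem_insert_self _ _))
      (ih (fun i hi => h i (Finset.mem_insert_of_mem hi))))

theorem tiv_sum_lt {ι : Type*} (hadd : ∀ a b, N (a + b) ≤ max (N a) (N b))
    (hsmul : ∀ (c : ℂ) a, N (c • a) = B.valuation c * N a) (s : Finset ι) (f : ι → M)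
    (r : B.ValueGroup) (hr : 0 < r) (h : ∀ i ∈ s, N (f i) < r) : N (∑ i ∈ s, f i) < r := by
  classical
  induction s using Finset.induction_on with
  | empty => simpa [tiv_norm_zero B N hsmul] using hr
  | insert a s ha ih =>
    rw [Finset.sum_insert ha]
    exact (hadd _ _).trans_lt (max_lt (h a (Finset.mem_insert_self _ _))
      (ih (fun i hi => h i (Finset.mem_insert_of_mem hi))))

end norms

/-- Lemma A: if the `P`-trace of `u` has the same (nonzero) norm as `u`, for a `P`-invariant
ultrametric norm with values in the value group of a valuation ring in which `p` is not a unit,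
then the `P`-translates of `u` are linearly independent. -/
theorem tiv_indep {P : Type*} [Group P] [Fintype P] (p : ℕ) [Fact p.Prime] (hP : IsPGroup p P)
    {M : Type*} [AddCommGroup M] [Module ℂ M] (σ : P →* (M →ₗ[ℂ] M))
    (B : ValuationSubring ℂ) (hB : B.valuation (p : ℂ) < 1)
    (N : M → B.ValueGroup)
    (hadd : ∀ a b, N (a + b) ≤ max (N a) (N b))
    (hsmul : ∀ (c : ℂ) a, N (c • a) = B.valuation c * N a)
    (hinv : ∀ x a, N (σ x a) = N a)
    (u : M) (hu : N u ≠ 0) (hT : N (∑ x, σ x u) = N u) :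
    LinearIndependent ℂ (fun x : P => σ x u) := by
  classical
  by_contra hdep
  rw [Fintype.not_linearIndependent_iff] at hdep
  obtain ⟨c, hc, x₁, hx₁⟩ := hdep
  obtain ⟨x₀, -, hx₀⟩ := Finset.exists_max_image Finset.univ (fun x => B.valuation (c x))
    ⟨x₁, Finset.mem_univ _⟩
  have hcx₀ : c x₀ ≠ 0 := by
    intro h
    have h1 := hx₀ x₁ (Finset.mem_univ _)
    rw [h, map_zero] at h1
    exact hx₁ ((Valuation.zero_iff _).mp (le_zero_iff.mp h1))
  have hvx₀ : B.valuation (c x₀) ≠ 0 := fun h => hcx₀ ((Valuation.zero_iff _).mp h)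
  have hmem : ∀ x, c x / c x₀ ∈ B := by
    intro x
    rw [← ValuationSubring.valuation_le_one_iff, map_div₀]
    exact div_le_one_of_le₀ (hx₀ x (Finset.mem_univ _)) zero_le
  let d₀ : P → B := fun x => ⟨c x / c x₀, hmem x⟩
  have hd₀ : ∑ x, ((d₀ x : B) : ℂ) • σ x u = 0 := by
    have h1 : ∑ x, ((d₀ x : B) : ℂ) • σ x u = (c x₀)⁻¹ • ∑ x, c x • σ x u := by
      rw [Finset.smul_sum]
      apply Finset.sum_congr rfl
      intro x _
      rw [smul_smul]
      congr 1
      change c x / c x₀ = _
      rw [div_eq_inv_mul]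
    rw [h1, hc, smul_zero]
  have hd₀1 : d₀ x₀ = 1 := Subtype.ext (div_self hcx₀)
  -- the residue field
  have hpk : ((p : ℕ) : IsLocalRing.ResidueField B) = 0 := by
    have h1 : ((p : ℕ) : B) ∈ IsLocalRing.maximalIdeal B := by
      rw [ValuationSubring.valuation_lt_one_iff]
      simpa using hB
    have h2 := (IsLocalRing.residue_eq_zero_iff _).mpr h1
    simpa using h2
  have hchar : CharP (IsLocalRing.ResidueField B) p :=
    (CharP.charP_iff_prime_eq_zero (Fact.out : p.Prime)).mpr hpk
  let alg : Algebra (ZMod p) (IsLocalRing.ResidueField B) :=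
    ZMod.algebra (IsLocalRing.ResidueField B) p
  let τ : P →* ((P → IsLocalRing.ResidueField B) →ₗ[ZMod p] (P → IsLocalRing.ResidueField B)) :=
    { toFun := fun x => LinearMap.funLeft (ZMod p) (IsLocalRing.ResidueField B) (fun y => x⁻¹ * y)
      map_one' := by
        apply LinearMap.ext; intro e; funext y
        simp [LinearMap.funLeft_apply]
      map_mul' := fun x x' => by
        apply LinearMap.ext; intro e; funext y
        simp [LinearMap.funLeft_apply, mul_assoc] }
  have hτ : ∀ (x : P) (e : P → IsLocalRing.ResidueField B) (y : P), τ x e y = e (x⁻¹ * y) :=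
    fun x e y => rfl
  let e₀ : P → IsLocalRing.ResidueField B := fun x => IsLocalRing.residue B (d₀ x)
  have he₀ : e₀ ≠ 0 := by
    intro h
    have h1 : e₀ x₀ = 0 := by rw [h]; rfl
    have h2 : e₀ x₀ = 1 := by
      change IsLocalRing.residue B (d₀ x₀) = 1
      rw [hd₀1, map_one]
    rw [h2] at h1
    exact one_ne_zero h1
  have hlift : ∀ e ∈ Submodule.span (ZMod p) (Set.range (fun x : P => τ x e₀)),
      ∃ d : P → B, ∑ x, ((d x : B) : ℂ) • σ x u = 0 ∧
        ∀ x, IsLocalRing.residue B (d x) = e x := by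
    intro e he
    induction he using Submodule.span_induction with
    | mem e he =>
      obtain ⟨y, rfl⟩ := he
      refine ⟨fun x => d₀ (y⁻¹ * x), ?_, fun x => rfl⟩
      have h1 : ∑ x, ((d₀ (y⁻¹ * x) : B) : ℂ) • σ x u
          = σ y (∑ x, ((d₀ x : B) : ℂ) • σ x u) := by
        rw [map_sum, ← Equiv.sum_comp (Equiv.mulLeft y)]
        apply Finset.sum_congr rfl
        intro x _
        simp [map_mul]
      rw [h1, hd₀, map_zero]
    | zero => exact ⟨fun _ => 0, by simp, fun x => by simp⟩
    | add a b _ _ ha hb =>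
      obtain ⟨da, hda, hda'⟩ := ha
      obtain ⟨db, hdb, hdb'⟩ := hb
      refine ⟨fun x => da x + db x, ?_, fun x => by simp [hda', hdb']⟩
      push_cast
      simp only [add_smul, Finset.sum_add_distrib, hda, hdb, add_zero]
    | smul a b _ hb =>
      obtain ⟨db, hdb, hdb'⟩ := hb
      refine ⟨fun x => ((a.val : ℕ) : B) * db x, ?_, fun x => ?_⟩
      · push_cast
        simp only [mul_smul, ← Finset.smul_sum, hdb, smul_zero]
      · rw [map_mul, map_natCast, hdb']
        conv_rhs => rw [← ZMod.natCast_zmod_val a]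
        rw [Nat.cast_smul_eq_nsmul]
        simp [nsmul_eq_mul]
  obtain ⟨e, heS, he0, hefix⟩ := tiv_exists_fixed p hP τ e₀ he₀
  obtain ⟨d, hd, hde⟩ := hlift e heS
  have hconst : ∀ y, e y = e 1 := by
    intro y
    have h1 := congrFun (hefix y) y
    rw [hτ, inv_mul_cancel] at h1
    exact h1.symm
  have hκ : e 1 ≠ 0 := by
    intro h
    apply he0
    funext y
    rw [hconst y, h]
    rfl
  have hv1 : ∀ x, B.valuation ((d x : B) : ℂ) = 1 := by
    intro x
    have h1 : IsLocalRing.residue B (d x) ≠ 0 := by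
      rw [hde, hconst]
      exact hκ
    rw [Ne, IsLocalRing.residue_eq_zero_iff, ValuationSubring.valuation_lt_one_iff] at h1
    exact le_antisymm (B.valuation_le_one (d x)) (not_lt.mp h1)
  have hvlt : ∀ x, B.valuation (((d 1 : B) : ℂ) - ((d x : B) : ℂ)) < 1 := by
    intro x
    have h1 : IsLocalRing.residue B (d 1 - d x) = 0 := by
      rw [map_sub, hde, hde, hconst x, sub_self]
    rw [IsLocalRing.residue_eq_zero_iff, ValuationSubring.valuation_lt_one_iff] at h1
    simpa using h1
  have hkey : ((d 1 : B) : ℂ) • ∑ x, σ x u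
      = ∑ x, (((d 1 : B) : ℂ) - ((d x : B) : ℂ)) • σ x u := by
    simp only [sub_smul, Finset.sum_sub_distrib, hd, sub_zero, Finset.smul_sum]
  have hN1 : N (((d 1 : B) : ℂ) • ∑ x, σ x u) = N u := by
    rw [hsmul, hv1, one_mul, hT]
  have hNu : 0 < N u := zero_lt_iff.mpr hu
  have hN2 : N (∑ x, (((d 1 : B) : ℂ) - ((d x : B) : ℂ)) • σ x u) < N u := by
    apply tiv_sum_lt B N hadd hsmul _ _ _ hNu
    intro x _
    rw [hsmul, hinv]
    exact mul_lt_of_lt_one_left hNu (hvlt x)
  rw [hkey] at hN1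
  exact hN2.ne hN1

/-- A `G`-invariant ultrametric norm on a finite-dimensional complex representation. -/
theorem tiv_exists_norm {G : Type*} [Group G] [Fintype G] {W : Type*} [AddCommGroup W]
    [Module ℂ W] [FiniteDimensional ℂ W] (τ : G →* (W →ₗ[ℂ] W)) (B : ValuationSubring ℂ) :
    ∃ N : W → B.ValueGroup, (∀ a b, N (a + b) ≤ max (N a) (N b)) ∧
      (∀ (c : ℂ) a, N (c • a) = B.valuation c * N a) ∧ (∀ g a, N (τ g a) = N a) ∧
      (∀ a, N a = 0 → a = 0) := by
  classical
  let b := Module.finBasis ℂ W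
  let N : W → B.ValueGroup := fun w =>
    Finset.univ.sup (fun gi : G × Fin (Module.finrank ℂ W) =>
      B.valuation (b.repr (τ gi.1 w) gi.2))
  have hle : ∀ w g i, B.valuation (b.repr (τ g w) i) ≤ N w := fun w g i =>
    Finset.le_sup (f := fun gi : G × Fin (Module.finrank ℂ W) =>
      B.valuation (b.repr (τ gi.1 w) gi.2)) (Finset.mem_univ (g, i))
  have hsmul_le : ∀ (c : ℂ) a, N (c • a) ≤ B.valuation c * N a := by
    intro c a
    apply Finset.sup_le
    rintro ⟨g, i⟩ _
    simp only [map_smul, Finsupp.smul_apply, smul_eq_mul, map_mul]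
    exact mul_le_mul_right (hle a g i) _
  refine ⟨N, ?_, ?_, ?_, ?_⟩
  · intro a c
    apply Finset.sup_le
    rintro ⟨g, i⟩ _
    simp only [map_add, Finsupp.add_apply]
    exact (Valuation.map_add _ _ _).trans (max_le_max (hle a g i) (hle c g i))
  · intro c a
    apply le_antisymm (hsmul_le c a)
    by_cases hc : c = 0
    · subst hc; simp
    · have h1 := hsmul_le c⁻¹ (c • a)
      rw [smul_smul, inv_mul_cancel₀ hc, one_smul] at h1
      calc B.valuation c * N a ≤ B.valuation c * (B.valuation c⁻¹ * N (c • a)) :=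
            mul_le_mul_right h1 _
        _ = N (c • a) := by
            rw [← mul_assoc, ← map_mul, mul_inv_cancel₀ hc, map_one, one_mul]
  · have h1 : ∀ g a, N (τ g a) ≤ N a := by
      intro g a
      apply Finset.sup_le
      rintro ⟨g', i⟩ _
      have h2 := hle a (g' * g) i
      rwa [map_mul] at h2
    intro g a
    apply le_antisymm (h1 g a)
    have h2 := h1 g⁻¹ (τ g a)
    rwa [← Module.End.mul_apply, ← map_mul, inv_mul_cancel, map_one, Module.End.one_apply] at h2
  · intro a ha
    apply b.repr.injective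
    ext i
    have h2 := hle a 1 i
    rw [ha, map_one, Module.End.one_apply] at h2
    simpa using (Valuation.zero_iff _).mp (le_zero_iff.mp h2)

/-- Freeness of the action of a TI Sylow subgroup on the cosets of an overgroup of its
normaliser, away from the trivial coset. -/
theorem tiv_free {G : Type*} [Group G] [Finite G] (p : ℕ) [Fact p.Prime] (P : Sylow p G)
    (hTI : ∀ g : G, g ∉ Subgroup.normalizer ((P : Subgroup G) : Set G) →
      (P : Subgroup G) ⊓ (MulAut.conj g • (P : Subgroup G)) = ⊥)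
    (H : Subgroup G) (hH : Subgroup.normalizer ((P : Subgroup G) : Set G) ≤ H)
    (x : G) (hx : x ∈ (P : Subgroup G)) (hx1 : x ≠ 1) (g : G) (hg : g⁻¹ * x * g ∈ H) :
    g ∈ H := by
  have hPH : (P : Subgroup G) ≤ H := Subgroup.le_normalizer.trans hH
  let P' : Sylow p H := P.subtype hPH
  let Q : Subgroup H := (MulAut.conj g⁻¹ • (P : Subgroup G)).subgroupOf H
  have hQ : IsPGroup p Q := (P.2.map (MulAut.conj g⁻¹).toMonoidHom).comap_subtype
  obtain ⟨R, hR⟩ := hQ.exists_le_sylow
  obtain ⟨h, hh⟩ := MulAction.exists_smul_eq H P' R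
  have hyQ : (⟨g⁻¹ * x * g, hg⟩ : H) ∈ Q := by
    rw [Subgroup.mem_subgroupOf]
    have h1 := Subgroup.smul_mem_pointwise_smul x (MulAut.conj g⁻¹) (P : Subgroup G) hx
    simpa [MulAut.smul_def] using h1
  have hyR : (⟨g⁻¹ * x * g, hg⟩ : H) ∈ (R : Subgroup H) := hR hyQ
  rw [← hh, Sylow.coe_subgroup_smul, Subgroup.mem_pointwise_smul_iff_inv_smul_mem] at hyR
  have hz : (h : G)⁻¹ * (g⁻¹ * x * g) * (h : G) ∈ (P : Subgroup G) := by
    have h1 : ((MulAut.conj h)⁻¹ • (⟨g⁻¹ * x * g, hg⟩ : H)) ∈ (P' : Subgroup H) := hyR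
    rw [Sylow.coe_subtype, Subgroup.mem_subgroupOf] at h1
    simpa [MulAut.smul_def] using h1
  have hz' : (h : G)⁻¹ * (g⁻¹ * x * g) * (h : G)
      ∈ MulAut.conj (g * (h : G))⁻¹ • (P : Subgroup G) := by
    have h1 := Subgroup.smul_mem_pointwise_smul x (MulAut.conj (g * (h : G))⁻¹)
      (P : Subgroup G) hx
    have h2 : MulAut.conj (g * (h : G))⁻¹ • x = (h : G)⁻¹ * (g⁻¹ * x * g) * (h : G) := by
      simp [MulAut.smul_def, mul_assoc]
    rwa [h2] at h1
  have hz1 : (h : G)⁻¹ * (g⁻¹ * x * g) * (h : G) ≠ 1 := by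
    intro h1
    apply hx1
    have h2 : x = g * ((h : G) * ((h : G)⁻¹ * (g⁻¹ * x * g) * (h : G)) * (h : G)⁻¹) * g⁻¹ := by
      group
    rw [h2, h1]
    group
  have hn : (g * (h : G))⁻¹ ∈ Subgroup.normalizer ((P : Subgroup G) : Set G) := by
    by_contra hn
    have h1 := hTI _ hn
    have h2 : (h : G)⁻¹ * (g⁻¹ * x * g) * (h : G)
        ∈ (P : Subgroup G) ⊓ MulAut.conj (g * (h : G))⁻¹ • (P : Subgroup G) := ⟨hz, hz'⟩
    rw [h1, Subgroup.mem_bot] at h2
    exact hz1 h2
  have h3 : g * (h : G) ∈ H := by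
    have := hH hn
    rwa [inv_mem_iff] at this
  exact (Subgroup.mul_mem_cancel_right H h.2).mp h3


/-- Main lemma: for a TI Sylow `p`-subgroup `P` of `G`, an overgroup `H` of `N_G(P)` and a
representation of `G` of dimension at most `|P|` having a nonzero `G`-fixed vector, every
`H`-fixed vector is `G`-fixed. -/
theorem tiv_fixed_eq {G : Type*} [Group G] [Fintype G] (p : ℕ) [Fact p.Prime] (P : Sylow p G)
    (hTI : ∀ g : G, g ∉ Subgroup.normalizer ((P : Subgroup G) : Set G) →
      (P : Subgroup G) ⊓ (MulAut.conj g • (P : Subgroup G)) = ⊥)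
    (H : Subgroup G) (hH : Subgroup.normalizer ((P : Subgroup G) : Set G) ≤ H)
    {W : Type*} [AddCommGroup W] [Module ℂ W] [FiniteDimensional ℂ W] (τ : G →* (W →ₗ[ℂ] W))
    (hdim : Module.finrank ℂ W ≤ Nat.card (P : Subgroup G))
    (e : W) (he : e ≠ 0) (hefix : ∀ g, τ g e = e)
    (w : W) (hw : ∀ h ∈ H, τ h w = w) : ∀ g, τ g w = w := by
  classical
  have hPH : (P : Subgroup G) ≤ H := Subgroup.le_normalizer.trans hH
  have : Fintype (G ⧸ H) := Fintype.ofFinite _
  have hF : ∀ w' : W, (∀ h ∈ H, τ h w' = w') → ∀ g : G,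
      τ (QuotientGroup.mk g : G ⧸ H).out w' = τ g w' := by
    intro w' hw' g
    obtain ⟨h, hh⟩ := QuotientGroup.mk_out_eq_mul H g
    rw [hh, map_mul, Module.End.mul_apply, hw' h h.2]
  have hFsmul : ∀ w' : W, (∀ h ∈ H, τ h w' = w') → ∀ (x : G) (q : G ⧸ H),
      τ x (τ q.out w') = τ (x • q).out w' := by
    intro w' hw' x q
    have h1 : x • q = QuotientGroup.mk (x * q.out) := by
      conv_lhs => rw [← QuotientGroup.out_eq' q]
      rfl
    rw [h1, hF w' hw', map_mul, Module.End.mul_apply]
  have hsumfix : ∀ w' : W, (∀ h ∈ H, τ h w' = w') → ∀ x : G,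
      τ x (∑ q : G ⧸ H, τ q.out w') = ∑ q : G ⧸ H, τ q.out w' := by
    intro w' hw' x
    rw [map_sum]
    conv_rhs => rw [← Equiv.sum_comp (MulAction.toPerm x : Equiv.Perm (G ⧸ H))]
    apply Finset.sum_congr rfl
    intro q _
    rw [hFsmul w' hw']
    rfl
  have hmain : ∀ w' : W, (∀ h ∈ H, τ h w' = w') → ∑ q : G ⧸ H, τ q.out w' = 0 → w' = 0 := by
    intro w' hw' hsum
    by_contra hw'0
    set q₀ : G ⧸ H := QuotientGroup.mk 1 with hq₀
    have hq₀fix : ∀ x : (P : Subgroup G), x • q₀ = q₀ := by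
      intro x
      change (QuotientGroup.mk ((x : G) * 1) : G ⧸ H) = QuotientGroup.mk 1
      rw [QuotientGroup.eq]
      simpa using hPH x.2
    have hstab : ∀ x : (P : Subgroup G), ∀ q ∈ Finset.univ.erase q₀,
        x • q ∈ Finset.univ.erase q₀ := by
      intro x q hq
      rw [Finset.mem_erase] at hq ⊢
      refine ⟨fun h => hq.1 ?_, Finset.mem_univ _⟩
      have h1 : q = x⁻¹ • q₀ := by rw [← h, inv_smul_smul]
      rw [h1, hq₀fix]
    have hfree : ∀ x : (P : Subgroup G), ∀ q ∈ Finset.univ.erase q₀, x • q = q → x = 1 := by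
      intro x q hq hxq
      by_contra hx1
      rw [Finset.mem_erase] at hq
      obtain ⟨g, rfl⟩ := QuotientGroup.mk_surjective q
      have h1 : (QuotientGroup.mk ((x : G) * g) : G ⧸ H) = QuotientGroup.mk g := hxq
      rw [QuotientGroup.eq] at h1
      have h2 : g⁻¹ * (x : G)⁻¹ * g ∈ H := by
        simpa [mul_assoc] using h1
      have h3 : g⁻¹ * (x : G) * g ∈ H := by
        have := H.inv_mem h2
        simpa [mul_assoc] using this
      have h4 : g ∈ H := tiv_free p P hTI H hH (x : G) x.2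
        (fun h => hx1 (Subtype.ext h)) g h3
      apply hq.1
      rw [hq₀, QuotientGroup.eq]
      simpa using H.inv_mem h4
    obtain ⟨T, -, hT⟩ := tiv_free_sum (P := (P : Subgroup G)) (fun q : G ⧸ H => τ q.out w')
      (Finset.univ.erase q₀) hstab hfree
    set u' : W := ∑ t ∈ T, τ t.out w' with hu'
    have hq₀out : τ q₀.out w' = w' := by
      rw [hq₀, hF w' hw', map_one, Module.End.one_apply]
    have htr : ∑ x : (P : Subgroup G), τ (x : G) u' = -w' := by
      have h1 : ∑ q : G ⧸ H, τ q.out w' = τ q₀.out w' + ∑ q ∈ Finset.univ.erase q₀, τ q.out w' :=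
        (Finset.add_sum_erase Finset.univ (fun q : G ⧸ H => τ q.out w')
          (Finset.mem_univ q₀)).symm
      rw [hsum, hq₀out, hT] at h1
      have h2 : ∑ x : (P : Subgroup G), τ (x : G) u'
          = ∑ t ∈ T, ∑ x : (P : Subgroup G), τ (x • t).out w' := by
        rw [hu', Finset.sum_comm]
        apply Finset.sum_congr rfl
        intro x _
        rw [map_sum]
        apply Finset.sum_congr rfl
        intro t _
        rw [hFsmul w' hw']
        rfl
      rw [h2]
      exact (eq_neg_of_add_eq_zero_right h1.symm)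
    obtain ⟨B, hB⟩ := tiv_exists_valuationSubring p
    obtain ⟨N, hadd, hsmul, hinv, hN0⟩ := tiv_exists_norm τ B
    have hNneg : N (-w') = N w' := by
      have h1 := hsmul (-1) w'
      rw [neg_one_smul] at h1
      rw [h1]
      simp
    have hNw' : N w' ≠ 0 := fun h => hw'0 (hN0 w' h)
    have hNu'le : N u' ≤ N w' := by
      apply tiv_sum_le B N hadd hsmul
      intro t _
      rw [hinv]
    have hNw'le : N w' ≤ N u' := by
      rw [← hNneg, ← htr]
      apply tiv_sum_le B N hadd hsmul
      intro x _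
      rw [hinv]
    have hNu' : N u' = N w' := le_antisymm hNu'le hNw'le
    let σ : (P : Subgroup G) →* (W →ₗ[ℂ] W) := τ.comp (P : Subgroup G).subtype
    have hσ : ∀ x : (P : Subgroup G), σ x = τ (x : G) := fun x => rfl
    have hindep : LinearIndependent ℂ (fun x : (P : Subgroup G) => σ x u') := by
      apply tiv_indep p P.2 σ B hB N hadd hsmul (fun x a => hinv _ a) u'
      · rw [hNu']; exact hNw'
      · simp only [hσ]
        rw [htr, hNneg, hNu']
    have hcard : Fintype.card (P : Subgroup G) = Module.finrank ℂ W := by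
      apply le_antisymm hindep.fintype_card_le_finrank
      rw [← Nat.card_eq_fintype_card]
      exact hdim
    have hspan := hindep.span_eq_top_of_card_eq_finrank' hcard
    have hemem : e ∈ Submodule.span ℂ (Set.range (fun x : (P : Subgroup G) => σ x u')) := by
      rw [hspan]; trivial
    rw [Submodule.mem_span_range_iff_exists_fun] at hemem
    obtain ⟨c, hc⟩ := hemem
    have hcconst : ∀ y : (P : Subgroup G), c y = c 1 := by
      intro y
      have h1 : ∑ x : (P : Subgroup G), c (y⁻¹ * x) • σ x u' = ∑ x, c x • σ x u' := by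
        rw [hc]
        rw [← hefix (y : G), ← hc, map_sum, ← Equiv.sum_comp (Equiv.mulLeft y)]
        apply Finset.sum_congr rfl
        intro x _
        simp [hσ, map_mul]
      have h2 : ∑ x : (P : Subgroup G), (c (y⁻¹ * x) - c x) • σ x u' = 0 := by
        simp only [sub_smul, Finset.sum_sub_distrib, h1, sub_self]
      have h3 := Fintype.linearIndependent_iff.mp hindep _ h2 y
      rw [inv_mul_cancel] at h3
      exact (sub_eq_zero.mp h3).symm
    have he' : e = c 1 • (-w') := by
      rw [← htr, ← hc, Finset.smul_sum]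
      apply Finset.sum_congr rfl
      intro x _
      rw [hcconst x, hσ]
    have hc1 : c 1 ≠ 0 := by
      intro h
      rw [h, zero_smul] at he'
      exact he he'
    have hw'fix : ∀ g : G, τ g w' = w' := by
      intro g
      have h1 : w' = (-(c 1)⁻¹) • e := by
        rw [he', smul_smul, smul_neg, neg_mul, inv_mul_cancel₀ hc1, neg_smul, neg_neg, one_smul]
      rw [h1, map_smul, hefix]
    have h5 : ∑ q : G ⧸ H, τ q.out w' = (Fintype.card (G ⧸ H) : ℂ) • w' := by
      simp only [hw'fix, Finset.sum_const, Finset.card_univ]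
      rw [Nat.cast_smul_eq_nsmul]
    rw [hsum] at h5
    have h6 : (Fintype.card (G ⧸ H) : ℂ) ≠ 0 := Nat.cast_ne_zero.mpr Fintype.card_ne_zero
    exact hw'0 ((smul_eq_zero.mp h5.symm).resolve_left h6)
  set m : ℕ := Fintype.card (G ⧸ H) with hm
  have hm0 : (m : ℂ) ≠ 0 := by
    rw [hm]
    exact Nat.cast_ne_zero.mpr Fintype.card_ne_zero
  set A := ∑ q : G ⧸ H, τ q.out w with hA
  have hAfix := hsumfix w hw
  rw [← hA] at hAfix
  have hw'fix : ∀ h ∈ H, τ h (w - (m : ℂ)⁻¹ • A) = w - (m : ℂ)⁻¹ • A := by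
    intro h hh
    rw [map_sub, map_smul, hw h hh, hAfix h]
  have hw'sum : ∑ q : G ⧸ H, τ q.out (w - (m : ℂ)⁻¹ • A) = 0 := by
    simp only [map_sub, map_smul, hAfix, Finset.sum_sub_distrib, Finset.sum_const,
      Finset.card_univ]
    rw [← hA, ← hm, ← Nat.cast_smul_eq_nsmul ℂ, smul_smul, mul_inv_cancel₀ hm0, one_smul,
      sub_self]
  have hw' := hmain _ hw'fix hw'sum
  intro g
  have h7 : w = (m : ℂ)⁻¹ • A := sub_eq_zero.mp hw'
  rw [h7, map_smul, hAfix]


end Cfsg.Agent.Helper67
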